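import Cfsg.Agent.Lib.H33.Cf2

/-! The case `t^G ∩ A = t E`: the group `R = U⟨s⟩` of order 128 (helper5).
Codes in `R`: `s = 1, t = 2, u = 4, k = 8, r = 16, z = 32, f = 64`. -/

set_option autoImplicit false

namespace Cfsg.Lib.H33

open Cfsg.Lib.Calc Cfsg.Lib.Transfer Subgroup

namespace Cfg0

variable {G : Type*} [Group G] [Finite G] {e : Bool} (C : Cfg0 G e)

set_option hygiene false in
local notation "𝔰" => el (Cfg0.gs C)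
set_option hygiene false in
local notation "𝔪" => Mp (Cfg0.pg C) (Cfg0.pg C)
set_option quotPrecheck false in
local notation "dk" => by clear_aux_decl; clear * -; decide +kernel +revert

theorem exK : ∃ K : Subgroup G, (∀ x y, cm x y ∈ K) ∧ (∀ x, x * x ∈ K) ∧ (∀ x, 𝔰 x ∈ K ↔ e = true ∨ x / 16 % 2 = 0) ∧
    ∀ x, x ∈ K ∨ x * 𝔰 16 ∈ K := by
  cases e
  · simpa using C.chi rfl
  · exact ⟨⊤, by simp⟩

theorem theta (n1 : ¬ IsConj (𝔰 8) (𝔰 16)) (n2 : ¬ IsConj (𝔰 8) (𝔰 24)) {x : ℕ} (l : x < 64) (a : IM 62 x)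
    (h : IsConj (𝔰 8) (𝔰 x)) : x / 8 % 4 = 1 := by
  obtain ⟨g, hg⟩ := exists_cg h
  replace hg : 𝔪 g 8 x := hg
  have p := hg.sq
  have q := hg.ne .zero
  have k : ∀ y, y = 16 ∨ y = 24 → ¬ IsConj (𝔰 8) (𝔰 y) → ¬ IsConj (𝔰 8) (𝔰 (y + 32)) := fun y a b c => by
    cases e
    · exact C.ncj rfl (by omega) c
    · exact b (c.trans (Mp.sf C.pg 1 _ _ (by rcases a with rfl | rfl <;> exact dk)).conj)
  by_cases b : IM 24 x
  · obtain rfl | rfl | rfl : x = 8 ∨ x = 16 ∨ x = 24 := (by clear_aux_decl; clear * - l q b; decide +kernel +revert)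
    exacts [rfl, absurd h n1, absurd h n2]
  have := h.trans (C.cjT _ x ⟨l, rfl, a, p, b⟩).symm
  obtain c | c | c | c : x / 8 % 4 = 0 ∨ x / 8 % 4 = 1 ∨ x / 8 % 4 = 2 ∨ x / 8 % 4 = 3 := by omega
  all_goals rw [c] at this
  exacts [absurd this C.ntz, c, absurd this (k 16 (.inl rfl) n1), absurd this (k 24 (.inr rfl) n2)]

theorem KD.times {k : G} (h : C.KD k) (y : ℕ) (l : y < 64) (hy : IM 56 y) : C.KD (k * 𝔰 y) := by
  refine ⟨mul_mem h.nS (le_normalizer (el_mem _ _)), ?_, (h.t.tr y).r _ (by clear_aux_decl; clear * - l hy; decide +kernel +revert), (h.r.tr y).r _ (by clear_aux_decl; clear * - l hy; decide +kernel +revert),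
    (h.c.tr y).r _ (by clear_aux_decl; clear * - l hy; decide +kernel +revert), (h.z.tr y).r _ (by clear_aux_decl; clear * - l hy; decide +kernel +revert)⟩
  simpa [cg, mul_assoc] using mul_mem (mul_mem h.sq (cg_mem_norm (el_mem C.gs y) h.nS)) (el_mem C.gs y)

/-- The elements normalising `A` and centralising `Ω`. -/
def MY : Subgroup G := normalizer (MS C.gs 58 : Set G) ⊓ rcK (MS C.gs 50) (MS C.gs 0)

theorem MY.fix {y : G} (h : y ∈ C.MY) {x : ℕ} (hx : IM 50 x := by decide) : 𝔪 y x x :=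
  cm_eq_one.1 (ms_zero.1 (h.2.2 _ (el_mem_ms hx)))

theorem MY.of {y : G} {x : ℕ} (a : 𝔪 y 8 x) (hx : IM 58 x) (b : 𝔪 y 2 2) (c : 𝔪 y 16 16) (d : 𝔪 y 32 32) : y ∈ C.MY :=
  ⟨C.nmA b a c d ⟨by decide, hx, by decide, by decide⟩, C.pg.mem_rcK dk (PG.nm_zero _ _) fun i p q => by
    obtain rfl | rfl | rfl : i = 1 ∨ i = 4 ∨ i = 5 := (by clear_aux_decl; clear * - p q; decide +kernel +revert)
    exacts [ms_zero.2 (cm_eq_one.2 b), ms_zero.2 (cm_eq_one.2 c), ms_zero.2 (cm_eq_one.2 d)]⟩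

theorem MY.nm {w : G} (a : w ∈ normalizer (MS C.gs 58 : Set G)) (b : w ∈ normalizer (MS C.gs 50 : Set G)) :
    w ∈ normalizer (C.MY : Set G) := norm_inf (norm_norm a) (norm_rcK b (PG.nm_zero _ _))

theorem nmO {w : G} {a c d : ℕ} (h1 : 𝔪 w 2 a) (h3 : 𝔪 w 16 c) (h4 : 𝔪 w 32 d)
    (h : IM 50 a ∧ IM 50 c ∧ IM 50 d := by decide) : w ∈ normalizer (MS C.gs 50 : Set G) :=
  C.pg.nm_ms fun i p q => by
    obtain rfl | rfl | rfl : i = 1 ∨ i = 4 ∨ i = 5 := (by clear_aux_decl; clear * - p q; decide +kernel +revert)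
    exacts [h1.mem h.1, h3.mem h.2.1, h4.mem h.2.2]

theorem inA {T : Subgroup G} (hT : IsPGroup 2 T) (a : MS C.gs 62 ≤ T) {y : G} (b : y ∈ T) (c : 𝔪 y 2 2) (d : 𝔪 y 8 8) :
    ∃ x < 64, IM 58 x ∧ y = 𝔰 x := by
  rcases C.sw hT a b d with h | h | h
  · obtain ⟨x, l, p, rfl⟩ := C.pg.ex_ms okT h
    have q := c.of_el
    exact ⟨x, l, (by clear_aux_decl; clear * - l p q; decide +kernel +revert), rfl⟩
  · exact absurd (c.eq h rfl) (by decide)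
  · exact absurd (c.eq h rfl) (by decide)

/-- A 2-group `T` containing `S*` and `k` such that `T ∩ M` is normalised by an element acting as `ρ`. -/
theorem st3 (n1 : ¬ IsConj (𝔰 8) (𝔰 16)) (n2 : ¬ IsConj (𝔰 8) (𝔰 24)) {k : G} (hk : C.KD k) (kf : 𝔪 k 16 16) :
    ∃ (T : Subgroup G) (ρ : G), IsPGroup 2 T ∧ MS C.gs 62 ≤ T ∧ k ∈ T ∧ (∀ x, x ∈ T ⊓ C.MY ↔ cg x ρ ∈ T ⊓ C.MY) ∧
      𝔪 ρ 8 8 ∧ 𝔪 ρ 16 16 ∧ 𝔪 ρ 32 2 ∧ 𝔪 ρ 2 34 := by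
  obtain ⟨ρ, r1, r2, r3, r4⟩ := C.rho
  have kM := MY.of C hk.t (by decide) hk.r kf hk.z
  obtain ⟨v, l, hv⟩ := C.pg.ex hk.sq
  have p := (hk.r.trans hk.r).of_eq hv
  have k2 : k * k ∈ MS C.gs 62 := hv ▸ el_mem_ms (by clear_aux_decl; clear * - l p; decide +kernel +revert)
  obtain ⟨T, hT, a, -, b⟩ := syl_fr (M := C.MY) (pg_sup' (C.pg.pgroup.to_le (ms_le _ _)) k2 (C.nmT hk.r hk.c hk.t kf hk.z))
    (sup_le (fun x h => MY.nm C (C.pg.le_nm dk h) (C.pg.le_nm dk h)) (zpowers_le.2 (le_normalizer kM)))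
  have rM := MY.nm C (C.nmA r4 r1 r2 r3) (C.nmO r4 r2 r3)
  obtain ⟨m, hm, c⟩ := b ρ rM
  have kT := a (mem_sup_right (mem_zpowers _))
  have N : ρ * m ∈ normalizer ((T ⊓ C.MY : Subgroup G) : Set G) :=
    mem_norm_of_cg fun x h => ⟨c x h.1 h.2, cg_mem_norm h.2 (mul_mem rM (le_normalizer hm))⟩
  obtain ⟨t1, l1, p1, m1⟩ := Mp.exm (h := C.pg) okA hm.1 8
  have p2 := C.theta n1 n2 l1 (IM.trans (by decide) p1) m1.conj
  have m2 := r1.trans m1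
  have m3 := r3.trans (MY.fix C hm)
  have m4 := r4.trans (MY.fix C hm)
  have m5 := r2.trans (MY.fix C hm)
  have uT := cg_mem_norm (⟨kT, kM⟩ : k ∈ T ⊓ C.MY) N
  have m6 := hk.t.cjg m2 ((m2.mul m3).l 40)
  have key : ∀ x ∈ T ⊓ C.MY, 𝔪 x t1 8 → ∃ (T : Subgroup G) (ρ : G), IsPGroup 2 T ∧ MS C.gs 62 ≤ T ∧ k ∈ T ∧
      (∀ x, x ∈ T ⊓ C.MY ↔ cg x ρ ∈ T ⊓ C.MY) ∧ 𝔪 ρ 8 8 ∧ 𝔪 ρ 16 16 ∧ 𝔪 ρ 32 2 ∧ 𝔪 ρ 2 34 := fun x p q =>
    ⟨T, ρ * m * x, hT, le_sup_left.trans a, kT, fun y => ⟨fun h => cg_mem_norm h (mul_mem N (le_normalizer p)),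
      fun h => mem_of_cg_mem h (mul_mem N (le_normalizer p))⟩, m2.trans q, m5.trans (MY.fix C p.2),
      m3.trans (MY.fix C p.2), m4.trans (MY.fix C p.2)⟩
  obtain rfl | rfl | rfl | rfl : t1 = 8 ∨ t1 = 40 ∨ t1 = 10 ∨ t1 = 42 := (by clear_aux_decl; clear * - l1 p1 p2; decide +kernel +revert)
  · exact key 1 (one_mem _) (cg_one' _)
  · exact key k ⟨kT, kM⟩ ((hk.t.mul hk.z).cast _ _)
  · exact key _ uT (m6.r _)
  · exact key _ (mul_mem uT ⟨kT, kM⟩) ((m6.r 40).trans ((hk.t.mul hk.z).cast _ _))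

theorem fixO {x : G} (hx : x ∈ C.MY) {t1 α : ℕ} (a : 𝔪 x 8 t1) (b : ¬ EQ 64 8 t1) (l : α < 64) (c : IM 58 α) (d : 𝔪 x α α) :
    IM 50 α := by
  by_contra n
  have w : IM 50 (α ^^^ 8) ∧ EQ 64 (mul (DS e) α (α ^^^ 8)) 8 := (by clear_aux_decl; clear * - l c n; decide +kernel +revert)
  exact b (((d.mul (MY.fix C hx w.1)).cast 8 8 ⟨w.2, w.2⟩).eq a rfl)

theorem KD.ka {k : G} (hk : C.KD k) {K : Subgroup G} (K1 : ∀ x y, cm x y ∈ K)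
    (K3 : ∀ x, 𝔰 x ∈ K ↔ e = true ∨ x / 16 % 2 = 0) {β : ℕ} (hβ : k * k = 𝔰 β) (b : β = 0 ∨ β = 32) :
    cg k (𝔰 1) = k ∨ cg k (𝔰 1) = k * 𝔰 32 := by
  obtain ⟨a1, l, m⟩ : ∃ y < 64, 𝔪 k 1 y := C.pg.img0 hk.nS 1
  have p1 := (m.mul m).eq hk.c
  have p2 := (Mp.sf C.pg 1 2 38).act hk.r (((hk.r.mul hk.c).mul hk.z).cast _ 38) m
  have p3 := (Mp.sf C.pg 1 6 2).act ((hk.r.mul hk.c).cast _ 6) hk.r m
  have q : cg k (𝔰 1) = k * 𝔰 (mul (DS e) (inv (DS e) a1) 1) := by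
    rw [← C.pg.mul, ← C.pg.inv, ← m.e]; simp [cg, mul_assoc]
  have p5 := (K3 (mul (DS e) (inv (DS e) a1) 1 % 64)).1 (by
    rw [el_modN C.pg]; simpa [cm, q] using K1 k (𝔰 1))
  have q2 : cg (k * k) (𝔰 1) = k * k := by rw [hβ, C.pg.cg, C.pg.eq]; rcases b with rfl | rfl <;> exact dk
  have q3 : ∀ y, cg k (𝔰 1) = k * 𝔰 y → cg (𝔰 y) k * 𝔰 y = 1 := fun y h => by
    rw [cg_mul, h] at q2
    simpa [cg, mul_assoc] using congrArg (fun x => k⁻¹ * (k⁻¹ * x)) q2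
  obtain h | h | h | h : EQ 64 (mul (DS e) (inv (DS e) a1) 1) 0 ∨ EQ 64 (mul (DS e) (inv (DS e) a1) 1) 32 ∨
    EQ 64 (mul (DS e) (inv (DS e) a1) 1) 8 ∨ EQ 64 (mul (DS e) (inv (DS e) a1) 1) 40 := (by clear_aux_decl; clear * - l p1 p2 p3 p5; decide +kernel +revert)
  all_goals rw [(C.pg.eq _ _).2 h] at q
  · exact .inl (by rw [q, el_zero, mul_one])
  · exact .inr q
  · exact absurd (q3 _ q) (by rw [hk.t, C.pg.mul, C.pg.one]; exact dk)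
  · exact absurd (q3 _ q) (by rw [((hk.t.mul hk.z).cast 40 8).e, C.pg.mul, C.pg.one]; exact dk)

end Cfg0

def D4 (τ : Bool) : Dat := [(0, [1, cond τ 14 6, 4, 24, 16, 32]), (0, [5, 10, 4, 8, 16]), (cond τ 2 0, [1, 2, 4, 8]),
  (cond τ 2 0, [1, 2, 4]), (0, [1, 2]), (0, [1]), (0, [])]

structure St4 {G : Type*} [Group G] {e : Bool} (C : Cfg0 G e) (τ : Bool) where
  gs : List G
  pg : PG gs (D4 τ) 128
  s : el gs 1 = el C.gs 6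
  t : el gs 2 = el C.gs 8
  r : el gs 16 = el C.gs 2
  z : el gs 32 = el C.gs 32
  f : el gs 64 = el C.gs 16
  n1 : ¬ IsConj (el C.gs 8) (el C.gs 16)
  n2 : ¬ IsConj (el C.gs 8) (el C.gs 24)
  ak : Mp pg pg (el C.gs 1) 8 8 ∨ Mp pg pg (el C.gs 1) 8 40
  rho : ∃ ρ, Mp pg pg ρ 2 2 ∧ Mp pg pg ρ 64 64 ∧ Mp pg pg ρ 32 16 ∧ Mp pg pg ρ 16 48 ∧
    (∃ y < 128, y % 16 = 4 ∧ Mp pg pg ρ 8 y) ∧ ∃ y < 128, y % 16 = 12 ∧ Mp pg pg ρ 4 y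
  chi : ∃ K : Subgroup G, (∀ x y, cm x y ∈ K) ∧ (∀ x, x * x ∈ K) ∧ ∀ x, el gs x ∈ K ↔ e = true ∨ x / 64 % 2 = 0

end Cfsg.Lib.H33
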