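import Cfsg.Agent.Lib.H33.C4a

/-! Construction of `St4` (helper5). -/

set_option autoImplicit false
set_option synthInstance.maxSize 2048

namespace Cfsg.Lib.H33

open Cfsg.Lib.Calc Cfsg.Lib.Transfer Subgroup

namespace Cfg0

variable {G : Type*} [Group G] [Finite G] {e : Bool} (C : Cfg0 G e)

set_option hygiene false in
local notation "𝔰" => el (Cfg0.gs C)
set_option hygiene false in
local notation "𝔪" => Mp (Cfg0.pg C) (Cfg0.pg C)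
set_option quotPrecheck false in
local notation "dk" => by clear_aux_decl; clear * -; decide +kernel +revert

theorem mk4 (τ : Bool) (n1 : ¬ IsConj (𝔰 8) (𝔰 16)) (n2 : ¬ IsConj (𝔰 8) (𝔰 24)) {k u ρ : G} (hk : C.KD k) (kf : 𝔪 k 16 16)
    (uM : u ∈ C.MY) (ut : 𝔪 u 8 10) (k2 : k * k = 𝔰 (cond τ 32 0)) (u2 : u * u = 𝔰 (cond τ 2 0)) (ku : cg k u = k)
    (us : cg u (𝔰 6) = u * (k * 𝔰 (cond τ 2 0))) {K : Subgroup G} (K1 : ∀ x y, cm x y ∈ K) (K2 : ∀ x, x * x ∈ K)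
    (K3 : ∀ x, 𝔰 x ∈ K ↔ e = true ∨ x / 16 % 2 = 0) (kK : k ∈ K) (uK : u ∈ K)
    (r1 : 𝔪 ρ 8 8) (r2 : 𝔪 ρ 16 16) (r3 : 𝔪 ρ 32 2) (r4 : 𝔪 ρ 2 34) (r5 : u⁻¹ * cg k ρ ∈ MS C.gs 50)
    (r6 : (u * k)⁻¹ * cg u ρ ∈ MS C.gs 50) : Nonempty (St4 C τ) := by
  have kM := MY.of C hk.t (by decide) hk.r kf hk.z
  have h0 : PG [𝔰 2, 𝔰 32, 𝔰 16] [(0, [1, 2]), (0, [1]), (0, [])] 8 := C.pg.sub (cs := [2, 32, 16]) dk rfl
  have E : ∀ x y g : ℕ, EQ 64 (cj (DS e) x g) y → cg (𝔰 x) (𝔰 g) = 𝔰 y := fun x y g h => (Mp.sf C.pg g x y h).e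
  have F : ∀ x y g : ℕ, EQ 64 (mul (DS e) x g) y → 𝔰 x * 𝔰 g = 𝔰 y := fun x y g h => by rw [C.pg.mul, C.pg.eq]; exact h
  have ks : cg k (𝔰 6) = k := cg_comm ((hk.r.mul hk.c).cast 6 6)
  have kt := hk.t.swap 32
  have utt := ut.swap 2
  have h1 := h0.cons (g := k) (fun h => absurd (hk.t.eq (mem_cent.1 ((gen_le (H := centralizer {𝔰 8})).2 (by
      simp [mem_cent, E 8 8 2 dk, E 8 8 32 dk, E 8 8 16 dk]) h) : 𝔪 k 8 8) rfl) (by decide)) (p := cond τ 2 0) (cs := [1, 2, 4])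
    (by rw [k2]; cases τ <;> simp [el, el_zero]) (by simp [el, hk.r.e, hk.z.e, kf.e])
  have h2 := h1.cons (g := u) (fun h => by
      have := (gen_le (H := normalizer (MS C.gs 40 : Set G))).2 (by
        simp only [List.forall_mem_cons, List.not_mem_nil, IsEmpty.forall_iff, implies_true, and_true]
        refine ⟨C.pg.nm_ms fun i p q => ?_, C.pg.nm_el dk, C.pg.nm_el dk, C.pg.nm_el dk⟩
        obtain rfl | rfl : i = 3 ∨ i = 5 := (by clear_aux_decl; clear * - p q; decide +kernel +revert)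
        exacts [hk.t.mem, hk.z.mem]) h
      exact absurd ((ut.im dk this).1 (by decide)) (by decide)) (p := cond τ 2 0) (cs := [1, 2, 4, 8])
    (by rw [u2]; cases τ <;> simp [el, el_zero]) (by simp [el, ku, (MY.fix C uM (x := 2)).e, (MY.fix C uM (x := 32)).e,
      (MY.fix C uM (x := 16)).e])
  have h3 := h2.cons (g := 𝔰 8) (fun h => absurd (hk.t.eq (cg_comm (mem_cent.1 ((gen_le (H := centralizer {k})).2 (by
      simp [mem_cent, ku, cg_comm hk.r.e, cg_comm hk.z.e, cg_comm kf.e]) h)) : 𝔪 k 8 8) rfl) (by decide)) (p := 0)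
    (cs := [5, 10, 4, 8, 16]) (by rw [F 8 0 8 dk, el_zero, el_zero])
    (by simp [el, kt, utt, E 2 2 8 dk, E 32 32 8 dk, E 16 16 8 dk])
  have h4 := h3.cons (g := 𝔰 6) (fun h => absurd (Mp.of_el (h := C.pg) (mem_cent.1 ((gen_le (H := centralizer {𝔰 2})).2 (by
      simp [mem_cent, hk.r.e, (MY.fix C uM (x := 2)).e, E 2 2 8 dk, E 2 2 32 dk, E 2 2 16 dk]) h) : 𝔪 _ 2 2)) dk) (p := 0)
    (cs := [1, cond τ 14 6, 4, 24, 16, 32]) (by rw [F 6 0 6 dk, el_zero, el_zero])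
    (by cases τ <;> simp [el, el_zero, us, ks, E 8 8 6 dk, E 2 34 6 dk, E 32 32 6 dk, E 16 16 6 dk, F 2 34 32 dk])
  have O : ∀ x ∈ MS C.gs 50, ∃ y < 8, x = el [𝔰 2, 𝔰 32, 𝔰 16] y := fun x h => h0.ex ((ms_le_iff C.pg).2 (fun i p q => by
    obtain rfl | rfl | rfl : i = 1 ∨ i = 4 ∨ i = 5 := (by clear_aux_decl; clear * - p q; decide +kernel +revert)
    all_goals exact mem_gen (by simp)) h)
  obtain ⟨y5, l5, e5⟩ := O _ r5
  obtain ⟨y6, l6, e6⟩ := O _ r6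
  have V : ∀ y, el [𝔰 6, 𝔰 8, u, k, 𝔰 2, 𝔰 32, 𝔰 16] (2 * (2 * (2 * (2 * y)))) = el [𝔰 2, 𝔰 32, 𝔰 16] y := fun y => by
    simp only [el_even]
  refine ⟨⟨_, h4, by simp [el], by simp [el], by simp [el], by simp [el], by simp [el], n1, n2, ?_,
    ⟨ρ, by simp [Mp, el, r1.e], by simp [Mp, el, r2.e], by simp [Mp, el, r3.e], by simp [Mp, el, r4.e, F 2 34 32 dk],
      ⟨2 * (2 * (2 * (2 * y5) + 1)), by omega, by omega, ?_⟩, 2 * (2 * (2 * (2 * y6 + 1) + 1)), by omega, by omega, ?_⟩,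
    K, K1, K2, fun x => ?_⟩⟩
  · simpa [Mp, el] using hk.ka C K1 K3 k2 (by cases τ <;> simp)
  · simp only [Mp, el_even, el_odd, ← e5]; simp [el]
  · simp only [Mp, el_even, el_odd, ← e6]; simp [el, mul_assoc]
  · have m : ∀ (b : Prop) [Decidable b] (g : G), g ∈ K → (if b then g else 1) ∈ K := fun b _ g h => by
      split_ifs; exacts [h, one_mem _]
    simp only [el]
    rw [K.mul_mem_cancel_left (m _ _ ((K3 6).2 (.inr rfl))), K.mul_mem_cancel_left (m _ _ ((K3 8).2 (.inr rfl))),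
      K.mul_mem_cancel_left (m _ _ uK), K.mul_mem_cancel_left (m _ _ kK), K.mul_mem_cancel_left (m _ _ ((K3 2).2 (.inr rfl))),
      K.mul_mem_cancel_left (m _ _ ((K3 32).2 (.inr rfl))), mul_one, show x / 2 / 2 / 2 / 2 / 2 / 2 = x / 64 by omega]
    split_ifs with h
    · rw [K3, h]
    · exact iff_of_true (one_mem _) (.inr (by omega))

theorem st4 (n1 : ¬ IsConj (𝔰 8) (𝔰 16)) (n2 : ¬ IsConj (𝔰 8) (𝔰 24)) {k : G} (hk : C.KD k) (kf : 𝔪 k 16 16) :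
    ∃ τ, Nonempty (St4 C τ) := by
  obtain ⟨K, K1, K2, K3, K4⟩ := C.exK
  wlog kK : k ∈ K generalizing k
  · exact this (hk.times C 16 (by norm_num) (by decide)) ((kf.tr 16).r _) ((K4 k).resolve_left kK)
  obtain ⟨T, ρ, hT, sT, kT, N, r1, r2, r3, r4⟩ := C.st3 n1 n2 hk kf
  have r5 : 𝔪 ρ 34 32 := (r3.mul r4).cast _ _
  have I := fun {y} (a : y ∈ T ⊓ C.MY) (b : 𝔪 y 8 8) => C.inA hT sT a.1 (MY.fix C a.2) b
  have tT : 𝔰 8 ∈ T := sT (el_mem_ms (by decide))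
  have st : ∀ {k}, C.KD k → 𝔪 k 16 16 → k ∈ T → k ∈ T ⊓ C.MY ∧ 𝔪 (cg k ρ) 8 10 ∧ 𝔪 (cg (cg k ρ) ρ) 8 42 ∧
      ∃ x < 64, IM 58 x ∧ k * cg k ρ * cg (cg k ρ) ρ = 𝔰 x := fun {k} hk kf kT => by
    have kM : k ∈ T ⊓ C.MY := ⟨kT, MY.of C hk.t (by decide) hk.r kf hk.z⟩
    have ut : 𝔪 (cg k ρ) 8 10 := hk.t.cjg r1 ((r1.mul r3).cast _ _)
    have vt : 𝔪 (cg (cg k ρ) ρ) 8 42 := ut.cjg r1 ((r1.mul r4).cast _ _)
    exact ⟨kM, ut, vt, I (mul_mem (mul_mem kM ((N _).1 kM)) ((N _).1 ((N _).1 kM))) ((hk.t.trans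
      ((ut.mul (MY.fix C ((N _).1 kM).2 (x := 32))).cast _ 42)).trans ((vt.mul (MY.fix C ((N _).1 ((N _).1 kM)).2 (x := 34))).cast _ _))⟩
  wlog hw : k * cg k ρ * cg (cg k ρ) ρ ∈ MS C.gs 50 generalizing k
  · refine this (hk.times C 8 (by norm_num) (by decide)) ((kf.tr 8).r _) (mul_mem kK ((K3 8).2 (.inr rfl))) (mul_mem kT tT) ?_
    obtain ⟨kM, ut, vt, x, l, p, q⟩ := st hk kf kT
    rw [q, C.pg.mem_ms dk, Nat.mod_eq_of_lt l] at hw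
    have : k * 𝔰 8 * cg (k * 𝔰 8) ρ * cg (cg (k * 𝔰 8) ρ) ρ = k * cg k ρ * cg (cg k ρ) ρ *
      cg (cg (𝔰 8) (cg k ρ)) (cg (cg k ρ) ρ) * cg (𝔰 8) (cg (cg k ρ) ρ) * 𝔰 8 := by
      simp only [cg_mul, r1.e]
      generalize cg (cg k ρ) ρ = v
      generalize cg k ρ = u
      simp [cg, mul_assoc]
    rw [this, q, ut.e, ((vt.mul (MY.fix C ((N _).1 ((N _).1 kM)).2 (x := 2))).cast 10 40).e, vt.e, C.pg.mul, C.pg.mul, C.pg.mul,
      C.pg.mem_ms dk]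
    exact (by clear_aux_decl; clear * - l p hw; decide +kernel +revert)
  obtain ⟨kM, ut, vt, -⟩ := st hk kf kT
  have uM := (N _).1 kM
  have vM := (N _).1 uM
  generalize hu : cg k ρ = u at *
  generalize hv : cg u ρ = v at *
  have ON : ∀ {x}, x ∈ T ⊓ C.MY → ∀ y ∈ MS C.gs 50, cg y x = y := fun a y b => cm_eq_one.1 (ms_zero.1 (a.2.2.2 y b))
  have ks : cg k (𝔰 6) = k := cg_comm ((hk.r.mul hk.c).cast 6 6)
  have sN : ∀ x ∈ T ⊓ C.MY, cg x (𝔰 6) ∈ T ⊓ C.MY := fun x h => ⟨cg_mem h.1 (sT (el_mem_ms (by decide))),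
    cg_mem_norm h.2 (MY.nm C (C.pg.nm_el dk) (C.pg.nm_el dk))⟩
  obtain ⟨β, lβ, pβ, k2⟩ := I (mul_mem kM kM) (hk.t.trans ((hk.t.mul hk.z).cast _ _))
  have qβ := C.fixO kM.2 hk.t (by decide) lβ pβ (by rw [Mp, ← k2, cg_mul, cg_self])
  have sβ : EQ 64 (cj (DS e) β 6) β := Mp.of_el (h := C.pg) (by rw [Mp, ← k2, cg_mul, ks])
  have hus : cg u (𝔰 6) ∈ T ⊓ C.MY := sN _ uM
  have m0 : 𝔪 (cg u (𝔰 6)) 8 42 := ut.cjg (.sf _ _ _ _) (.sf _ _ _ _)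
  have hy : cg (cg (cg u (𝔰 6)) ρ⁻¹) ρ⁻¹ ∈ T ⊓ C.MY := (N _).2 (by rw [cg_inv_cg]; exact (N _).2 (by rwa [cg_inv_cg]))
  have m1 : 𝔪 (cg (cg (cg u (𝔰 6)) ρ⁻¹) ρ⁻¹) 8 40 := (m0.cjg r1.symm ((r1.mul r4).cast 10 42).symm).cjg r1.symm
    ((r1.mul r3).cast 40 10).symm
  generalize hy' : cg (cg (cg u (𝔰 6)) ρ⁻¹) ρ⁻¹ = y at hy m1
  obtain ⟨α, lα, pα, e1⟩ := I (mul_mem (inv_mem kM) hy) (((hk.t.mul hk.z).cast 40 8).symm.trans
    ((m1.mul (MY.fix C hy.2 (x := 32))).cast _ _))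
  have y2 : y * y = k * k := by
    have : ∀ x, IM 50 x → x < 64 → EQ 64 (cj (DS e) x 6) x → cg (cg (cg (cg (𝔰 x) ρ) (𝔰 6)) ρ⁻¹) ρ⁻¹ = 𝔰 x := fun x a b c => by
      have z := ((r3.trans (.sf _ 6 _ 34)).trans r4.symm).trans r3.symm
      have f := ((r2.trans (.sf _ 6 _ 16)).trans r2.symm).trans r2.symm
      simp only [cg_cg, ← mul_assoc]
      obtain rfl | rfl | rfl | rfl : x = 0 ∨ x = 16 ∨ x = 32 ∨ x = 48 := (by clear_aux_decl; clear * - b a c; decide +kernel +revert)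
      exacts [by simp [el_zero], f, z, ((f.mul z).cast 48 48).e]
    rw [← hy', ← hu, ← cg_mul, ← cg_mul, ← cg_mul, ← cg_mul, k2, this β qβ lβ sβ]
  have qα := C.fixO kM.2 hk.t (by decide) lα pα (by
    rw [Mp, eq_inv_of_mul_eq_one_left (show cg (𝔰 α) k * 𝔰 α = 1 by
      rw [← e1]; simpa [cg, mul_assoc] using congrArg (fun x => k⁻¹ * (k⁻¹ * x)) y2), C.pg.inv, C.pg.eq]
    exact (by clear_aux_decl; clear * - lα pα; decide +kernel +revert))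
  have NO := C.nmO r4 r2 r3
  have w3 : k⁻¹ * (u⁻¹ * cg u (𝔰 6)) ∈ MS C.gs 50 := by
    have a : v⁻¹ * cg u (𝔰 6) ∈ MS C.gs 50 := by
      have := cg_mem_norm (cg_mem_norm (e1 ▸ el_mem_ms qα : k⁻¹ * y ∈ _) NO) NO
      rwa [cg_mul, cg_mul, cg_inv, cg_inv, hu, hv, ← hy', cg_inv_cg, cg_inv_cg] at this
    have b : u * u ∈ MS C.gs 50 := by rw [← hu, ← cg_mul, k2]; exact cg_mem_norm (el_mem_ms qβ) NO
    have := mul_mem (mul_mem (mul_mem (show cg (u * u)⁻¹ k ∈ _ by rw [ON kM _ (inv_mem b)]; exact inv_mem b)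
      (inv_mem (k2 ▸ el_mem_ms qβ : k * k ∈ _))) hw) a
    simpa [cg, mul_assoc] using this
  obtain ⟨ω, lω, pω, e3⟩ := C.pg.ex_ms dk w3
  have us : cg u (𝔰 6) = u * (k * 𝔰 ω) := by rw [← e3]; simp
  have p : EQ 64 (mul (DS e) (mul (DS e) β ω) (cj (DS e) ω 6)) 0 := by
    have := congrArg (cg · (𝔰 6)) us
    simp only [cg_cg, C.pg.mul, (C.pg.eq (mul (DS e) 6 6) 0).2 dk, el_zero, cg_one', cg_mul, ks] at this
    rw [us] at this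
    rw [← C.pg.eq, ← C.pg.mul, ← C.pg.mul, ← C.pg.cg, ← k2, el_zero, mul_assoc k, ← cg_eq_iff.1 (MY.fix C kM.2 pω).e]
    simpa [mul_assoc] using this.symm
  obtain ⟨τ, rfl, ζ, lζ, pζ, qζ⟩ : ∃ τ : Bool, β = cond τ 32 0 ∧ ∃ ζ < 64, IM 48 ζ ∧ EQ 64 (mul (DS e) ζ (cond τ 2 0)) ω :=
    (by clear_aux_decl; clear * - lβ qβ sβ lω pω p; decide +kernel +revert)
  have u2 : u * u = 𝔰 (cond τ 2 0) := by
    rw [← hu, ← cg_mul, k2]; cases τ; exacts [Mp.zero (h := C.pg) (h' := C.pg), r3]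
  have v2 : v * v = 𝔰 (cond τ 34 0) := by
    rw [← hv, ← cg_mul, u2]; cases τ; exacts [Mp.zero (h := C.pg) (h' := C.pg), r4]
  have ku : cg k u = k := by
    have a := cg_eq_iff.1 (ON (mul_mem kM uM) _ hw)
    have b : k * u * (k * u) * (v * v) = k * u * v * (k * u * v) := by
      rw [mul_assoc (k * u) (k * u), ← mul_assoc (k * u) v v, ← mul_assoc, ← a, mul_assoc, mul_assoc (k * u) v]
    obtain ⟨x, l, q, hx⟩ := C.pg.ex_ms dk hw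
    rw [hx, C.pg.mul, (C.pg.eq _ 0).2 (by clear_aux_decl; clear * - l q; decide +kernel +revert), el_zero, v2, mul_eq_one_iff_eq_inv, C.pg.inv,
      (C.pg.eq _ (mul (DS e) (cond τ 32 0) (cond τ 2 0))).2 dk, ← C.pg.mul, ← k2, ← u2] at b
    rw [cg_eq_iff]
    exact mul_right_cancel (b := u) (by simpa [mul_assoc] using b.symm)
  have uK : u ∈ K := by simpa [cm, hu] using mul_mem kK (K1 k ρ)
  have ζK : 𝔰 ζ ∈ K := by
    have := mul_mem (inv_mem kK) (K1 u (𝔰 6))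
    rw [cm, e3, ← (C.pg.eq _ _).2 qζ, ← C.pg.mul] at this
    exact (K.mul_mem_cancel_right ((K3 _).2 (.inr dk))).1 this
  have zO : 𝔰 ζ ∈ MS C.gs 50 := el_mem_ms (IM.trans (by decide) pζ)
  refine ⟨τ, C.mk4 τ n1 n2 (hk.times C ζ lζ (IM.trans (by decide) pζ)) ((kf.tr ζ).r _ (by clear_aux_decl; clear * - lζ pζ; decide +kernel +revert)) uM.2 ut ?_ u2
    (by rw [cg_mul, ku, ON uM _ zO]) (by rw [us, mul_assoc k, C.pg.mul, (C.pg.eq _ _).2 qζ]) K1 K2 K3 (mul_mem kK ζK) uK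
    r1 r2 r3 r4 (by rw [cg_mul, hu, inv_mul_cancel_left]; exact cg_mem_norm zO NO) ?_⟩
  · rw [mul_assoc, ← mul_assoc (𝔰 ζ), cg_eq_iff.1 (ON kM _ zO), mul_assoc, ← mul_assoc, k2, C.pg.mul, C.pg.mul, C.pg.eq]
    exact (by clear_aux_decl; clear * - lζ pζ; decide +kernel +revert)
  · have b : u * u ∈ MS C.gs 50 := u2 ▸ el_mem_ms dk
    have c : k * k ∈ MS C.gs 50 := k2 ▸ el_mem_ms dk
    have := mul_mem (mul_mem (mul_mem (inv_mem zO) (show cg (u * u)⁻¹ k ∈ _ by rw [ON kM _ (inv_mem b)]; exact inv_mem b)) (inv_mem c)) hw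
    rw [hv]; simpa [cg, mul_assoc] using this

end Cfg0

end Cfsg.Lib.H33
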