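import Cfsg.Agent.Lib.H33.C4b

/-! Basic facts on `St4` (helper5). -/

set_option autoImplicit false
set_option synthInstance.maxSize 2048

namespace Cfsg.Lib.H33

open Cfsg.Lib.Calc Cfsg.Lib.Transfer Subgroup

namespace St4

variable {G : Type*} [Group G] [Finite G] {e τ : Bool} {C : Cfg0 G e} (X : St4 C τ)

set_option hygiene false in
local notation "𝔰" => el (Cfg0.gs C)
set_option hygiene false in
local notation "𝔪" => Mp (Cfg0.pg C) (Cfg0.pg C)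
set_option hygiene false in
local notation "𝔯" => el (St4.gs X)
set_option hygiene false in
local notation "𝔫" => Mp (St4.pg X) (St4.pg X)
set_option hygiene false in
local notation "𝔑" m:max => normalizer (MS (St4.gs X) m : Set G)
set_option quotPrecheck false in
local notation "dk" => by clear_aux_decl; clear * -; decide +kernel +revert

theorem lk (i : ℕ) : Mp X.pg C.pg 1 (hm (mul (D4 τ)) [1, 2, 16, 32, 64] i) (hm (mul (DS e)) [6, 8, 2, 32, 16] i) :=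
  Mp.hom (.cons ((cg_one' _).trans X.s) (.cons ((cg_one' _).trans X.t) (.cons ((cg_one' _).trans X.r)
    (.cons ((cg_one' _).trans X.z) (.cons ((cg_one' _).trans X.f) .nil))))) i

theorem lk' (x y : ℕ) (h : ∃ i < 32, EQ 128 (hm (mul (D4 τ)) [1, 2, 16, 32, 64] i) y ∧
    EQ 64 (hm (mul (DS e)) [6, 8, 2, 32, 16] i) x := by clear_aux_decl; clear * -; decide +kernel +revert) : 𝔯 y = 𝔰 x :=
  let ⟨i, _, h⟩ := h; (cg_one' _).symm.trans ((X.lk i).cast _ _ h)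

theorem toS {y : ℕ} (l : y < 128) (h : IM 115 y) : ∃ x < 64, IM 62 x ∧ 𝔯 y = 𝔰 x ∧ x / 8 % 4 = y / 2 % 2 + y / 64 * 2 :=
  ⟨hm (mul (DS e)) [6, 8, 2, 32, 16] (y % 4 + y / 16 * 4) % 64, Nat.mod_lt _ (by norm_num), (by clear_aux_decl; clear * - l h; decide +kernel +revert),
    (cg_one' _).symm.trans ((X.lk (y % 4 + y / 16 * 4)).cast _ _ ⟨(by clear_aux_decl; clear * - l h; decide +kernel +revert), (Nat.mod_mod _ _).symm⟩), (by clear_aux_decl; clear * - l h; decide +kernel +revert)⟩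

theorem msT : MS X.gs 115 = MS C.gs 62 := by
  refine le_antisymm ((ms_le_iff X.pg).2 fun i p q => ?_) ((ms_le_iff C.pg).2 fun i p q => ?_)
  · obtain ⟨x, -, a, b, -⟩ := X.toS (y := 2 ^ i) (by clear_aux_decl; clear * - p q; decide +kernel +revert) (by clear_aux_decl; clear * - p q; decide +kernel +revert)
    exact b ▸ el_mem_ms a
  · obtain rfl | rfl | rfl | rfl | rfl : i = 1 ∨ i = 2 ∨ i = 3 ∨ i = 4 ∨ i = 5 := (by clear_aux_decl; clear * - p q; decide +kernel +revert)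
    exacts [X.lk' (2 ^ 1) 16 ▸ el_mem_ms (by decide), X.lk' (2 ^ 2) 49 ▸ el_mem_ms (by decide), X.lk' (2 ^ 3) 2 ▸ el_mem_ms (by decide),
      X.lk' (2 ^ 4) 64 ▸ el_mem_ms (by decide), X.lk' (2 ^ 5) 32 ▸ el_mem_ms (by decide)]

theorem msA : MS X.gs 114 = MS C.gs 58 := by
  refine le_antisymm ((ms_le_iff X.pg).2 fun i p q => ?_) ((ms_le_iff C.pg).2 fun i p q => ?_)
  · obtain rfl | rfl | rfl | rfl : i = 1 ∨ i = 4 ∨ i = 5 ∨ i = 6 := (by clear_aux_decl; clear * - p q; decide +kernel +revert)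
    exacts [(X.lk' 8 (2 ^ 1)).symm ▸ el_mem_ms (by decide), (X.lk' 2 (2 ^ 4)).symm ▸ el_mem_ms (by decide),
      (X.lk' 32 (2 ^ 5)).symm ▸ el_mem_ms (by decide), (X.lk' 16 (2 ^ 6)).symm ▸ el_mem_ms (by decide)]
  · obtain rfl | rfl | rfl | rfl : i = 1 ∨ i = 3 ∨ i = 4 ∨ i = 5 := (by clear_aux_decl; clear * - p q; decide +kernel +revert)
    exacts [X.lk' (2 ^ 1) 16 ▸ el_mem_ms (by decide), X.lk' (2 ^ 3) 2 ▸ el_mem_ms (by decide),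
      X.lk' (2 ^ 4) 64 ▸ el_mem_ms (by decide), X.lk' (2 ^ 5) 32 ▸ el_mem_ms (by decide)]

theorem tr {w : G} {x y x' y' : ℕ} (a : 𝔯 x' = 𝔰 x) (b : 𝔯 y' = 𝔰 y) : 𝔪 w x y ↔ 𝔫 w x' y' := by rw [Mp, Mp, a, b]

theorem theta {y : ℕ} (l : y < 128) (h : IM 115 y) (c : IsConj (𝔯 2) (𝔯 y)) : y &&& 66 = 2 := by
  obtain ⟨x, a, b, p, q⟩ := X.toS l h
  rw [p, X.t] at c
  rw [C.theta X.n1 X.n2 a b c] at q
  exact (by clear_aux_decl; clear * - l q; decide +kernel +revert)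

theorem sw {P : Subgroup G} (hP : IsPGroup 2 P) (a : MS X.gs 115 ≤ P) {y : G} (d : y ∈ P) (f : 𝔫 y 2 2) :
    y ∈ MS X.gs 115 ∨ 𝔫 y 16 1 ∨ 𝔫 y 16 33 := by
  rw [X.msT] at a ⊢
  exact (C.sw hP a d ((X.tr X.t X.t).2 f)).imp_right (Or.imp (X.tr X.r X.s).1 (X.tr X.r (X.lk' 38 33)).1)

theorem sw' {P : Subgroup G} (hP : IsPGroup 2 P) (a : MS X.gs 115 ≤ P) {y : G} (d : y ∈ P) (f : 𝔫 y 2 2)
    {m : ℕ} (k : msOK (D4 τ) 128 m ∧ IM m 16 ∧ ¬ IM m 1 ∧ ¬ IM m 33) (g : y ∈ 𝔑 m) : ∃ x < 128, IM 115 x ∧ y = 𝔯 x := by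
  rcases X.sw hP a d f with h | h | h
  · exact X.pg.ex_ms dk h
  · exact absurd ((h.im k.1 g).1 k.2.1) k.2.2.1
  · exact absurd ((h.im k.1 g).1 k.2.1) k.2.2.2

theorem fixf {w : G} (ht : 𝔫 w 2 2) (hw : w ∈ 𝔑 114) : 𝔫 w 64 64 :=
  (X.tr X.f X.f).1 (C.fixf ((X.tr X.t X.t).2 ht) (X.msA ▸ hw))

theorem as : 𝔫 (𝔰 1) 1 16 := (X.tr X.s X.r).1 (.sf _ _ _ _)
theorem ar : 𝔫 (𝔰 1) 16 33 := (X.tr X.r (X.lk' 38 33)).1 (.sf _ _ _ _)
theorem at' : 𝔫 (𝔰 1) 2 2 := (X.tr X.t X.t).1 (.sf _ _ _ _)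
theorem az : 𝔫 (𝔰 1) 32 32 := (X.tr X.z X.z).1 (.sf _ _ _ _)
theorem af : 𝔫 (𝔰 1) 64 (cond e 96 64) := (X.tr X.f (X.lk' (cond e 48 16) (cond e 96 64))).1 (.sf _ _ _ _)

theorem nm {m : ℕ} {w : G} (L : List (ℕ × ℕ)) (a : ∀ p ∈ L, 𝔫 w p.1 p.2)
    (b : ∀ i < 7, m.testBit i = true → ∃ p ∈ L, p.1 = 2 ^ i ∧ IM m p.2) : w ∈ 𝔑 m :=
  X.pg.nm_ms fun i p q => let ⟨x, c, d, f⟩ := b i p q; d ▸ (a x c).mem f

theorem aN : 𝔰 1 ∈ 𝔑 123 := by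
  rcases X.ak with h | h
  · exact X.nm [(1, 16), (2, 2), (8, 8), (16, 33), (32, 32), (64, cond e 96 64)]
      (by simp [X.as, X.ar, X.at', X.az, X.af, h]) dk
  · exact X.nm [(1, 16), (2, 2), (8, 40), (16, 33), (32, 32), (64, cond e 96 64)]
      (by simp [X.as, X.ar, X.at', X.az, X.af, h]) dk

theorem pR (m : ℕ) : IsPGroup 2 (MS X.gs m) := X.pg.pgroup.to_le (ms_le _ _)

theorem cts : IsConj (𝔯 2) (𝔯 3) := (Mp.sf X.pg 4 2 18).conj.trans (((X.at'.mul X.ar).cast 18 35).conj.trans (Mp.sf X.pg 16 35 3).conj)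

end St4

end Cfsg.Lib.H33
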