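import Cfsg.Agent.Lib.H33.Cfg

/-! More fusion in `C(t)`, the element `k` and renaming `f` (helper5). -/

set_option autoImplicit false

namespace Cfsg.Lib.H33

open Cfsg.Lib.Calc Cfsg.Lib.Transfer Subgroup

namespace Cfg0

variable {G : Type*} [Group G] [Finite G] {e : Bool} (C : Cfg0 G e)

set_option hygiene false in
local notation "𝔰" => el (Cfg0.gs C)
set_option hygiene false in
local notation "𝔪" => Mp (Cfg0.pg C) (Cfg0.pg C)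
set_option quotPrecheck false in
local notation "dk" => by clear_aux_decl; clear * -; decide +kernel +revert

theorem into' {P : Subgroup G} (hP : IsPGroup 2 P) {t' : G} (h : IsConj (𝔰 8) t') (a : ∀ y ∈ P, cg t' y = t') :
    ∃ x, cg t' x = 𝔰 8 ∧ ∀ y ∈ P, cg y x ∈ gen C.gs := by
  obtain ⟨g, rfl⟩ := exists_cg h
  obtain ⟨x, xt, hx⟩ := C.into (P.map (cgH g⁻¹)) (hP.map _) (by
    rintro _ ⟨u, b, rfl⟩
    rw [cgH_apply, ← cg_cg_inv (𝔰 8) g, ← cg_cg', a u b])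
  exact ⟨g⁻¹ * x, by rw [← cg_cg, cg_cg_inv, xt], fun y b => by rw [← cg_cg]; exact hx _ ⟨_, b, cgH_apply _ _⟩⟩

theorem noD16 (he : e = false) {P : Subgroup G} (hP : IsPGroup 2 P) {t' x y : G} (h : IsConj (𝔰 8) t') (hx : x ∈ P) (hy : y ∈ P)
    (a : cg t' x = t') (b : cg t' y = t') (c : cg x y = x⁻¹) : x * x * (x * x) = 1 := by
  subst he
  obtain ⟨v, -, hv⟩ := C.into' (hP.to_le (inf_le_left : P ⊓ centralizer {t'} ≤ P)) h fun y h => mem_cent.1 h.2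
  obtain ⟨x1, l1, m1⟩ := C.pg.ex (hv x ⟨hx, mem_cent.2 a⟩)
  obtain ⟨y1, l2, m2⟩ := C.pg.ex (hv y ⟨hy, mem_cent.2 b⟩)
  have p : EQ 64 (cj (DS false) x1 y1) (inv (DS false) x1) := by
    rw [← C.pg.eq, ← C.pg.cg, ← C.pg.inv, ← m1, ← m2, ← cg_cg', c, cg_inv]
  have q : EQ 64 (mul (DS false) (mul (DS false) x1 x1) (mul (DS false) x1 x1)) 0 := by
    clear_aux_decl; clear * - l1 l2 p; by_contra n; revert y1; revert x1; decide +kernel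
  rw [← cg_eq_one (g := v), cg_mul, cg_mul, m1, C.pg.mul, C.pg.mul, ← el_zero C.gs, C.pg.eq]; exact q

theorem stab (he : e = true) {w : G} (ht : 𝔪 w 8 8) (hc : 𝔪 w 4 4) (hd : 𝔪 w 3 3) : ¬ 𝔪 w 20 52 := by
  subst he
  intro hu
  have hz : 𝔪 w 32 32 := (hc.mul hc).cast _ _
  have hf : 𝔪 w 16 48 := (hu.mul hc.inv).cast _ _
  have k := fun x (h : x ∈ [𝔰 3, 𝔰 4, 𝔰 8, 𝔰 16, 𝔰 32]) => mem_gen h
  simp only [List.forall_mem_cons, List.not_mem_nil, IsEmpty.forall_iff, implies_true, and_true] at k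
  have hw : w ∈ normalizer (gen [𝔰 3, 𝔰 4, 𝔰 8, 𝔰 16, 𝔰 32] : Set G) := norm_gen (by
    simp only [List.forall_mem_cons, List.not_mem_nil, IsEmpty.forall_iff, implies_true, and_true, hd.e, hc.e, ht.e, hf.e, hz.e]
    refine ⟨k.1, k.2.1, k.2.2.1, ?_, k.2.2.2.2⟩
    rw [← (C.pg.eq _ _).2 (dk : EQ 64 (mul (DS true) 16 32) 48), ← C.pg.mul]
    exact mul_mem k.2.2.2.1 k.2.2.2.2)
  have le : gen [𝔰 3, 𝔰 4, 𝔰 8, 𝔰 16, 𝔰 32] ≤ gen C.gs := gen_le.2 (by simp [el_mem])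
  obtain ⟨m, n, hm, hn⟩ := exists_odd_pow w
  obtain ⟨x, xt, hx⟩ := C.into _ (pg_sup (C.pg.pgroup.to_le le) hn (pow_mem hw m)) fun y hy => mem_cent.1
    ((sup_le (fun y h => mem_cent.2 (C.fixt (le h))) (zpowers_le.2 (mem_cent.2 (ht.pow m))) : _ ≤ centralizer {𝔰 8}) hy)
  obtain ⟨c1, l1, m1⟩ := Mp.ex C.pg C.pg (hx _ (mem_sup_left k.2.1))
  have p1 := C.fus xt m1
  have p2 := (m1.mul m1).ne .zero
  obtain ⟨d1, l2, m2⟩ := Mp.ex C.pg C.pg (hx _ (mem_sup_left k.1))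
  have p3 := C.fus xt m2
  have p4 := (m2.mul m2).ne .zero
  have p5 := (m1.mul m2).ne (m2.mul m1)
  obtain ⟨u1, l3, m3⟩ := Mp.ex (x := 20) (w := x) C.pg C.pg (hx _ (mem_sup_left (by
    rw [← (C.pg.eq _ _).2 (dk : EQ 64 (mul (DS true) 4 16) 20), ← C.pg.mul]
    exact mul_mem k.2.1 k.2.2.2.1)))
  have p6 := m3.co m1
  have p7 := m3.co m2
  obtain ⟨w1, l4, m4⟩ := C.pg.ex (hx _ (mem_sup_right (mem_zpowers _)))
  have p8 := (hc.pow m).act m1 m1 m4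
  have p9 := (hd.pow m).act m2 m2 m4
  have p : EQ 64 (cj (DS true) u1 w1) u1 := (by clear_aux_decl; clear * - l1 p1 p2 l2 p3 p4 p5 l3 p6 p7 l4 p8 p9; decide +kernel +revert)
  have q := (hu.odd ((hu.mul hz).cast _ _) hm).act m3 ((m3.mul ((m1.mul m1).l 32)).l 52) m4
  exact (m3.ne ((m3.mul ((m1.mul m1).l 32)).l 52)) (p.symm.trans q)

theorem noAb (he : e = true) {B : Subgroup G} (hB : IsPGroup 2 B) {t' : G} (h : IsConj (𝔰 8) t') (a : ∀ y ∈ B, cg t' y = t')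
    (b : ∀ x ∈ B, ∀ y ∈ B, cg x y = x) : Nat.card B < 32 := by
  subst he
  by_contra n
  obtain ⟨v, -, hv⟩ := C.into' hB h a
  have le : B.map (cgH v) ≤ gen C.gs := by rintro _ ⟨y, p, rfl⟩; exact cgH_apply v y ▸ hv y p
  have ab : ∀ x y, 𝔰 x ∈ B.map (cgH v) → 𝔰 y ∈ B.map (cgH v) → EQ 64 (cj (DS true) x y) x := by
    rintro x y ⟨x', p, q⟩ ⟨y', p', q'⟩
    rw [← C.pg.eq, ← C.pg.cg, ← q, ← q', cgH_apply, cgH_apply, ← cg_cg', b x' p y' p']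
  have c := card_mul_relIndex le
  rw [C.pg.card, card_map_of_injective (fun x y h => cg_inj.1 (by simpa [cgH_apply] using h))] at c
  generalize B.map (cgH v) = B1 at le ab c
  have c0 : B1.relIndex (gen C.gs) ≠ 0 := fun h => by simp [h] at c
  obtain c1 | c1 : B1.relIndex (gen C.gs) = 1 ∨ B1.relIndex (gen C.gs) = 2 := by
    have : B1.relIndex (gen C.gs) < 3 := by by_contra; nlinarith
    omega
  · exact absurd (ab 1 2 (relIndex_eq_one.1 c1 (el_mem _ _)) (relIndex_eq_one.1 c1 (el_mem _ _))) dk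
  have k : ∀ x y u, EQ 64 (mul (DS true) x y) u → (𝔰 u ∈ B1 ↔ (𝔰 x ∈ B1 ↔ 𝔰 y ∈ B1)) := fun x y u h => by
    rw [← (C.pg.eq _ _).2 h, ← C.pg.mul]
    exact mul_mem_iff_of_index_two c1 (a := ⟨_, el_mem _ _⟩) (b := ⟨_, el_mem _ _⟩)
  have c4 := (k 1 1 4 dk).2 Iff.rfl
  have n2 : 𝔰 2 ∉ B1 := fun h => absurd (ab 4 2 c4 h) dk
  have n3 : 𝔰 3 ∉ B1 := fun h => absurd (ab 4 3 c4 h) dk
  have n4 : 𝔰 18 ∉ B1 := fun h => absurd (ab 4 18 c4 h) dk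
  exact absurd (ab 1 16 ((k 3 2 1 dk).2 (iff_of_false n3 n2)) ((k 2 18 16 dk).2 (iff_of_false n2 n4))) dk

theorem cjT (u x : ℕ) (a : x < 64 ∧ u = x / 8 % 4 * 8 + 32 ∧ IM 62 x ∧ EQ 64 (mul (DS e) x x) 0 ∧ ¬ IM 24 x := by
    clear_aux_decl; clear * -; decide +kernel +revert) :
    IsConj (𝔰 u) (𝔰 x) := by
  obtain ⟨l, rfl, a⟩ := a
  obtain ⟨ρ, r1, r2, r3, r4⟩ := C.rho
  obtain ⟨y, -, p | p⟩ : ∃ y < 64, EQ 64 (cj (DS e) (x / 8 % 4 * 8 + 32) y) x ∨ EQ 64 (cj (DS e) (x / 8 % 4 * 8 + 2) y) x :=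
    (by clear_aux_decl; clear * - l a; decide +kernel +revert)
  · exact (Mp.sf C.pg y _ _ p).conj
  · refine IsConj.trans (Mp.conj (h := C.pg) (h' := C.pg) (w := ρ) ?_) (Mp.sf C.pg y _ _ p).conj
    obtain h | h | h | h : x / 8 % 4 = 0 ∨ x / 8 % 4 = 1 ∨ x / 8 % 4 = 2 ∨ x / 8 % 4 = 3 := by omega
    all_goals rw [h]
    exacts [r3, (r1.mul r3).cast _ _, (r2.mul r3).cast _ _, ((r1.mul r2).mul r3).cast _ _]

/-- The element `k`. -/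
structure KD (k : G) : Prop where
  nS : k ∈ normalizer (gen C.gs : Set G)
  sq : k * k ∈ gen C.gs
  t : 𝔪 k 8 40
  r : 𝔪 k 2 2
  c : 𝔪 k 4 4
  z : 𝔪 k 32 32

theorem ncj (he : e = false) {y : ℕ} (hy : y / 16 % 2 = 1) : ¬ IsConj (𝔰 8) (𝔰 y) := fun h => by
  obtain ⟨K, k1, -, k3, -⟩ := C.chi he
  obtain ⟨g, hg⟩ := exists_cg h
  have := mul_mem ((k3 8).2 rfl) (k1 (𝔰 8) g)
  rw [cm, mul_inv_cancel_left, hg, k3] at this
  omega

theorem getk {g : G} (g1 : g ∈ normalizer (gen C.gs : Set G)) (g2 : g * g ∈ gen C.gs) (gt : 𝔪 g 8 40)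
    (hh : IsConj (𝔰 8) (𝔰 16) ↔ IsConj (𝔰 8) (𝔰 24)) : ∃ k, C.KD k ∧ (𝔪 k 16 16 ∨ (e = true ∧ 𝔪 k 24 24)) := by
  have I : ∀ i, ∃ j < 64, 𝔪 g i j := C.pg.img0 g1
  obtain ⟨a1, l0, m0⟩ := I 1
  have p0 := ((m0.mul m0).mul (m0.mul m0)).ne .zero
  have gz : 𝔪 g 32 32 := ((m0.mul m0).mul (m0.mul m0)).cast _ _ ⟨dk, (by clear_aux_decl; clear * - l0 p0; decide +kernel +revert)⟩
  obtain ⟨r1, l1, m1⟩ := I 2
  have p1 := m1.sq
  obtain ⟨s1, l2, m2⟩ := I 6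
  have p2 := m2.sq
  have p3 := (m1.mul m2).ne (m2.mul m1)
  obtain ⟨f1, l3, m3⟩ := I 16
  have p4 := m3.sq
  have p5 := m3.co m1
  have p6 := m3.co m2
  have p7 := m3.ne .zero
  have p8 := m3.ne gt
  have p9 := m3.ne gz
  have p10 := m3.ne (gt.mul gz)
  obtain ⟨y, l4, r2, l5, s2, l6, p11⟩ : ∃ y < 64, ∃ r2 < 4, ∃ s2 < 4, EQ 64 (cj (DS e) r1 y) (8 * r2 + 2) ∧
    EQ 64 (cj (DS e) s1 y) (8 * s2 + 6) := (by clear_aux_decl; clear * - l1 p1 l2 p2 p3 l3 p4 p5 p6 p7 p8 p9 p10; decide +kernel +revert)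
  have kt : 𝔪 (g * 𝔰 y) 8 40 := (gt.tr y).r _ (by clear_aux_decl; clear * - l4; decide +kernel +revert)
  have kz : 𝔪 (g * 𝔰 y) 32 32 := (gz.tr y).r _ (by clear_aux_decl; clear * - l4; decide +kernel +revert)
  have kn := mul_mem g1 (le_normalizer (el_mem C.gs y))
  have k2 : g * 𝔰 y * (g * 𝔰 y) ∈ gen C.gs := by
    have := mul_mem (mul_mem g2 (cg_mem_norm (el_mem C.gs y) g1)) (el_mem C.gs y)
    simpa [cg, mul_assoc] using this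
  have key : ∀ x, x = 2 ∨ x = 6 → ∀ i < 4, 𝔪 (g * 𝔰 y) x (8 * i + x) → i = 0 := by
    intro x hx i li m
    have c0 : ∀ j < 4, IsConj (𝔰 (8 * j + 32)) (𝔰 (8 * j + x)) ∧ IsConj (𝔰 (8 * j + 32)) (𝔰 (8 * j + x + 32)) := by
      intro j lj
      rcases hx with rfl | rfl <;> interval_cases j <;> exact ⟨C.cjT _ _, C.cjT _ _⟩
    have c1 := (c0 0 (by norm_num)).1.trans (m.l (8 * 0 + x) (by rw [mul_zero, zero_add]; rfl)).conj
    have c2 := (gt.conj.trans (c0 1 (by norm_num)).1).trans ((kt.mul m).l (8 * 1 + x) (by rcases hx with rfl | rfl <;> exact dk)).conj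
    by_contra n
    cases e
    · obtain rfl : i = 1 := by
        by_contra n'
        refine C.ncj rfl ?_ c2
        clear_aux_decl; clear * - hx li n n'; rcases hx with rfl | rfl <;> decide +kernel +revert
      exact C.ntz ((gt.conj.trans (c0 1 li).1).trans c1.symm)
    have f1 : IsConj (𝔰 16) (𝔰 48) := (Mp.sf C.pg 1 _ _).conj
    have f2 : IsConj (𝔰 24) (𝔰 56) := (Mp.sf C.pg 1 _ _).conj
    interval_cases i
    · exact n rfl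
    · exact C.ntz ((gt.conj.trans (c0 1 li).1).trans c1.symm)
    · rw [(C.pg.eq (mul _ _ _) (8 * 3 + x + 32)).2 (by rcases hx with rfl | rfl <;> exact dk)] at c2
      exact C.ntz (((hh.2 ((c2.trans (c0 3 (by norm_num)).2.symm).trans f2.symm)).trans f1).trans ((c0 2 li).1.trans c1.symm))
    · rw [(C.pg.eq (mul _ _ _) (8 * 2 + x + 32)).2 (by rcases hx with rfl | rfl <;> exact dk)] at c2
      exact C.ntz (((hh.1 ((c2.trans (c0 2 (by norm_num)).2.symm).trans f1.symm)).trans f2).trans ((c0 3 li).1.trans c1.symm))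
  have kr := (m1.tr y).r _ p11.1
  have ks := (m2.tr y).r _ p11.2
  obtain rfl := key 2 (.inl rfl) _ l5 kr
  obtain rfl := key 6 (.inr rfl) _ l6 ks
  refine ⟨_, ⟨kn, k2, kt, kr, (kr.mul ks).cast _ _, kz⟩, ?_⟩
  cases e
  · exact .inl (C.cen rfl _)
  obtain ⟨f2, l7, m7⟩ : ∃ j < 64, 𝔪 (g * 𝔰 y) 16 j := C.pg.img0 kn 16
  have q1 := m7.co kr
  have q2 := m7.co ks
  have q3 := m7.ne .zero
  have q4 := m7.ne kt
  have q5 := m7.ne kz
  have q6 := m7.ne (kt.mul kz)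
  obtain ⟨v, l8, m8⟩ := C.pg.ex k2
  have q7 : EQ 64 (cj (DS true) 2 v) 2 := Mp.of_el (m8 ▸ kr.trans kr)
  have q8 : EQ 64 (cj (DS true) 16 v) 16 := (by clear_aux_decl; clear * - l8 q7; decide +kernel +revert)
  obtain rfl | rfl | rfl | rfl : f2 = 16 ∨ f2 = 48 ∨ f2 = 24 ∨ f2 = 56 := (by clear_aux_decl; clear * - l7 q1 q2 q3 q4 q5 q6; decide +kernel +revert)
  · exact .inl m7
  · exact .inr ⟨rfl, (kt.mul m7).cast _ _⟩
  · exact absurd (q8.symm.trans (Mp.of_el (m8 ▸ m7.trans ((kt.mul m7).l 24)))) dk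
  · exact absurd (q8.symm.trans (Mp.of_el (m8 ▸ m7.trans (((kt.mul m7).mul kz).l 56)))) dk

theorem notfix (he : e = true) {k : G} (hk : C.KD k) {y : ℕ} (hy : y = 16 ∨ y = 24) (ky : 𝔪 k y y) {u : ℕ} (ku : 𝔪 k 16 u)
    (hu : IM 58 u) : ¬ IsConj (𝔰 8) (𝔰 y) := fun h => by
  obtain ⟨n, n1, n2⟩ := C.toA he hy h
  have kA := C.nmA hk.r hk.t ku hk.z ⟨by decide, by decide, hu, by decide⟩
  have fy : ∀ w, 𝔪 w 8 8 → w ∈ normalizer (MS C.gs 58 : Set G) → 𝔪 w y y := fun w a b => by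
    rcases hy with rfl | rfl
    exacts [C.fixf a b, (a.mul (C.fixf a b)).cast _ _]
  have N : n⁻¹ ∈ normalizer ((centralizer {𝔰 8} ⊓ normalizer (MS C.gs 58 : Set G) : Subgroup G) : Set G) :=
    mem_norm_of_cg fun x hx => ⟨mem_cent.2 (by
      simpa [cg, mul_assoc] using ((n2.trans (fy x (mem_cent.1 hx.1) hx.2)).trans n2.symm).e), cg_mem hx.2 (inv_mem n1)⟩
  have m : cg k n⁻¹ ∈ centralizer {𝔰 8} ⊓ normalizer (MS C.gs 58 : Set G) :=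
    ⟨mem_cent.2 (by simpa [cg, mul_assoc] using ((n2.trans ky).trans n2.symm).e), cg_mem kA (inv_mem n1)⟩
  have := mem_cent.1 (mem_of_cg_mem m N).1
  exact absurd (hk.t.eq (this : 𝔪 k 8 8) rfl) (by decide)

/-- Replacing `f` by `t f`. -/
theorem rename (C : Cfg0 G true) : ∃ C' : Cfg0 G true, gen C'.gs = gen C.gs ∧
    ∀ x, el C'.gs x = el C.gs (hm (mul (DS true)) [1, 2, 4, 8, 24, 32] x) := by
  obtain ⟨gs, h, E⟩ := C.pg.sub' [1, 2, 4, 8, 24, 32] (DS true) 64 dk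
  have g : gen gs = gen C.gs := Subgroup.eq_of_le_of_card_ge
    (h.gen_le_iff.2 fun _ _ => PG.mem_of_eq (E _)) (by rw [h.card, C.pg.card])
  have T : ∀ {w x y} (x' y' : ℕ), 𝔪 w x y → EQ 64 (hm (mul (DS true)) [1, 2, 4, 8, 24, 32] x') x ∧
      EQ 64 (hm (mul (DS true)) [1, 2, 4, 8, 24, 32] y') y → Mp h h w x' y' := fun x' y' a b => by
    rw [Mp, E, E, (C.pg.eq _ _).2 b.1, (C.pg.eq _ _).2 b.2]; exact a
  have t : el gs 8 = 𝔰 8 := by rw [E, C.pg.eq]; exact dk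
  obtain ⟨ρ, r1, r2, r3, r4⟩ := C.rho
  obtain ⟨σ, s1, s2, s3, s4⟩ := C.sig rfl
  refine ⟨⟨gs, h, fun P a b => ?_, fun {w x y} a b => ?_, ⟨ρ, T _ _ r1 dk, T _ _ (r1.mul r2) dk, T _ _ r3 dk, T _ _ r4 dk⟩,
    fun _ => ⟨σ, T _ _ s1 dk, T _ _ (s1.mul s2) dk, T _ _ s3 dk, T _ _ s4 dk⟩, nofun, nofun, ?_, σ, T _ _ s1 dk, T _ _ s3 dk, T _ _ s4 dk⟩, g, E⟩
  · obtain ⟨x, p, q⟩ := C.into P a (t ▸ b)
    exact ⟨x, T _ _ p dk, g ▸ q⟩
  · have a' : 𝔪 w 8 8 := by rw [Mp, ← t]; exact a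
    have b' : 𝔪 w (hm (mul (DS true)) [1, 2, 4, 8, 24, 32] (x % 64) % 64) (hm (mul (DS true)) [1, 2, 4, 8, 24, 32] (y % 64) % 64) := by
      rw [Mp, el_modN C.pg, el_modN C.pg, ← E, ← E, el_modN h, el_modN h]; exact b
    have k : ∀ x < 64, hm (mul (DS true)) [1, 2, 4, 8, 24, 32] x % 64 / 8 % 4 =
      if x / 8 % 4 < 2 then x / 8 % 4 else 5 - x / 8 % 4 := dk
    have := C.fus a' b'
    rw [k _ (Nat.mod_lt _ (by norm_num)), k _ (Nat.mod_lt _ (by norm_num))] at this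
    split_ifs at this <;> omega
  · rw [t, E, (C.pg.eq (hm _ _ _) 32).2 dk]; exact C.ntz

end Cfg0

end Cfsg.Lib.H33
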