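import Cfsg.Agent.Lib.H33.Va

/-! The case `t^G ∩ A = t Ω`: the element `g` (helper5). -/

set_option autoImplicit false
set_option synthInstance.maxSize 2048

namespace Cfsg.Lib.H33

open Cfsg.Lib.Calc Cfsg.Lib.Transfer Subgroup

namespace Cfg0

variable {G : Type*} [Group G] [Finite G] (C : Cfg0 G true)

set_option hygiene false in
local notation "𝔰" => el (Cfg0.gs C)
set_option hygiene false in
local notation "𝔪" => Mp (Cfg0.pg C) (Cfg0.pg C)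
set_option quotPrecheck false in
local notation "dk" => by clear_aux_decl; clear * -; decide +kernel +revert

theorem theta8 (n1 : ¬ IsConj (𝔰 8) (𝔰 16)) {x : ℕ} (l : x < 64) (a : IM 62 x) (h : IsConj (𝔰 8) (𝔰 x)) : x / 8 % 2 = 1 := by
  obtain ⟨g, hg⟩ := exists_cg h
  replace hg : 𝔪 g 8 x := hg
  have q := hg.ne .zero
  by_cases b : IM 24 x
  · obtain rfl | rfl | rfl : x = 8 ∨ x = 16 ∨ x = 24 := (by clear_aux_decl; clear * - l q b; decide +kernel +revert)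
    exacts [rfl, absurd h n1, rfl]
  have := h.trans (C.cjT _ x ⟨l, rfl, a, hg.sq, b⟩).symm
  obtain c | c | c | c : x / 8 % 4 = 0 ∨ x / 8 % 4 = 1 ∨ x / 8 % 4 = 2 ∨ x / 8 % 4 = 3 := by omega
  all_goals rw [c] at this
  exacts [absurd this C.ntz, by omega, absurd (this.trans (Mp.sf C.pg 1 48 16).conj) n1, by omega]

theorem cmE {y : G} (a : 𝔪 y 8 8) (b : y ∈ normalizer (MS C.gs 58 : Set G)) {x : ℕ} (l : x < 64) (h : IM 58 x) :
    ∃ u < 64, IM 34 u ∧ cm (𝔰 x) y = 𝔰 u := by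
  obtain ⟨v, l', p, m⟩ := Mp.exm (h := C.pg) okA b x h
  have := C.fus a m
  exact ⟨mul (DS true) (inv (DS true) x) v % 64, Nat.mod_lt _ (by norm_num), (by clear_aux_decl; clear * - l h l' p this; decide +kernel +revert), by rw [cm, m.e, C.pg.inv, C.pg.mul, el_modN C.pg]⟩

theorem g1 (n1 : ¬ IsConj (𝔰 8) (𝔰 16)) (h : IsConj (𝔰 8) (𝔰 24)) : ∃ g ∈ C.MY, 𝔪 g 8 24 := by
  obtain ⟨n, nA, nt⟩ := C.toA rfl (.inr rfl) h
  obtain ⟨ρ, r1, r2, r3, r4⟩ := C.rho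
  have N : n⁻¹ ∈ normalizer ((centralizer {𝔰 8} ⊓ normalizer (MS C.gs 58 : Set G) : Subgroup G) : Set G) :=
    mem_norm_of_cg fun x hx => ⟨mem_cent.2 (by
      simpa [cg, mul_assoc] using ((nt.trans ((Mp.mul (mem_cent.1 hx.1) (C.fixf (mem_cent.1 hx.1) hx.2)).cast 24 24)).trans
        nt.symm).e), cg_mem hx.2 (inv_mem nA)⟩
  have rN : ρ ∈ centralizer {𝔰 8} ⊓ normalizer (MS C.gs 58 : Set G) := ⟨mem_cent.2 r1, C.nmA r4 r1 r2 r3⟩
  obtain ⟨f1, l, p, m⟩ := Mp.exm (h := C.pg) okA nA 16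
  have nf : 𝔪 n 16 16 := by
    have a := cg_mem_norm rN N
    have b : 𝔪 ρ f1 f1 := by simpa using (C.fixf (mem_cent.1 a.1) a.2).cjg m m
    have c := ((Mp.hom (.cons r4 (.cons r1 (.cons r2 (.cons r3 .nil)))) (f1 / 2 % 2 + f1 / 8 * 2)).l f1 (by clear_aux_decl; clear * - l p; decide +kernel +revert)).eq b rfl
    have q1 := m.ne .zero
    have q2 := m.ne nt
    obtain rfl | rfl : f1 = 16 ∨ f1 = 8 := (by clear_aux_decl; clear * - l p c q1 q2; decide +kernel +revert)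
    exacts [m, absurd m.conj.symm n1]
  have k : ∀ x y, IM 58 x → y ∈ centralizer {𝔰 8} ⊓ normalizer (MS C.gs 58 : Set G) →
      ∃ u < 64, IM 34 u ∧ cg (cm (𝔰 x) y) n = 𝔰 u := fun x y a b => by
    obtain ⟨x1, l, p, m⟩ := Mp.exm (h := C.pg) okA nA x a
    have c := cg_mem_norm b (inv_inv n ▸ inv_mem N)
    rw [cg_cm, m.e]
    exact C.cmE (mem_cent.1 c.1) c.2 l p
  obtain ⟨z1, l1, p1, m1⟩ := k 2 (𝔰 6) (by decide) ⟨mem_cent.2 (C.fixt (el_mem _ _)), C.pg.nm_el dk⟩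
  obtain ⟨y1, l2, p2, m2⟩ := k 32 ρ (by decide) rN
  rw [C.pg.cm, (C.pg.eq _ 32).2 dk] at m1
  rw [cm, r3.e, C.pg.inv, C.pg.mul, (C.pg.eq _ 34).2 dk] at m2
  obtain ⟨v, v1, v2, v3, v4, v5⟩ := C.normE m1 ((Mp.mul (h := C.pg) (h' := C.pg) m1 m2).cast 2 _ ⟨dk, (Nat.mod_mod _ 64).symm⟩) l1
    (Nat.mod_lt _ (by norm_num)) p1 (by clear_aux_decl; clear * - l1 p1 l2 p2; decide +kernel +revert)
  have t := nt.trans ((v1.mul v2).cast 24 24)
  exact ⟨n * v, MY.of C t (by decide) v5 (nf.trans v2) v4, t⟩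

/-- The element `g`. -/
structure G8 (g : G) (α β : Bool) : Prop where
  t : 𝔪 g 8 24
  r : 𝔪 g 2 2
  f : 𝔪 g 16 16
  z : 𝔪 g 32 32
  s : 𝔪 g 6 (cond α 22 6)
  sq : g * g = 𝔰 (cond β 32 0)

theorem g2 (n1 : ¬ IsConj (𝔰 8) (𝔰 16)) (h : IsConj (𝔰 8) (𝔰 24)) : ∃ g α β, C.G8 g α β := by
  obtain ⟨g, gM, gt⟩ := C.g1 n1 h
  have pT : IsPGroup 2 (MS C.gs 62) := C.pg.pgroup.to_le (ms_le _ _)
  have fy : ∀ x : G, x ∈ centralizer {𝔰 8} ⊓ normalizer (MS C.gs 58 : Set G) → 𝔪 x 24 24 := fun x hx =>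
    (Mp.mul (mem_cent.1 hx.1) (C.fixf (mem_cent.1 hx.1) hx.2)).cast 24 24
  have le : MS C.gs 62 ≤ centralizer {𝔰 8} ⊓ normalizer (MS C.gs 58 : Set G) ⊓ centralizer {𝔰 32} := fun x hx =>
    ⟨⟨mem_cent.2 (C.fixt (ms_le _ _ hx)), C.pg.le_nm dk hx⟩, by
      obtain ⟨x, l, -, rfl⟩ := C.pg.ex_ms okT hx
      exact mem_cent.2 (Mp.sf C.pg x 32 32 (by clear_aux_decl; clear * - l; decide +kernel +revert))⟩
  obtain ⟨T, hT, a, b, c⟩ := syl_fr pT (le.trans le_normalizer)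
  rw [sup_eq_left.2 le] at b
  obtain rfl : T = MS C.gs 62 := le_antisymm (fun x hx => by
    rcases C.sw hT a hx (mem_cent.1 (b hx).1.1) with u | u | u
    exacts [u, absurd ((u.im okA (b hx).1.2).1 (by decide)) (by decide),
      absurd ((u.im okA (b hx).1.2).1 (by decide)) (by decide)]) a
  obtain ⟨m, hm, d⟩ := c g (inv_inv g ▸ inv_mem (mem_norm_of_cg fun x hx => ⟨⟨mem_cent.2 (by
      simpa [cg, mul_assoc] using ((gt.trans (fy x hx.1)).trans gt.symm).e), cg_mem hx.1.2 (inv_mem gM.1)⟩, mem_cent.2 (by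
      simpa [cg, mul_assoc] using (((MY.fix C gM (x := 32)).trans (mem_cent.1 hx.2)).trans (MY.fix C gM (x := 32)).symm).e)⟩))
  have N : g * m ∈ normalizer (MS C.gs 62 : Set G) := mem_norm_of_cg fun x h => d x h (le h)
  obtain ⟨r1, l1, p1, m1⟩ := C.imD (mem_cent.1 hm.1.1) hm.1.2 2 (by norm_num) (by decide)
  have mz : 𝔪 m 32 32 := mem_cent.1 hm.2
  have q1 := m1.ne .zero
  have q2 := m1.ne mz
  obtain ⟨y, ly, py, qy⟩ : ∃ y < 64, IM 62 y ∧ EQ 64 (cj (DS true) r1 y) 2 := (by clear_aux_decl; clear * - l1 p1 q1 q2; decide +kernel +revert)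
  have N' := mul_mem N (le_normalizer (el_mem_ms py))
  have t3 := ((gt.trans (fy m hm.1)).tr y).r 24 (by clear_aux_decl; clear * - ly py; decide +kernel +revert)
  have f3 := (((MY.fix C gM).trans (C.fixf (mem_cent.1 hm.1.1) hm.1.2)).tr y).r 16 (by clear_aux_decl; clear * - ly py; decide +kernel +revert)
  have M3 := MY.of C t3 (by decide) ((((MY.fix C gM).trans m1).tr y).r _ qy) f3 ((((MY.fix C gM).trans mz).tr y).r 32 (by clear_aux_decl; clear * - ly; decide +kernel +revert))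
  obtain ⟨k, n, hk, hn⟩ := exists_odd_pow (g * m * 𝔰 y)
  have t4 := t3.odd ((t3.mul f3).cast 24 8) hk
  have M4 := pow_mem M3 k
  have N4 := pow_mem N' k
  generalize (g * m * 𝔰 y) ^ k = w at *
  have wr := MY.fix C M4 (x := 2)
  have wf := MY.fix C M4 (x := 16)
  have wz := MY.fix C M4 (x := 32)
  obtain ⟨β, lβ, pβ, w2⟩ := C.inA (pg_sup pT hn N4) le_sup_left (mul_mem (mem_sup_right (mem_zpowers w))
    (mem_sup_right (mem_zpowers w))) (wr.trans wr) (t4.trans ((t4.mul wf).cast 24 8))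
  have qβ := C.fixO M4 t4 (by decide) lβ pβ (by rw [Mp, ← w2, cg_mul, cg_self])
  obtain ⟨s1, l2, p2, m2⟩ := Mp.exm (h := C.pg) okT N4 6
  have q3 := m2.sq
  have q4 := (m2.mul wr).ne (wr.mul m2)
  have q5 : s1 / 8 % 2 = 0 := by
    by_contra u
    have c1 := (C.cjT 32 6).trans m2.conj
    have c2 := h.trans (Mp.sf C.pg 1 24 56).conj
    have c3 := c2.trans (((t4.mul wf).mul wz).cast 56 40).conj
    obtain rfl | rfl | rfl | rfl : s1 = 14 ∨ s1 = 46 ∨ s1 = 30 ∨ s1 = 62 := (by clear_aux_decl; clear * - l2 p2 q3 q4 u; decide +kernel +revert)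
    exacts [C.ntz ((c3.trans (C.cjT _ _)).trans c1.symm), C.ntz ((c3.trans (C.cjT _ _)).trans c1.symm),
      C.ntz ((c2.trans (C.cjT _ _)).trans c1.symm), C.ntz ((c2.trans (C.cjT _ _)).trans c1.symm)]
  have m3 : 𝔪 w s1 6 := by
    obtain rfl | rfl | rfl | rfl : s1 = 6 ∨ s1 = 38 ∨ s1 = 22 ∨ s1 = 54 := (by clear_aux_decl; clear * - l2 p2 q3 q4 q5; decide +kernel +revert)
    exacts [m2, (m2.mul wz).cast _ _, (m2.mul wf).cast _ _, ((m2.mul wf).mul wz).cast _ _]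
  have q6 := (m2.trans m3).of_eq w2
  obtain ⟨y, ly, py, α, β', q7, q8⟩ : ∃ y < 64, IM 10 y ∧ ∃ α β' : Bool, EQ 64 (cj (DS true) s1 y) (cond α 22 6) ∧
      EQ 64 (mul (DS true) (mul (DS true) β (y + y / 8 * 16)) y) (cond β' 32 0) := (by clear_aux_decl; clear * - l2 p2 q3 q4 q5 lβ qβ q6; decide +kernel +revert)
  have m4 : 𝔪 w y (y + y / 8 * 16) := by
    obtain rfl | rfl | rfl | rfl : y = 0 ∨ y = 2 ∨ y = 8 ∨ y = 10 := (by clear_aux_decl; clear * - ly py; decide +kernel +revert)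
    exacts [.zero, wr, t4, (wr.mul t4).cast _ _]
  refine ⟨w * 𝔰 y, α, β', (t4.tr y).r _ (by clear_aux_decl; clear * - ly py; decide +kernel +revert), (wr.tr y).r _ (by clear_aux_decl; clear * - ly py; decide +kernel +revert), (wf.tr y).r _ (by clear_aux_decl; clear * - ly py; decide +kernel +revert), (wz.tr y).r _ (by clear_aux_decl; clear * - ly py; decide +kernel +revert),
    (m2.tr y).r _ q7, ?_⟩
  rw [← (C.pg.eq _ _).2 q8, ← C.pg.mul, ← C.pg.mul, ← w2, ← m4.e]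
  simp [cg, mul_assoc]

theorem G8.c {g : G} {α β : Bool} (h : C.G8 g α β) : 𝔪 g 4 (cond α 20 4) := (h.r.mul h.s).cast _ _

theorem fixf8 (n1 : ¬ IsConj (𝔰 8) (𝔰 16)) {g : G} {α β : Bool} (h : C.G8 g α β) {m : G}
    (a : m ∈ normalizer (MS C.gs 58 : Set G)) (b : m ∈ normalizer (MS C.gs 56 : Set G)) (c : 𝔪 m 32 32) : 𝔪 m 16 16 := by
  have gA := C.nmA h.r h.t h.f h.z
  obtain ⟨t1, l1, p1, m1⟩ := Mp.exm (h := C.pg) dk b 8
  obtain ⟨f1, l2, p2, m2⟩ := Mp.exm (h := C.pg) dk b 16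
  have q1 := C.theta8 n1 l1 (IM.trans (by decide) p1) m1.conj
  have q2 := m2.ne .zero
  have q3 := m2.ne c
  have q4 : f1 / 8 % 2 = 0 := by
    by_contra u
    have c2 := h.t.conj.trans (Mp.sf C.pg 1 24 56).conj
    have c3 := c2.trans (((h.t.mul h.f).mul h.z).cast 56 40).conj
    obtain rfl | rfl | rfl | rfl : f1 = 8 ∨ f1 = 24 ∨ f1 = 40 ∨ f1 = 56 := (by clear_aux_decl; clear * - l2 p2 u; decide +kernel +revert)
    exacts [n1 m2.conj.symm, n1 (h.t.conj.trans m2.conj.symm), n1 (c3.trans m2.conj.symm), n1 (c2.trans m2.conj.symm)]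
  obtain rfl | rfl : f1 = 16 ∨ f1 = 48 := (by clear_aux_decl; clear * - l2 p2 q2 q3 q4; decide +kernel +revert)
  · exact m2
  have k1 : ∀ {m}, m ∈ normalizer (MS C.gs 58 : Set G) → 𝔪 m 16 48 → ¬ 𝔪 m 8 8 := fun a b c =>
    absurd ((C.fixf c a).eq b rfl) (by decide)
  have gz := (h.f.mul h.z).cast 48 48
  have k2 : ∀ {m}, m ∈ normalizer (MS C.gs 58 : Set G) → 𝔪 m 16 48 → ¬ 𝔪 m 8 40 := fun a b c =>
    k1 (mul_mem (mul_mem gA a) (inv_mem gA)) ((h.f.trans b).trans gz.symm) ((h.t.trans ((c.mul b).cast 24 24)).trans h.t.symm)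
  obtain rfl | rfl | rfl | rfl : t1 = 8 ∨ t1 = 24 ∨ t1 = 40 ∨ t1 = 56 := (by clear_aux_decl; clear * - l1 p1 q1; decide +kernel +revert)
  exacts [absurd m1 (k1 a m2), absurd (m1.trans h.t.symm) (k1 (mul_mem a (inv_mem gA)) (m2.trans gz.symm)), absurd m1 (k2 a m2),
    absurd (m1.trans (((h.t.mul h.f).mul h.z).cast 56 40)) (k2 (mul_mem a gA) (m2.trans gz))]

theorem g3 (n1 : ¬ IsConj (𝔰 8) (𝔰 16)) (h : IsConj (𝔰 8) (𝔰 24)) :
    ∃ g α β, C.G8 g α β ∧ ∃ P : Subgroup G, IsPGroup 2 P ∧ gen C.gs ≤ P ∧ g ∈ P := by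
  obtain ⟨g, α, β, hg⟩ := C.g2 n1 h
  have gT := C.nmT hg.r hg.c hg.t hg.f hg.z dk
  have nZ : ∀ {w}, w ∈ normalizer (MS C.gs 62 : Set G) → w ∈ normalizer (MS C.gs 56 : Set G) ∧ 𝔪 w 32 32 := fun {w} a => by
    have b := C.pg.nm_rc (z := 0) (m := 56) dk dk dk dk a a (PG.nm_zero _ _)
    have c := C.pg.nm_cm (z := 0) (m := 32) (fun _ => (2, 6, 0)) dk dk a a (PG.nm_zero _ _)
    obtain ⟨y, l, p, m⟩ := Mp.exm (h := C.pg) dk c 32
    have q := m.ne .zero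
    exact ⟨b, m.r _ (by clear_aux_decl; clear * - l p q; decide +kernel +revert)⟩
  have act : ∀ m ∈ normalizer (MS C.gs 62 : Set G) ⊓ rcK (MS C.gs 62) (MS C.gs 56), ∀ x < 64, IM 62 x →
      ∃ y < 64, y % 8 = x % 8 ∧ 𝔪 m x y := fun m hm x l a => by
    obtain ⟨ω, b, c, d⟩ := C.pg.ex_ms dk (hm.2.2 _ (el_mem_ms a))
    exact ⟨mul (DS true) x ω % 64, Nat.mod_lt _ (by norm_num), (by clear_aux_decl; clear * - l b c; decide +kernel +revert), by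
      rw [Mp, el_modN C.pg, ← C.pg.mul, ← d, cm, mul_inv_cancel_left]⟩
  have mf : ∀ m ∈ normalizer (MS C.gs 62 : Set G) ⊓ rcK (MS C.gs 62) (MS C.gs 56), 𝔪 m 16 16 := fun m hm =>
    C.fixf8 n1 hg (C.pg.nm_ms fun i p q => by
      obtain ⟨y, l, a, b⟩ := act m hm (2 ^ i) (by clear_aux_decl; clear * - p q; decide +kernel +revert) (by clear_aux_decl; clear * - p q; decide +kernel +revert)
      exact b.mem (by clear_aux_decl; clear * - p q l a; decide +kernel +revert)) hm.2.1 (nZ hm.1).2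
  have le : MS C.gs 62 ⊔ zpowers g ≤ normalizer (MS C.gs 62 : Set G) ⊓ rcK (MS C.gs 62) (MS C.gs 56) := by
    refine sup_le (fun x hx => ⟨le_normalizer hx, ?_⟩) (zpowers_le.2 ⟨gT, C.pg.mem_rcK dk (nZ gT).1 fun i p q => ?_⟩)
    · obtain ⟨x, l, a, rfl⟩ := C.pg.ex_ms okT hx
      exact C.pg.mem_rcK dk (C.pg.nm_el (by clear_aux_decl; clear * - l a; decide +kernel +revert)) fun i p q => by rw [C.pg.cm, C.pg.mem_ms dk]; exact (by clear_aux_decl; clear * - l a p q; decide +kernel +revert)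
    · obtain rfl | rfl | rfl | rfl | rfl : i = 1 ∨ i = 2 ∨ i = 3 ∨ i = 4 ∨ i = 5 := (by clear_aux_decl; clear * - p q; decide +kernel +revert)
      exacts [by rw [cm, show 2 ^ 1 = 2 from rfl, hg.r.e, inv_mul_cancel]; exact one_mem _,
        by rw [cm, show 2 ^ 2 = 4 from rfl, hg.c.e, C.pg.inv, C.pg.mul, C.pg.mem_ms dk]; exact dk,
        by rw [cm, show 2 ^ 3 = 8 from rfl, hg.t.e, C.pg.inv, C.pg.mul, C.pg.mem_ms dk]; exact dk,
        by rw [cm, show 2 ^ 4 = 16 from rfl, hg.f.e, inv_mul_cancel]; exact one_mem _,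
        by rw [cm, show 2 ^ 5 = 32 from rfl, hg.z.e, inv_mul_cancel]; exact one_mem _]
  obtain ⟨T, hT, a, b, c⟩ := syl_fr (pg_sup' (C.pg.pgroup.to_le (ms_le _ _)) (hg.sq ▸ el_mem_ms dk) gT) (le.trans le_normalizer)
  rw [sup_eq_left.2 le] at b
  have aT : 𝔰 1 ∈ normalizer (MS C.gs 62 : Set G) := C.pg.nm_el dk
  have aM := norm_inf (norm_norm aT) (norm_rcK aT (nZ aT).1)
  obtain ⟨m, hm, d⟩ := c _ aM
  generalize hM : normalizer (MS C.gs 62 : Set G) ⊓ rcK (MS C.gs 62) (MS C.gs 56) = M at *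
  have MT : M ≤ normalizer (MS C.gs 62 : Set G) := hM ▸ inf_le_left
  have N : 𝔰 1 * m ∈ normalizer (T : Set G) := mem_norm_of_cg fun x h => d x h (b h)
  have gP := a (mem_sup_right (mem_zpowers g))
  have hP := cg_mem_norm gP N
  obtain ⟨t1, l1, p1, m1⟩ := Mp.exm (h := C.pg) dk (nZ (MT hm)).1 8
  have q1 := C.theta8 n1 l1 (IM.trans (by decide) p1) m1.conj
  have m2 := (Mp.sf C.pg 1 8 8).trans m1
  have m3 := hg.t.cjg m2 ((m2.mul ((Mp.sf C.pg 1 16 48).trans (((mf m hm).mul (nZ (MT hm)).2).cast 48 48))).l _)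
  obtain ⟨x, xT, m4⟩ : ∃ x ∈ T, 𝔪 x t1 8 := by
    obtain rfl | rfl | rfl | rfl : t1 = 8 ∨ t1 = 24 ∨ t1 = 40 ∨ t1 = 56 := (by clear_aux_decl; clear * - l1 p1 q1; decide +kernel +revert)
    exacts [⟨1, one_mem _, cg_one' _⟩, ⟨g, gP, (hg.t.mul hg.f).cast _ _⟩, ⟨_, mul_mem hP gP, (m3.r 24).trans
      ((hg.t.mul hg.f).cast _ _)⟩, ⟨_, hP, m3.r _⟩]
  obtain ⟨k, n, ⟨k, rfl⟩, hn⟩ := exists_odd_pow (𝔰 1 * m * x)
  have a3 : (𝔰 1)⁻¹ * (𝔰 1 * m * x) ^ (2 * k + 1) ∈ M := by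
    have u := mul_mem hm (b xT)
    have cM : 𝔰 1 * 𝔰 1 ∈ M := by rw [C.pg.mul, (C.pg.eq _ 4).2 dk]; exact b (a (mem_sup_left (el_mem_ms (by decide))))
    rw [pow_succ', pow_mul, ← mul_assoc]
    refine mul_mem (by simpa [mul_assoc] using u) (pow_mem ?_ _)
    simpa [cg, mul_assoc, sq] using mul_mem (mul_mem cM (cg_mem_norm u aM)) u
  have t3 := (m2.trans m4).pow (2 * k + 1)
  have N3 := pow_mem (mul_mem N (le_normalizer xT)) (2 * k + 1)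
  generalize (𝔰 1 * m * x) ^ (2 * k + 1) = w at *
  obtain ⟨s1, l2, p2, m5⟩ := act _ a3 38 (by norm_num) (by decide)
  have m6 : 𝔪 w 2 s1 := by simpa using (Mp.sf C.pg 1 2 38).trans m5
  have Q := pg_sup hT hn N3
  have ST : MS C.gs 62 ≤ T ⊔ zpowers w := (le_sup_left.trans a).trans le_sup_left
  obtain ⟨v, vt, hv⟩ := C.into _ (Q.to_le (inf_le_left : _ ⊓ centralizer {𝔰 8} ≤ _)) fun y h => mem_cent.1 h.2
  obtain ⟨y, -, hy⟩ := C.nS vt fun i p => hv _ ⟨ST (el_mem_ms p), mem_cent.2 (C.fixt (el_mem _ _))⟩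
  obtain ⟨u, lu, hu⟩ := C.pg.ex (cg_mem (hv w ⟨mem_sup_right (mem_zpowers w), mem_cent.2 t3⟩) (el_mem _ y))
  rw [cg_cg] at hu
  have q2 := m6.act hy.1 (hy.all C (by clear_aux_decl; clear * - l2 p2; decide +kernel +revert)) hu
  have k0 : ∀ {i j}, 𝔪 g i j → IM 62 i ∧ IM 62 j → 𝔪 (cg g (v * 𝔰 y)) i j := fun p q => p.cjg (hy.all C q.1) (hy.all C q.2)
  have k1 : ∀ i, IM 62 i → 𝔰 i ∈ (T ⊔ zpowers w).map (cgH (v * 𝔰 y)) := fun i p =>
    ⟨_, ST (el_mem_ms p), (cgH_apply _ _).trans (hy.all C p)⟩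
  refine ⟨cg g (v * 𝔰 y), α, β, ⟨k0 hg.t dk, k0 hg.r dk, k0 hg.f dk, k0 hg.z dk, k0 hg.s dk, by
    rw [← cg_mul, hg.sq, (hy.all C dk).e]⟩, _, Q.map (cgH (v * 𝔰 y)), C.pg.gen_le_iff.2 fun i p => ?_,
    ⟨_, mem_sup_left gP, cgH_apply _ _⟩⟩
  obtain rfl | p : i = 0 ∨ IM 62 (2 ^ i) := (by clear_aux_decl; clear * - p; decide +kernel +revert)
  · rw [← (C.pg.eq (mul (DS true) u (mul (DS true) (inv (DS true) u) 1 % 64)) (2 ^ 0)).2 (by clear_aux_decl; clear * - lu; decide +kernel +revert), ← C.pg.mul]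
    exact mul_mem (mem_map.2 ⟨_, mem_sup_right (mem_zpowers w), (cgH_apply _ _).trans hu⟩) (k1 _ (by clear_aux_decl; clear * - l2 p2 lu q2; decide +kernel +revert))
  · exact k1 _ p

end Cfg0

end Cfsg.Lib.H33
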