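import Cfsg.Agent.Lib.H33.E8a

/-! The case `t^G ∩ A = t Ω`: the group `T*` of order `2⁸` (helper5).
Codes: `a = 1, g = 2, h = g^a = 4, r = 8, c = 16, t = 32, f = 64, z = 128`. -/

set_option autoImplicit false
set_option synthInstance.maxSize 2048

namespace Cfsg.Lib.H33

open Cfsg.Lib.Calc Cfsg.Lib.Transfer Subgroup

namespace Cfg0

variable {G : Type*} [Group G] [Finite G] (C : Cfg0 G true)

set_option hygiene false in
local notation "𝔰" => el (Cfg0.gs C)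
set_option hygiene false in
local notation "𝔪" => Mp (Cfg0.pg C) (Cfg0.pg C)
set_option quotPrecheck false in
local notation "dk" => by clear_aux_decl; clear * -; decide +kernel +revert

def _root_.Cfsg.Lib.H33.D8 (α β γ : Bool) : Dat := [(8, [2, cond α 33 1, 76, 8, 16, 96, 64]),
  (cond β 32 0, [cond γ 33 1, 2, cond α 20 4, 24, 16, 32]), (cond β 16 0, [cond α 25 1, cond α 26 2, 28, 8, 16]),
  (0, [9, 2, 4, 8]), (4, [1, 2, 4]), (0, [1, 2]), (0, [1]), (0, [])]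

structure _root_.Cfsg.Lib.H33.St8 (C : Cfg0 G true) (α β γ : Bool) where
  gs : List G
  pg : PG gs (D8 α β γ) 256
  lk : ∀ x < 64, el C.gs x = el gs (x % 2 + x / 2 * 8)
  n1 : ¬ IsConj (el C.gs 8) (el C.gs 16)

theorem st8 (n1 : ¬ IsConj (𝔰 8) (𝔰 16)) (h : IsConj (𝔰 8) (𝔰 24)) : ∃ α β γ, Nonempty (St8 C α β γ) := by
  obtain ⟨g, α, β, hg, P, hP, SP, gP⟩ := C.g3 n1 h
  have A := fun x y (p : EQ 64 (cj (DS true) x 1) y) => Mp.sf C.pg 1 x y p
  have ht := hg.t.cjg (A _ 8 dk) (A _ 56 dk)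
  have hs := hg.r.cjg (A _ 38 dk) (A _ 38 dk)
  have hz := hg.z.cjg (A _ 32 dk) (A _ 32 dk)
  have hf := ((hg.f.cjg (A _ 48 dk) (A _ 48 dk)).mul hz).cast 16 16
  have hr := hg.s.cjg (A _ 2 dk) (A _ (cond α 50 2) dk)
  have hc := (hg.c.cjg (A _ 4 dk) (A _ (cond α 52 4) dk))
  have h2 : cg g (𝔰 1) * cg g (𝔰 1) = 𝔰 (cond β 32 0) := by rw [← cg_mul, hg.sq, C.pg.cg, C.pg.eq]; exact dk
  have ha : cg (cg g (𝔰 1)) (𝔰 1) = g * 𝔰 (cond α 16 0) := by rw [cg_cg, C.pg.mul, (C.pg.eq _ 4).2 dk, hg.c.swap (cond α 16 0)]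
  have hP' := cg_mem gP (SP (el_mem _ 1))
  generalize hh : cg g (𝔰 1) = k at *
  have K : ∀ x y u w, 𝔪 k y x → 𝔪 g u y → 𝔪 k u w → 𝔪 g w x → 𝔪 (cm k g) x x := fun x y u w a b c d => by
    simpa only [cm, cg, mul_assoc] using ((a.symm.trans b.symm).trans c).trans d
  have gf := (hg.t.mul hg.f).cast 24 8
  obtain ⟨γ, lγ, eγ⟩ := C.pg.ex (C.memS hP SP (cm_mem hP' gP) (K 8 56 40 24 (((ht.mul hf).mul hz).cast _ _)
    ((hg.t.mul hg.z).cast _ _) ((ht.mul hz).cast _ _) gf))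
  have p1 := (K 2 (cond α 50 2) (cond α 50 2) 2 (by
      cases α
      exacts [hr, ((hr.mul hf).mul hz).cast _ _]) (by
      cases α
      exacts [hg.r, ((hg.r.mul hg.f).mul hg.z).cast _ _]) (by
      cases α
      exacts [hr, ((hr.mul hf).mul hz).cast _ _]) hg.r).of_eq eγ
  have p2 := (K 38 38 (cond α 54 38) (cond α 54 38) hs (by
      cases α
      exacts [(hg.s.mul hg.z).cast _ _, ((hg.s.mul hg.z).mul hg.f).cast _ _]) (by
      cases α
      exacts [hs, (hs.mul hf).cast _ _]) (by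
      cases α
      exacts [(hg.s.mul hg.z).cast _ _, ((hg.s.mul hg.z).mul hg.f).cast _ _])).of_eq eγ
  have kg : cg k g = k * 𝔰 γ := by rw [← eγ, cm, mul_inv_cancel_left]
  obtain ⟨γ', rfl⟩ : ∃ γ' : Bool, γ = cond γ' 32 0 := by
    have e1 : cg (𝔰 γ) g * 𝔰 γ = 1 := by
      have : cg k (g * g) = k := by
        rw [hg.sq]; cases β
        exacts [by simp [el_zero], cg_comm hz]
      rw [← cg_cg, kg, cg_mul, kg, mul_assoc, mul_eq_left] at this
      exact mul_eq_one_comm.1 this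
    have e2 : cg (𝔰 γ) (𝔰 1) = cg (𝔰 γ)⁻¹ (𝔰 (cond α 16 0)) := by
      rw [← eγ, cg_cm, ha, hh, cm_mul_left, show cm g k = (cm k g)⁻¹ by simp [cm, cg, mul_assoc], cm_eq_one (y := k).2, mul_one]
      cases α
      exacts [by simp [el_zero], hf]
    rw [C.pg.inv, C.pg.cg, C.pg.cg, C.pg.eq] at e2
    obtain rfl | rfl | rfl | rfl : γ = 0 ∨ γ = 32 ∨ γ = 8 ∨ γ = 40 := (by clear_aux_decl; clear * - lγ p1 p2 e2; decide +kernel +revert)
    exacts [⟨false, rfl⟩, ⟨true, rfl⟩, absurd e1 (by rw [hg.t.e, C.pg.mul, C.pg.one]; exact dk),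
      absurd e1 (by rw [((hg.t.mul hg.z).cast 40 56).e, C.pg.mul, C.pg.one]; exact dk)]
  obtain ⟨g0, h0, E0⟩ := C.pg.sub' [2, 4, 8, 16, 32] (DS true).tail 32 dk
  have L0 : ∀ x < 32, el g0 x = 𝔰 (2 * x) := fun x l => by rw [E0, C.pg.eq]; exact (by clear_aux_decl; clear * - l; decide +kernel +revert)
  have M0 : ∀ {w} (x y : ℕ), 𝔪 w (2 * x) (2 * y) → x < 32 ∧ y < 32 → Mp h0 h0 w x y := fun x y a b => by
    rw [Mp, L0 _ b.1, L0 _ b.2]; exact a
  obtain ⟨g1, h1, e1, E1⟩ := h0.cons' (g := k) (fun a => by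
      obtain ⟨x, l, rfl⟩ := h0.ex a
      exact absurd (M0 4 28 ht dk).of_el (by clear_aux_decl; clear * - l; decide +kernel +revert)) (p := cond β 16 0) (cs := [cond α 25 1, cond α 26 2, 28, 8, 16])
    (by rw [h2, L0 _ dk]; cases β <;> rfl) (h0.fa _ (by simp) fun i a => by
      simp only [List.length] at a
      interval_cases i
      exacts [M0 1 (cond α 25 1) (hr.r _) dk, M0 2 (cond α 26 2) (hc.r _) dk, M0 4 28 ht dk, M0 8 8 hf dk, M0 16 16 hz dk])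
  have M1 : ∀ {w} (x y : ℕ), 𝔪 w (2 * x) (2 * y) → x < 32 ∧ y < 32 → Mp h1 h1 w (2 * x) (2 * y) := fun x y a b => by
    rw [Mp, ← E1, ← E1]; exact M0 x y a b
  obtain ⟨g2, h2', e2, E2⟩ := h1.cons' (g := g) (fun a => by
      obtain ⟨x, l, rfl⟩ := h1.ex a
      exact absurd (M1 4 12 hg.t dk).of_el (by clear_aux_decl; clear * - l; decide +kernel +revert)) (p := cond β 32 0) (cs := [cond γ' 33 1, 2, cond α 20 4, 24, 16, 32])
    (by rw [hg.sq, (h1.eq _ (2 * cond β 16 0)).2 dk, ← E1, L0 _ dk]; cases β <;> rfl) (h1.fa _ (by simp) fun i a => by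
      simp only [List.length] at a
      interval_cases i
      exacts [by
        rw [pow_zero, ← e1, kg, e1, (C.pg.eq _ (2 * cond γ' 16 0)).2 dk, ← L0 _ dk, E1, h1.mul, h1.eq]; exact dk,
        M1 1 1 hg.r dk, (M1 2 (cond α 10 2) (hg.c.r _) dk).r (cond α 20 4), M1 4 12 hg.t dk, M1 8 8 hg.f dk, M1 16 16 hg.z dk])
  have M2 : ∀ (x y : ℕ), EQ 64 (cj (DS true) (2 * x) 1) (2 * y) ∧ x < 32 ∧ y < 32 →
      Mp h2' h2' (𝔰 1) (2 * (2 * x)) (2 * (2 * y)) := fun x y a => by rw [Mp, ← E2, ← E2]; exact M1 x y (A _ _ a.1) a.2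
  obtain ⟨g3, h3, e3, E3⟩ := h2'.cons' (g := 𝔰 1) (fun a => by
      obtain ⟨x, l, e⟩ := h2'.ex a
      exact absurd ((M2 1 19 dk).of_eq e) (by clear_aux_decl; clear * - l; decide +kernel +revert)) (p := 8) (cs := [2, cond α 33 1, 76, 8, 16, 96, 64])
    (by rw [C.pg.mul, (C.pg.eq _ (2 * 2)).2 dk, ← L0 _ dk, E1, E2]) (h2'.fa _ (by simp) fun i a => by
      simp only [List.length] at a
      interval_cases i
      exacts [by rw [pow_zero, ← e2, hh, e1, E2]; rfl, by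
        rw [show 2 ^ 1 = 2 * 1 from rfl, ← E2, ← e1, ha, e2, (C.pg.eq _ (2 * cond α 8 0)).2 dk, ← L0 _ dk, E1, E2, h2'.mul, h2'.eq]
        exact dk, M2 1 19 dk, M2 2 2 dk, M2 4 4 dk, M2 8 24 dk, M2 16 16 dk])
  refine ⟨α, β, γ', g3, h3, fun x l => ?_, n1⟩
  rw [← (C.pg.eq (mul (DS true) (x % 2) (2 * (x / 2))) x).2 (by clear_aux_decl; clear * - l; decide +kernel +revert), ← C.pg.mul, ← L0 _ (by omega), E1, E2, E3]
  rcases Nat.mod_two_eq_zero_or_one x with p | p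
  · rw [p, el_zero, one_mul]; congr 1; omega
  · rw [p, e3, h3.mul, h3.eq]; exact (by clear_aux_decl; clear * - l; decide +kernel +revert)

end Cfg0

end Cfsg.Lib.H33
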