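import Cfsg.Agent.Lib.H33.Z4a

/-! The case `U⁺ = Z₄ × Z₄ × ⟨f⟩`, the translation group (helper5). -/

set_option autoImplicit false
set_option synthInstance.maxSize 2048

namespace Cfsg.Lib.H33

open Cfsg.Lib.Calc Cfsg.Lib.Transfer Subgroup

namespace St4

variable {G : Type*} [Group G] [Finite G] {e : Bool} {C : Cfg0 G e} (X : St4 C true)

set_option hygiene false in
local notation "𝔰" => el (Cfg0.gs C)
set_option hygiene false in
local notation "𝔪" => Mp (Cfg0.pg C) (Cfg0.pg C)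
set_option hygiene false in
local notation "𝔯" => el (St4.gs X)
set_option hygiene false in
local notation "𝔫" => Mp (St4.pg X) (St4.pg X)
set_option hygiene false in
local notation "𝔑" m:max => normalizer (MS (St4.gs X) m : Set G)
set_option quotPrecheck false in
local notation "dk" => by clear_aux_decl; clear * -; decide +kernel +revert

theorem _root_.Cfsg.Lib.H33.card_cover {T R : Subgroup G} (L : List G) (h : ∀ y ∈ T, ∃ v ∈ L, y * v ∈ R) :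
    Nat.card T ≤ L.length * Nat.card R := by
  have h' : ∀ y : T, ∃ p : Fin L.length × R, (y : G) * L.get p.1 = p.2 := fun y =>
    let ⟨v, a, b⟩ := h y y.2; let ⟨i, c⟩ := List.get_of_mem a; ⟨(i, ⟨_, b⟩), by rw [c]⟩
  choose φ hφ using h'
  simpa using Nat.card_le_card_of_injective φ fun y u e => Subtype.ext (mul_right_cancel ((hφ y).trans (e ▸ (hφ u).symm)))

theorem _root_.Cfsg.Lib.H33.climb' {T : Subgroup G} (hT : IsPGroup 2 T) {n : ℕ} (a : Nat.card T ≤ 2 ^ n) (b : 2 ^ (n + 1) ∣ Nat.card G) :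
    ∃ w ∈ normalizer (T : Set G), w ∉ T ∧ w * w ∈ T := by
  haveI : Fact (Nat.Prime 2) := ⟨Nat.prime_two⟩
  obtain ⟨k, e⟩ := IsPGroup.iff_card.1 hT
  refine climb hT (dvd_trans ?_ b)
  rw [e, ← pow_succ'] 
  exact pow_dvd_pow _ (Nat.succ_le_succ ((Nat.pow_le_pow_iff_right (by norm_num)).1 (e ▸ a)))

/-- The elements normalising `U` and trivial on `U⁺ / Ω`. -/
def MZ : Subgroup G := 𝔑 126 ⊓ rcK (MS X.gs 124) (MS X.gs 112)

theorem mz1 : ∀ a < 128, a % 2 = 0 → ∀ b < 128, IM 124 b → mul (D4 true) a b % 128 % 16 = a % 16 ^^^ b % 16 := dk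

theorem MZ.nm {w : G} (a : w ∈ 𝔑 126) (b : w ∈ 𝔑 124) (c : w ∈ 𝔑 112) : w ∈ normalizer (X.MZ : Set G) :=
  norm_inf (norm_norm a) (norm_rcK b c)

theorem MZ.act {x : G} (h : x ∈ X.MZ) {v : ℕ} (l : v < 128) (a : IM 124 v) : ∃ v' < 128, v' % 16 = v % 16 ∧ 𝔫 x v v' := by
  obtain ⟨ω, b, c, d⟩ := X.pg.ex_ms (zok 112 (by simp)) (h.2.2 _ (el_mem_ms a))
  refine ⟨_, Nat.mod_lt _ (by norm_num), (mz1 v l (by clear_aux_decl; clear * - l a; decide +kernel +revert) ω b (IM.trans (by decide) c)).trans (by clear_aux_decl; clear * - l b c; decide +kernel +revert), ?_⟩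
  rw [Mp, el_modN X.pg, ← X.pg.mul, ← d, cm, mul_inv_cancel_left]

theorem MZ.n1 {x : G} (h : x ∈ X.MZ) : x ∈ 𝔑 124 := X.pg.nm_ms fun i p q => by
  obtain ⟨v, a, b, c⟩ := MZ.act X h (v := 2 ^ i) (by clear_aux_decl; clear * - p q; decide +kernel +revert) (by clear_aux_decl; clear * - p q; decide +kernel +revert)
  exact c.mem (by clear_aux_decl; clear * - p q a b; decide +kernel +revert)

theorem MZ.r {x : G} (h : x ∈ X.MZ) : 𝔫 x 16 16 := by
  obtain ⟨v, a, b, c⟩ := MZ.act X h (v := 4) (by norm_num) (by decide)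
  exact (c.mul c).cast _ _ ⟨dk, (by clear_aux_decl; clear * - a b; decide +kernel +revert)⟩

theorem MZ.z {x : G} (h : x ∈ X.MZ) : 𝔫 x 32 32 := by
  obtain ⟨v, a, b, c⟩ := MZ.act X h (v := 8) (by norm_num) (by decide)
  exact (c.mul c).cast _ _ ⟨dk, (by clear_aux_decl; clear * - a b; decide +kernel +revert)⟩

theorem MZ.of {x : G} (a : x ∈ 𝔑 126) (b : x ∈ 𝔑 124) (c : x ∈ 𝔑 112) (d : 𝔫 x 16 16) (f : 𝔫 x 32 32) : x ∈ X.MZ := by
  refine ⟨a, X.pg.mem_rcK dk c fun i p q => ?_⟩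
  obtain ⟨y, l, p1, m⟩ := Mp.exm (h := X.pg) (zok 124 (by simp)) b (2 ^ i) (by clear_aux_decl; clear * - p q; decide +kernel +revert)
  rw [cm, m.e, X.pg.inv, X.pg.mul, X.pg.mem_ms (zok _ (by simp))]
  obtain rfl | rfl | h : i = 2 ∨ i = 3 ∨ IM 112 (2 ^ i) := (by clear_aux_decl; clear * - p q; decide +kernel +revert)
  · have := (m.mul m).eq d; exact (by clear_aux_decl; clear * - l p1 this; decide +kernel +revert)
  · have := (m.mul m).eq f; exact (by clear_aux_decl; clear * - l p1 this; decide +kernel +revert)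
  · have := (m.im (zok _ (by simp)) c).1 (by clear_aux_decl; clear * - p h; decide +kernel +revert); exact (by clear_aux_decl; clear * - p h l this; decide +kernel +revert)

theorem MZ.el {x : ℕ} (l : x < 128) (h : IM 126 x) : 𝔯 x ∈ X.MZ :=
  let ⟨a, b, c, _⟩ := X.z0 (le_normalizer (el_mem X.gs x)); MZ.of X c a b (.sf _ _ _ _ (by clear_aux_decl; clear * - l h; decide +kernel +revert)) (.sf _ _ _ _ (by clear_aux_decl; clear * - l h; decide +kernel +revert))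

/-- The translation part. -/
def Tr (x : G) (j : ℕ) : Prop := ∃ y < 128, y % 16 = j ∧ 𝔫 x 2 y

theorem exTr {x : G} (a : x ∈ 𝔑 126) (b : x ∈ 𝔑 124) : ∃ y < 128, y % 4 = 2 ∧ 𝔫 x 2 y := by
  obtain ⟨y, l, p, m⟩ := Mp.exm (h := X.pg) (zok 126 (by simp)) a 2
  have q : ¬ IM 124 (y % 128) := fun h => absurd ((m.im (zok _ (by simp)) b).2 h) (by decide)
  exact ⟨y, l, (by clear_aux_decl; clear * - l p q; decide +kernel +revert), m⟩

theorem Tr.any {x : G} (h : x ∈ X.MZ) {j : ℕ} (a : X.Tr x j) {y : ℕ} (l : y < 128) (b : y % 4 = 2) :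
    ∃ y' < 128, y' % 16 = y % 16 ^^^ j ^^^ 2 ∧ 𝔫 x y y' := by
  obtain ⟨t1, l1, rfl, m⟩ := a
  obtain ⟨t2, l2, p, m'⟩ := X.exTr h.1 (MZ.n1 X h)
  obtain rfl := (m.eq m' rfl).eq l1 l2
  obtain ⟨v, l3, q, m2⟩ := MZ.act X h (v := y ^^^ 2) (by clear_aux_decl; clear * - l b; decide +kernel +revert) (by clear_aux_decl; clear * - l b; decide +kernel +revert)
  refine ⟨_, Nat.mod_lt _ (by norm_num), ?_, (m.mul m2).cast _ _ ⟨(by clear_aux_decl; clear * - l b; decide +kernel +revert), (Nat.mod_mod _ _).symm⟩⟩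
  rw [mz1 _ l1 (by omega) _ l3 (by clear_aux_decl; clear * - l b l3 q; decide +kernel +revert), q, show 16 = 2 ^ 4 from rfl, Nat.xor_mod_two_pow, ← Nat.xor_assoc,
    Nat.xor_comm (t1 % _)]

theorem Tr.mul {x y : G} (h : y ∈ X.MZ) {i j : ℕ} (a : X.Tr x i) (b : X.Tr y j) (c : i % 4 = 2 := by decide) :
    X.Tr (x * y) (i ^^^ j ^^^ 2) := by
  obtain ⟨t1, l1, rfl, m⟩ := a
  obtain ⟨t2, l2, p, m'⟩ := b.any X h l1 (by omega)
  exact ⟨t2, l2, p, m.trans m'⟩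

theorem Tr.of {x : G} (h : x ∈ X.MZ) {y y' : ℕ} (l : y < 128) (l' : y' < 128) (b : y % 4 = 2) (m : 𝔫 x y y') :
    X.Tr x (y % 16 ^^^ y' % 16 ^^^ 2) := by
  obtain ⟨t1, l1, p, m1⟩ := X.exTr h.1 (MZ.n1 X h)
  obtain ⟨t2, l2, q, m2⟩ := Tr.any X h ⟨t1, l1, rfl, m1⟩ l b
  obtain rfl := (m.eq m2 rfl).eq l' l2
  refine ⟨t1, l1, ?_, m1⟩
  rw [q, Nat.xor_assoc, Nat.xor_assoc, Nat.xor_assoc, Nat.xor_self, Nat.xor_zero, ← Nat.xor_assoc, Nat.xor_self, Nat.zero_xor]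

theorem Tr.uniq {x : G} {i j : ℕ} (a : X.Tr x i) (b : X.Tr x j) : i = j := by
  obtain ⟨_, l1, rfl, m⟩ := a
  obtain ⟨_, l2, rfl, m'⟩ := b
  rw [(m.eq m' rfl).eq l1 l2]

/-- The 3-cycle `8 ↦ 4 ↦ 12 ↦ 8`. -/
def pz (j : ℕ) : ℕ := if j / 4 = 0 then 0 else (j / 4 * 4 + 4) % 12 + 4

/-- `ρ` permutes `U⁺ / Ω` cyclically. -/
def Rho (ρ : G) : Prop := ρ ∈ 𝔑 126 ∧ ρ ∈ 𝔑 112 ∧ ∀ v < 128, IM 124 v → ∃ v' < 128, v' % 16 = pz (v % 16) ∧ 𝔫 ρ v v'

theorem Rho.mul {ρ m : G} (h : X.Rho ρ) (a : m ∈ X.MZ) : X.Rho (ρ * m) :=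
  ⟨mul_mem h.1 a.1, mul_mem h.2.1 a.2.1, fun v l b => by
    obtain ⟨v1, l1, p, m1⟩ := h.2.2 v l b
    obtain ⟨v2, l2, q, m2⟩ := MZ.act X a l1 (by clear_aux_decl; clear * - l b l1 p; decide +kernel +revert)
    exact ⟨v2, l2, q.trans p, m1.trans m2⟩⟩

theorem Rho.n1 {x : G} (h : X.Rho x) : x ∈ 𝔑 124 := X.pg.nm_ms fun i p q => by
  obtain ⟨v, a, b, c⟩ := h.2.2 (2 ^ i) (by clear_aux_decl; clear * - p q; decide +kernel +revert) (by clear_aux_decl; clear * - p q; decide +kernel +revert)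
  exact c.mem (by clear_aux_decl; clear * - p q a b; decide +kernel +revert)

theorem Rho.z {x : G} (h : X.Rho x) : 𝔫 x 32 16 := by
  obtain ⟨v, a, b, c⟩ := h.2.2 8 (by norm_num) (by decide)
  exact (c.mul c).cast _ _ ⟨dk, (by clear_aux_decl; clear * - a b; decide +kernel +revert)⟩

theorem Rho.r {x : G} (h : X.Rho x) : 𝔫 x 16 48 := by
  obtain ⟨v, a, b, c⟩ := h.2.2 4 (by norm_num) (by decide)
  exact (c.mul c).cast _ _ ⟨dk, (by clear_aux_decl; clear * - a b; decide +kernel +revert)⟩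

theorem Rho.tr {ρ x : G} (h : X.Rho ρ) (a : cg x ρ ∈ X.MZ) {j : ℕ} (b : X.Tr x j) (c : j % 4 = 2) :
    X.Tr (cg x ρ) (pz j + 2) := by
  obtain ⟨t1, l1, rfl, m⟩ := b
  obtain ⟨t2, l2, p, m1⟩ := X.exTr h.1 (h.n1 X)
  replace c : t1 % 4 = 2 := by omega
  obtain ⟨v, l3, q, m2⟩ := h.2.2 (t1 ^^^ 2) (by clear_aux_decl; clear * - l1 c; decide +kernel +revert) (by clear_aux_decl; clear * - l1 c; decide +kernel +revert)
  have := Tr.of X a l2 (Nat.mod_lt _ (by norm_num)) p (m.cjg m1 ((m1.mul m2).cast _ _ ⟨(by clear_aux_decl; clear * - l1 c; decide +kernel +revert), (Nat.mod_mod _ 128).symm⟩))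
  rwa [mz1 _ l2 (by omega) _ l3 (by clear_aux_decl; clear * - l1 c l3 q; decide +kernel +revert), ← Nat.xor_assoc, Nat.xor_self, Nat.zero_xor, q,
    show pz ((t1 ^^^ 2) % 16) ^^^ 2 = pz (t1 % 16) + 2 from (by clear_aux_decl; clear * - l1 c; decide +kernel +revert)] at this

theorem exRho : ∃ ρ, X.Rho ρ := by
  obtain ⟨ρ, r1, r2, r3, r4, ⟨y1, l1, p1, r5⟩, y2, l2, p2, r6⟩ := X.rho
  have a : IM 126 y1 ∧ IM 126 y2 := ⟨(by clear_aux_decl; clear * - l1 p1; decide +kernel +revert), (by clear_aux_decl; clear * - l2 p2; decide +kernel +revert)⟩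
  have n : ρ ∈ 𝔑 112 := X.nm [(16, 48), (32, 16), (64, 64)] (by simp [r2, r3, r4]) dk
  refine ⟨ρ, X.nm [(2, 2), (4, y2), (8, y1), (16, 48), (32, 16), (64, 64)] (by simp [r1, r2, r3, r4, r5, r6]) fun i p q => ?_,
    n, fun v l b => ?_⟩
  · obtain rfl | rfl | rfl | rfl | rfl | rfl : i = 1 ∨ i = 2 ∨ i = 3 ∨ i = 4 ∨ i = 5 ∨ i = 6 := (by clear_aux_decl; clear * - p q; decide +kernel +revert)
    all_goals simp [a]
    all_goals decide
  obtain ⟨ω, l3, p3, m⟩ := Mp.exm (h := X.pg) (zok 112 (by simp)) n (v &&& 112) (by clear_aux_decl; clear * - l; decide +kernel +revert)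
  obtain ⟨y, l4, p4, m'⟩ : ∃ y < 128, y % 16 = pz (v % 16) ∧ 𝔫 ρ (v % 16) y := by
    obtain h | h | h | h : v % 16 = 0 ∨ v % 16 = 4 ∨ v % 16 = 8 ∨ v % 16 = 12 := (by clear_aux_decl; clear * - l b; decide +kernel +revert)
    all_goals rw [h]
    exacts [⟨0, by norm_num, rfl, .zero⟩, ⟨_, l2, p2, r6⟩, ⟨_, l1, p1, r5⟩,
      ⟨_, Nat.mod_lt _ (by norm_num), (by clear_aux_decl; clear * - l1 p1 l2 p2; decide +kernel +revert), (r6.mul r5).cast _ _ ⟨dk, (Nat.mod_mod _ 128).symm⟩⟩]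
  refine ⟨_, Nat.mod_lt _ (by norm_num), ?_, (m'.mul m).cast _ _ ⟨(by clear_aux_decl; clear * - l b; decide +kernel +revert), (Nat.mod_mod _ 128).symm⟩⟩
  rw [mz1 _ l4 (by clear_aux_decl; clear * - l b l4 p4; decide +kernel +revert) _ l3 (IM.trans (by decide) p3), p4, show ω % 16 = 0 from (by clear_aux_decl; clear * - l3 p3; decide +kernel +revert), Nat.xor_zero]

end St4

end Cfsg.Lib.H33
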