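import Cfsg.Agent.Lib.H33.E8b
import Cfsg.Agent.Lib.H33.Z4b

/-! The case `t^G ∩ A = t Ω`: action lists, recognising `t`, the case `α = 1` (helper5). -/

set_option autoImplicit false
set_option synthInstance.maxSize 2048

namespace Cfsg.Lib.H33

open Cfsg.Lib.Calc Cfsg.Lib.Transfer Subgroup

set_option quotPrecheck false in
local notation "dk" => by clear_aux_decl; clear * -; decide +kernel +revert

/-- `w` acts on the generators as the list `cs`. -/
def Ac {G : Type*} [Group G] {gs : List G} {D : Dat} {N : ℕ} (h : PG gs D N) (w : G) (cs : List ℕ) : Prop :=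
  ∀ x, Mp h h w x (hm (mul D) cs x)

namespace Ac

variable {G : Type*} [Group G] {gs : List G} {D : Dat} {N : ℕ} {h : PG gs D N} {w v : G} {cs ds : List ℕ}

theorem of (e : 2 ^ cs.length = N) (a : ∀ i < cs.length, Mp h h w (2 ^ i) (cs.getD i 0)) : Ac h w cs :=
  h.hom (h.fa cs e a)

theorem mul (a : Ac h w cs) (b : Ac h v ds) : Ac h (w * v) (cs.map (hm (H33.mul D) ds)) := fun x =>
  (a x).trans (Mp.hom (List.forall₂_map_right_iff.2 (List.forall₂_same.2 fun c _ => b c)) x)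

theorem tr (a : Ac h w cs) (g : ℕ) : Ac h (w * el gs g) (cs.map (cj D · g)) := fun x =>
  (a x).trans (Mp.hom (List.forall₂_map_right_iff.2 (List.forall₂_same.2 fun c _ => .self h g c)) x)

theorem cast (a : Ac h w cs) (ds : List ℕ) (c : cs.map (· % N) = ds := by clear_aux_decl; clear * -; decide +kernel +revert) :
    Ac h w ds := fun x => by
  have : Mp h h 1 (hm (H33.mul D) cs x) (hm (H33.mul D) ds x) := c ▸ Mp.hom (List.forall₂_map_right_iff.2
    (List.forall₂_same.2 fun c _ => by rw [Mp, cg_one', el_modN h])) x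
  simpa using (a x).trans this

theorem ap (a : Ac h w cs) (x y : ℕ) (c : EQ N (hm (H33.mul D) cs x) y := by clear_aux_decl; clear * -; decide +kernel +revert) :
    Mp h h w x y := (a x).r _ c

theorem nm [Finite G] (a : Ac h w cs) : w ∈ normalizer (gen gs : Set G) := mem_norm_of_cg fun x hx => by
  obtain ⟨x, -, rfl⟩ := h.ex hx
  exact (a x).e ▸ el_mem _ _

/-- The action of a conjugate. -/
theorem cjg (a : Ac h w cs) (b : Ac h v ds) (es : List ℕ) (e : 2 ^ es.length = N)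
    (c : ∀ i < es.length, ∃ x < N, EQ N (hm (H33.mul D) ds x) (2 ^ i) ∧
      EQ N (hm (H33.mul D) ds (hm (H33.mul D) cs x)) (es.getD i 0)) : Ac h (cg w v) es :=
  of e fun i p => let ⟨x, _, q, r⟩ := c i p; ((a x).cjg (b x) (b _)).cast _ _ ⟨q, r⟩

theorem fa (a : Ac h w cs) (e : 2 ^ cs.length = N) (c : ∀ i < cs.length, EQ N (hm (H33.mul D) cs (2 ^ i)) (cs.getD i 0)) :
    List.Forall₂ (fun x c => cg x w = el gs c) gs cs := h.fa cs e fun i p => (a _).r _ (c i p)

end Ac

namespace Cfg0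

variable {G : Type*} [Group G] [Finite G] {e : Bool} (C : Cfg0 G e)

set_option hygiene false in
local notation "𝔰" => el (Cfg0.gs C)
set_option hygiene false in
local notation "𝔪" => Mp (Cfg0.pg C) (Cfg0.pg C)

theorem back {gs : List G} {D : Dat} {N τ y v : ℕ} (h : PG gs D N) (a : gen C.gs ≤ gen gs) (t : el gs τ = 𝔰 8) {P : Subgroup G}
    (hP : IsPGroup 2 P) (b : gen gs ≤ P) {w : G} (c : w ∈ P) (m : Mp h h w τ y) (d : EQ N (cj D y v) τ) : w ∈ gen gs := by
  have := a (C.memS hP (a.trans b) (mul_mem c (b (el_mem gs v))) (by rw [Mp, ← t]; exact (m.tr v).r _ d))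
  exact (mul_mem_cancel_right (el_mem gs v)).1 this

theorem syl {gs : List G} {D : Dat} {N τ : ℕ} (h : PG gs D N) (a : gen C.gs ≤ gen gs) (t : el gs τ = 𝔰 8)
    (b : ∀ n ∈ normalizer (gen gs : Set G), ∀ y < N, Mp h h n τ y → ∃ v < N, EQ N (cj D y v) τ) : ¬ 2 * N ∣ Nat.card G := fun c => by
  obtain ⟨n, n1, n2, n3⟩ := h.climb c
  obtain ⟨y, l, m⟩ := h.img0 n1 τ
  obtain ⟨v, -, d⟩ := b n n1 y l m
  exact n2 (C.back h a t (pg_sup' h.pgroup n3 n1) le_sup_left (mem_sup_right (mem_zpowers n)) m d)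

/-- A 2-element centralising `t`, `Q₈` and `u` lies in `⟨t, u⟩`. -/
theorem cY (C : Cfg0 G true) {w : G} {n : ℕ} (hn : w ^ 2 ^ n = 1) (ht : 𝔪 w 8 8) (hc : 𝔪 w 4 4) (hd : 𝔪 w 3 3) (hu : 𝔪 w 20 20) :
    ∃ i < 8, w = 𝔰 (hm (mul (DS true)) [8, 20, 32] i) := by
  have k := fun x (h : x ∈ [𝔰 3, 𝔰 4, 𝔰 8, 𝔰 20]) => mem_gen h
  simp only [List.forall_mem_cons, List.not_mem_nil, IsEmpty.forall_iff, implies_true, and_true] at k
  have hw : w ∈ normalizer (gen [𝔰 3, 𝔰 4, 𝔰 8, 𝔰 20] : Set G) := norm_gen (by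
    simpa only [List.forall_mem_cons, List.not_mem_nil, IsEmpty.forall_iff, implies_true, and_true, hd.e, hc.e, ht.e, hu.e]
      using k)
  have le : gen [𝔰 3, 𝔰 4, 𝔰 8, 𝔰 20] ≤ gen C.gs := gen_le.2 (by simp [el_mem])
  obtain ⟨x, xt, hx⟩ := C.into _ (pg_sup (C.pg.pgroup.to_le le) hn hw) fun y hy => mem_cent.1
    ((sup_le (fun y h => mem_cent.2 (C.fixt (le h))) (zpowers_le.2 (mem_cent.2 ht)) : _ ≤ centralizer {𝔰 8}) hy)
  obtain ⟨c1, l1, m1⟩ := Mp.ex C.pg C.pg (hx _ (mem_sup_left k.2.1))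
  have p1 := C.fus xt m1
  have p2 := (m1.mul m1).ne .zero
  obtain ⟨d1, l2, m2⟩ := Mp.ex C.pg C.pg (hx _ (mem_sup_left k.1))
  have p3 := C.fus xt m2
  have p4 := (m2.mul m2).ne .zero
  have p5 := (m1.mul m2).ne (m2.mul m1)
  obtain ⟨u1, l3, m3⟩ := Mp.ex C.pg C.pg (hx _ (mem_sup_left k.2.2.2))
  have p6 := m3.co m1
  have p7 := m3.co m2
  have p10 := (m3.mul m3).ne .zero
  obtain ⟨w1, l4, m4⟩ := C.pg.ex (hx _ (mem_sup_right (mem_zpowers _)))
  have p8 := hc.act m1 m1 m4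
  have p9 := hd.act m2 m2 m4
  obtain ⟨i, li, p⟩ : ∃ i < 8, EQ 64 w1 (hm (mul (DS true)) [8, u1, mul (DS true) u1 u1] i) :=
    (by clear_aux_decl; clear * - l1 p1 p2 l2 p3 p4 p5 l3 p6 p7 p10 l4 p8 p9; decide +kernel +revert)
  refine ⟨i, li, (cg_inj (g := x)).1 ?_⟩
  rw [m4, (C.pg.eq _ _).2 p]
  exact (Mp.hom (.cons xt (.cons m3 (.cons ((m3.mul m3).l 32) .nil))) i).e.symm

end Cfg0

def D8' (β γ : Bool) : Dat := [(24, [cond β 67 3, cond γ 98 34, 92, 8, 16, 96, 64]),
  (cond β 32 0, [cond γ 33 1, 2, 20, 8, 16, 32]), (cond γ 16 0, [25, 18, 4, 8, 16]), (0, [1, 10, 4, 8]), (0, [1, 2, 4]),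
  (2, [1, 2]), (0, [1]), (0, [])]

namespace St8

variable {G : Type*} [Group G] [Finite G] {C : Cfg0 G true} {α β γ : Bool} (X : St8 C α β γ)

set_option hygiene false in
local notation "𝔰" => el (Cfg0.gs C)
set_option hygiene false in
local notation "𝔪" => Mp (Cfg0.pg C) (Cfg0.pg C)
set_option hygiene false in
local notation "𝔯" => el (St8.gs X)
set_option hygiene false in
local notation "𝔫" => Mp (St8.pg X) (St8.pg X)

theorem le : gen C.gs ≤ gen X.gs := C.pg.gen_le_iff.2 fun i p => PG.mem_of_eq (X.lk _ (by clear_aux_decl; clear * - p; decide +kernel +revert))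

theorem al1 (X : St8 C true β γ) (h : γ = true → β = true) : ¬ 2 * 256 ∣ Nat.card G := by
  obtain ⟨gs, k, E⟩ := X.pg.sub' [1, 2, 6, 8, 32, 48, 64, 128] (D8' β γ) 256 (by clear_aux_decl; clear * - h; decide +kernel +revert)
  have g : gen gs = gen X.gs := Subgroup.eq_of_le_of_card_ge
    (k.gen_le_iff.2 fun _ _ => PG.mem_of_eq (E _)) (by rw [k.card, X.pg.card])
  refine C.syl (τ := 16) k (g ▸ X.le) (by rw [E, X.lk 8 (by decide), X.pg.eq]; exact dk) fun n hn y l m => ?_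
  rw [← k.ms_top] at hn
  have ok : ∀ m ∈ [0, 128, 224, 244, 255], msOK (D8' β γ) 256 m := (by clear_aux_decl; clear * - h; decide +kernel +revert)
  have z1 := k.nm_rc (z := 0) (m := 128) (ok _ (by simp)) (ok _ (by simp)) (ok _ (by simp)) (by clear_aux_decl; clear * - h; decide +kernel +revert) hn hn (PG.nm_zero _ _)
  have z2 := k.nm_rc (z := 128) (m := 224) (ok _ (by simp)) (ok _ (by simp)) (ok _ (by simp)) (by clear_aux_decl; clear * - h; decide +kernel +revert) hn hn z1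
  have z3 := k.nm_rc (z := 224) (m := 244) (ok _ (by simp)) (ok _ (by simp)) (ok _ (by simp)) (by clear_aux_decl; clear * - h; decide +kernel +revert) hn hn z2
  have p1 := (m.im (ok _ (by simp)) z3).1 (by decide)
  have p2 := mt (m.im (ok _ (by simp)) z2).2 (by decide)
  have p3 := m.sq (by clear_aux_decl; clear * - h; decide +kernel +revert)
  obtain ⟨a1, l1, -, m1⟩ := Mp.exm (h := k) (ok 255 (by simp)) hn 1
  have p4 := m1.co m (by clear_aux_decl; clear * - h; decide +kernel +revert)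
  have p5 := ((m1.mul m1).mul (m1.mul m1)).ne .zero (by clear_aux_decl; clear * - h; decide +kernel +revert)
  obtain ⟨z', l2, q2, m2⟩ := Mp.exm (h := k) (ok _ (by simp)) z1 128
  have p6 := m2.ne .zero
  obtain rfl : z' = 128 := (by clear_aux_decl; clear * - l2 q2 p6; decide +kernel +revert)
  obtain ⟨f1, l3, q3, m3⟩ := Mp.exm (h := k) (ok _ (by simp)) z2 64
  have p7 := m3.sq (by clear_aux_decl; clear * - h; decide +kernel +revert)
  have p8 := m3.ne .zero
  have p9 := m3.ne m2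
  obtain ⟨r1, l4, -, m4⟩ := Mp.exm (h := k) (ok 255 (by simp)) hn 8
  have p10 := m4.sq (by clear_aux_decl; clear * - h; decide +kernel +revert)
  have p11 := m4.co m (by clear_aux_decl; clear * - h; decide +kernel +revert)
  have p12 := m4.co m3 (by clear_aux_decl; clear * - h; decide +kernel +revert)
  have p13 : ∀ i < 8, ¬ EQ 256 r1 (hm _ [y, f1, 128] i) := fun i a =>
    m4.ne (Mp.hom (.cons m (.cons m3 (.cons m2 .nil))) i) (by clear_aux_decl; clear * - h a; decide +kernel +revert)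
  have q : y ∈ [16, 80, 144, 208] ∨ (y ∈ [20, 36, 84, 100, 148, 164, 212, 228] ∧ γ = true) := (by clear_aux_decl; clear * - h l p1 p2 p3 l1 p4 p5; decide +kernel +revert)
  rcases q with q | ⟨q, rfl⟩
  · exact (by clear_aux_decl; clear * - h l q; decide +kernel +revert)
  · obtain rfl := h rfl
    exact absurd p13 (by clear_aux_decl; clear * - l q l3 q3 p7 p8 p9 l4 p10 p11 p12; decide +kernel +revert)

end St8

end Cfsg.Lib.H33
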