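import Cfsg.Agent.Lib.H33.E8c

/-! The case `t^G ∩ A = t Ω`: the group `Y⁺ = 4 ∘ 2^{1+4}` and the element `σ` (helper5).
Codes: `t = 1, k = 2, c = 4, d = 8, j = 16, z = 32`. -/

set_option autoImplicit false
set_option synthInstance.maxSize 2048

namespace Cfsg.Lib.H33

open Cfsg.Lib.Calc Cfsg.Lib.Transfer Subgroup

def DY : Dat := [(0, [17, 2, 4, 8, 16]), (0, [1, 2, 4, 8]), (4, [5, 2, 4]), (2, [1, 2]), (1, [1]), (0, [])]

def LY (α γ : Bool) : List ℕ := [32, cond α 207 (cond γ 22 6), 16, 9, cond α 112 80, 128]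

structure StY {G : Type*} [Group G] {C : Cfg0 G true} {α β γ : Bool} (X : St8 C α β γ) where
  gs : List G
  pg : PG gs DY 64
  lk : ∀ x, el gs x = el X.gs (hm (mul (D8 α β γ)) (LY α γ) x)

namespace StY

variable {G : Type*} [Group G] [Finite G] {C : Cfg0 G true} {α β γ : Bool} {X : St8 C α β γ} (Y : StY X)

set_option hygiene false in
local notation "𝔰" => el (Cfg0.gs C)
set_option hygiene false in
local notation "𝔪" => Mp (Cfg0.pg C) (Cfg0.pg C)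
set_option hygiene false in
local notation "𝔯" => el (St8.gs X)
set_option hygiene false in
local notation "𝔫" => Mp (St8.pg X) (St8.pg X)
set_option hygiene false in
local notation "𝔶" => el (StY.gs Y)
set_option hygiene false in
local notation "𝔭" => Mp (StY.pg Y) (StY.pg Y)
set_option hygiene false in
local notation "𝔑" m:max => normalizer (MS (StY.gs Y) m : Set G)
set_option quotPrecheck false in
local notation "dk" => by clear_aux_decl; clear * -; decide +kernel +revert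

theorem ex (X : St8 C α β γ) (h : α = true → γ = true) : Nonempty (StY X) :=
  let ⟨gs, k, E⟩ := X.pg.sub' (LY α γ) DY 64 (by clear_aux_decl; clear * - h; decide +kernel +revert); ⟨gs, k, E⟩

theorem ok : ∀ m ∈ [0, 33, 48, 49, 50, 51, 60, 62, 63], msOK DY 64 m := dk

theorem lk' (x y : ℕ) (h : y < 64 ∧ EQ 256 (hm (mul (D8 α β γ)) (LY α γ) x) (y % 2 + y / 2 * 8) := by
    clear_aux_decl; clear * -; decide +kernel +revert) : 𝔶 x = 𝔰 y := by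
  rw [Y.lk, X.lk _ h.1, X.pg.eq]; exact h.2

theorem tr {w : G} {x y x' y' : ℕ} (a : 𝔶 x' = 𝔰 x) (b : 𝔶 y' = 𝔰 y) : 𝔪 w x y ↔ 𝔭 w x' y' := by rw [Mp, Mp, a, b]

theorem t : 𝔶 1 = 𝔰 8 := Y.lk' _ _
theorem c : 𝔶 4 = 𝔰 4 := Y.lk' _ _
theorem d : 𝔶 8 = 𝔰 3 := Y.lk' _ _
theorem u : 𝔶 (cond α 17 16) = 𝔰 20 := Y.lk' _ _

theorem fu {w : G} (a : 𝔭 w 1 1) {x : ℕ} (b : 𝔭 w 16 x) : 𝔭 w (cond α 17 16) (cond α (mul DY 1 x) x) := by
  cases α
  exacts [b, (a.mul b).l _]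

theorem fix {w : G} {n : ℕ} (hn : w ^ 2 ^ n = 1) (ht : 𝔭 w 1 1) (hc : 𝔭 w 4 4) (hd : 𝔭 w 8 8) (hj : 𝔭 w 16 16) :
    ∃ x < 64, IM 49 x ∧ w = 𝔶 x := by
  obtain ⟨i, li, rfl⟩ := C.cY hn ((Y.tr Y.t Y.t).2 ht) ((Y.tr Y.c Y.c).2 hc) ((Y.tr Y.d Y.d).2 hd)
    ((Y.tr Y.u Y.u).2 ((Y.fu ht hj).r _))
  obtain ⟨x, l, p, q⟩ : ∃ x < 64, IM 49 x ∧ (hm (mul (DS true)) [8, 20, 32] i < 64 ∧ EQ 256 (hm (mul (D8 α β γ)) (LY α γ) x)
    (hm (mul (DS true)) [8, 20, 32] i % 2 + hm (mul (DS true)) [8, 20, 32] i / 2 * 8)) := (by clear_aux_decl; clear * - li; decide +kernel +revert)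
  exact ⟨x, l, p, (Y.lk' _ _ q).symm⟩

theorem stab {w : G} (ht : 𝔭 w 1 1) (hc : 𝔭 w 4 4) (hd : 𝔭 w 8 8) : ¬ 𝔭 w 16 48 := fun hj =>
  C.stab rfl ((Y.tr Y.t Y.t).2 ht) ((Y.tr Y.c Y.c).2 hc) ((Y.tr Y.d Y.d).2 hd)
    ((Y.tr Y.u (Y.lk' (cond α 49 48) 52)).2 ((Y.fu ht hj).r _))

theorem nm {m : ℕ} {w : G} (L : List (ℕ × ℕ)) (a : ∀ p ∈ L, 𝔭 w p.1 p.2)
    (b : ∀ i < 6, m.testBit i = true → ∃ p ∈ L, p.1 = 2 ^ i ∧ IM m p.2) : w ∈ 𝔑 m :=
  Y.pg.nm_ms fun i p q => let ⟨u, c, d, e⟩ := b i p q; d ▸ (a u c).mem e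

theorem sig : ∃ σ, Ac Y.pg σ [1, 2, 8, 12, 16, 32] := by
  obtain ⟨σ, s1, s2, s3, s4⟩ := C.sig rfl
  replace s1 := (Y.tr Y.t Y.t).1 s1
  replace s2 := (Y.tr Y.u Y.u).1 s2
  replace s3 := (Y.tr Y.c Y.d).1 s3
  replace s4 := (Y.tr Y.d (Y.lk' 12 _)).1 s4
  have s5 : 𝔭 σ 16 16 := by
    cases α
    exacts [s2, (s1.mul s2).cast _ _]
  have s6 : 𝔭 σ 32 32 := (s5.mul s5).cast _ _
  have le : MS Y.gs 51 ≤ rcK (MS Y.gs 60) (MS Y.gs 0) ⊓ 𝔑 33 := (ms_le_iff Y.pg).2 fun i p q =>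
    ⟨Y.pg.mem_rcK dk (PG.nm_zero _ _) fun j p' q' => by rw [Y.pg.cm, Y.pg.mem_ms (ok _ (by simp))]; exact (by clear_aux_decl; clear * - p q p' q'; decide +kernel +revert),
      Y.pg.nm_el (by clear_aux_decl; clear * - p q; decide +kernel +revert)⟩
  obtain ⟨T, hT, a, b, c⟩ := syl_fr (Y.pg.pgroup.to_le (ms_le _ _)) (le.trans le_normalizer)
  rw [sup_eq_left.2 le] at b
  obtain ⟨m, hm, d⟩ := c σ (norm_inf (norm_rcK (Y.nm [(4, 8), (8, 12), (16, 16), (32, 32)] (by simp [*]) dk) (PG.nm_zero _ _))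
    (norm_norm (Y.nm [(1, 1), (32, 32)] (by simp [*]) dk)))
  have F : ∀ y ∈ rcK (MS Y.gs 60) (MS Y.gs 0) ⊓ 𝔑 33, ∀ x, IM 60 x → 𝔭 y x x := fun y hy x hx =>
    cm_eq_one.1 (ms_zero.1 (hy.1.2 _ (el_mem_ms hx)))
  have K : ∀ y ∈ rcK (MS Y.gs 60) (MS Y.gs 0) ⊓ 𝔑 33, ∃ i, IM 2 i ∧ 𝔭 (y * 𝔶 i) 1 1 := fun y hy => by
    obtain ⟨x, l, p, m⟩ := Mp.exm (h := Y.pg) (ok _ (by simp)) hy.2 1
    have q1 := m.ne .zero
    have q2 := m.ne (F y hy 32 (by decide))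
    obtain ⟨i, li, p', q⟩ : ∃ i < 3, IM 2 i ∧ EQ 64 (cj DY x i) 1 := (by clear_aux_decl; clear * - l p q1 q2; decide +kernel +revert)
    exact ⟨i, p', (m.tr i).r _ q⟩
  have R : ∀ y ∈ T, y ∈ MS Y.gs 51 := fun y hy => by
    obtain ⟨i, p, q⟩ := K y (b hy)
    have u := el_mem_ms (gs := Y.gs) (IM.trans (r := 51) (by decide) p)
    obtain ⟨n, hn⟩ := pow_of_pg hT (mul_mem hy (a u))
    have v := F _ (b (mul_mem hy (a u)))
    obtain ⟨x, -, p', e⟩ := Y.fix hn q (v _ (by decide)) (v _ (by decide)) (v _ (by decide))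
    exact (mul_mem_cancel_right u).1 (e ▸ el_mem_ms (IM.trans (by decide) p'))
  obtain ⟨i, p, q⟩ := K m hm
  have u := el_mem_ms (gs := Y.gs) (IM.trans (r := 51) (by decide) p)
  have v := F _ (mul_mem hm (le u))
  obtain ⟨k1, l, p1, e⟩ := Y.pg.ex_ms (ok _ (by simp)) (cg_mem (R _ (d _ (a (el_mem_ms (x := 2) (by decide)))
    (le (el_mem_ms (by decide))))) u)
  rw [cg_cg, mul_assoc] at e
  replace e : 𝔭 (σ * (m * 𝔶 i)) 2 k1 := e
  have p2 := e.sq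
  have p3 := (e.mul (s1.trans q)).ne ((s1.trans q).mul e)
  have A : Ac Y.pg (σ * (m * 𝔶 i)) [1, k1, 8, 12, 16, 32] := .of (by simp) fun i a => by
    simp only [List.length] at a
    interval_cases i
    exacts [s1.trans q, e, s3.trans (v _ (by decide)), s4.trans (v _ (by decide)), s5.trans (v _ (by decide)),
      s6.trans (v _ (by decide))]
  exact ⟨_, ((A.mul A).mul (A.mul A)).cast _ (by clear_aux_decl; clear * - l p1 p2 p3; decide +kernel +revert)⟩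

theorem ac (g : ℕ) (cs : List ℕ) (h : 2 ^ cs.length = 64 ∧ ∀ i < cs.length, EQ 256 (cj (D8 α β γ) (hm (mul (D8 α β γ)) (LY α γ) (2 ^ i)) g)
    (hm (mul (D8 α β γ)) (LY α γ) (cs.getD i 0))) : Ac Y.pg (𝔯 g) cs :=
  .of h.1 fun i p => by rw [Mp, Y.lk, Y.lk, X.pg.cg, X.pg.eq]; exact h.2 i p

theorem al2 (X : St8 C true false true) : False := by
  obtain ⟨Y⟩ := ex X fun _ => rfl
  obtain ⟨σ, s⟩ := Y.sig
  have g := Y.ac 2 [52, 29, 17, 23, 16, 32] dk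
  have r := Y.ac 8 [1, 19, 36, 12, 48, 32] dk
  have a0 := (s.mul g).cast [52, 29, 23, 38, 16, 32]
  have a1 := (a0.mul s).cast [56, 21, 27, 42, 16, 32]
  have a2 := (a1.mul s).cast [60, 25, 31, 46, 16, 32]
  have a3 := (a2.mul g).cast [22, 51, 63, 27, 16, 32]
  have a4 := (a3.mul s).cast [26, 51, 55, 31, 16, 32]
  have a5 := (a4.mul g).cast [58, 25, 40, 63, 16, 32]
  have a6 := (a5.mul s).cast [62, 29, 44, 55, 16, 32]
  have a7 := (a6.mul s).cast [54, 21, 36, 59, 16, 32]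
  have a8 := (a7.mul g).cast [28, 21, 49, 14, 16, 32]
  have a9 := (a8.mul s).cast [20, 25, 49, 6, 16, 32]
  have a10 := (a9.mul g).cast [33, 51, 36, 44, 16, 32]
  have a11 := (a10.mul r).cast [33, 34, 4, 40, 48, 32]
  have b := (a11.tr 6).cast [1, 34, 4, 8, 48, 32]
  exact Y.stab (b.ap _ _) (b.ap _ _) (b.ap _ _) (b.ap _ _)

theorem al (X : St8 C true β γ) : ¬ 2 * 256 ∣ Nat.card G := by
  refine X.al1 fun h => ?_
  subst h
  cases β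
  exacts [(al2 X).elim, rfl]

end StY

end Cfsg.Lib.H33
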