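import Cfsg.Agent.Lib.H33.E8d

/-! The case `t^G ∩ A = t Ω`, `α = 0`: a 2-group normalised by `σ` (helper5). -/

set_option autoImplicit false
set_option synthInstance.maxSize 2048

namespace Cfsg.Lib.H33

open Cfsg.Lib.Calc Cfsg.Lib.Transfer Subgroup

namespace StY

variable {G : Type*} [Group G] [Finite G] {C : Cfg0 G true} {β γ : Bool} {X : St8 C false β γ} (Y : StY X)

set_option hygiene false in
local notation "𝔰" => el (Cfg0.gs C)
set_option hygiene false in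
local notation "𝔪" => Mp (Cfg0.pg C) (Cfg0.pg C)
set_option hygiene false in
local notation "𝔯" => el (St8.gs X)
set_option hygiene false in
local notation "𝔫" => Mp (St8.pg X) (St8.pg X)
set_option hygiene false in
local notation "𝔶" => el (StY.gs Y)
set_option hygiene false in
local notation "𝔭" => Mp (StY.pg Y) (StY.pg Y)
set_option hygiene false in
local notation "𝔑" m:max => normalizer (MS (StY.gs Y) m : Set G)
set_option quotPrecheck false in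
local notation "dk" => by clear_aux_decl; clear * -; decide +kernel +revert

def A1 (β γ : Bool) : List ℕ := [53, 2, cond γ 36 4, cond β 42 10, cond γ 48 16, 32]

theorem a1 : Ac Y.pg (𝔯 (cond γ 10 2)) (A1 β γ) := Y.ac _ _ dk

theorem top {w : G} : w ∈ 𝔑 63 ↔ w ∈ normalizer (gen Y.gs : Set G) := by rw [← Y.pg.ms_top]

theorem nJ {w : G} (h : w ∈ 𝔑 63) : w ∈ 𝔑 48 :=
  Y.pg.nm_rc (z := 0) (ok _ (by simp)) (ok _ (by simp)) (ok _ (by simp)) dk h h (PG.nm_zero _ _)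

theorem same {T : Subgroup G} (hT : IsPGroup 2 T) {a b : G} (ha : a ∈ T) (hb : b ∈ T) {cs : List ℕ} (p : Ac Y.pg a cs)
    (q : Ac Y.pg b cs) : ∃ x < 64, IM 48 x ∧ a = b * 𝔶 x := by
  obtain ⟨n, hn⟩ := pow_of_pg hT (mul_mem ha (inv_mem hb))
  have k := fun x => (p x).trans (q x).symm
  obtain ⟨x, l, p1, e⟩ := Y.fix hn (k _) (k _) (k _) (k _)
  have p2 := (k 2).of_eq e
  obtain ⟨y, l', p3, m⟩ := Mp.exm (h := Y.pg) (ok _ (by simp)) (Y.nJ (Y.top.2 q.nm)) x (by clear_aux_decl; clear * - l p1 p2; decide +kernel +revert)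
  exact ⟨y, l', p3, by rw [← m.e, ← e]; simp [cg, mul_assoc]⟩

theorem leX : gen Y.gs ≤ gen X.gs := Y.pg.gen_le_iff.2 fun _ _ => PG.mem_of_eq (Y.lk _)

theorem idA : Ac Y.pg 1 [1, 2, 4, 8, 16, 32] := .of (by simp) fun i a => by
  simp only [List.length] at a
  interval_cases i <;> exact cg_one' _

noncomputable def pw4 (E : List ℕ) : List ℕ := List.map (hm (mul DY) (List.map (hm (mul DY) E) E)) (List.map (hm (mul DY) E) E)

theorem exV : ∃ T V : Subgroup G, IsPGroup 2 T ∧ gen X.gs ≤ T ∧ V ≤ T ∧ T ≤ normalizer (V : Set G) ∧ gen Y.gs ≤ V ∧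
    𝔯 (cond γ 10 2) ∈ V ∧ ∃ σ ∈ normalizer (V : Set G), Ac Y.pg σ [1, 2, 8, 12, 16, 32] := by
  obtain ⟨σ, s⟩ := Y.sig
  have N : ∀ {w}, w ∈ 𝔑 63 → w ∈ 𝔑 62 → w ∈ 𝔑 50 →
      w ∈ normalizer ((𝔑 63 ⊓ rcK (MS Y.gs 62) (MS Y.gs 50) : Subgroup G) : Set G) := fun a b c =>
    norm_inf (norm_norm a) (norm_rcK b c)
  have nX : ∀ g m, (∀ i < 6, m.testBit i = true → ∃ y < 64, IM m y ∧ EQ 256 (cj (D8 false β γ)
      (hm (mul (D8 false β γ)) (LY false γ) (2 ^ i)) g) (hm (mul (D8 false β γ)) (LY false γ) y)) → 𝔯 g ∈ 𝔑 m := fun g m h =>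
    Y.pg.nm_ms fun i p q => by
      obtain ⟨y, -, a, b⟩ := h i p q
      rw [Y.lk, X.pg.cg, (X.pg.eq _ _).2 b, ← Y.lk]; exact el_mem_ms a
  have nA : ∀ {w cs} m, Ac Y.pg w cs → (∀ i < 6, m.testBit i = true → IM m (hm (mul DY) cs (2 ^ i))) → w ∈ 𝔑 m :=
    fun m a h => Y.pg.nm_ms fun i p q => (a _).mem (h i p q)
  have hM := X.pg.gen_le_iff.2 fun i p => N (nX (2 ^ i) 63 (by clear_aux_decl; clear * - p; decide +kernel +revert)) (nX _ _ (by clear_aux_decl; clear * - p; decide +kernel +revert)) (nX _ _ (by clear_aux_decl; clear * - p; decide +kernel +revert))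
  obtain ⟨T, hT, a, b, c⟩ := syl_fr X.pg.pgroup hM
  have sM := N (nA 63 s dk) (nA 62 s dk) (nA 50 s dk)
  obtain ⟨m, hm, d⟩ := c σ sM
  have mM : ∀ {w cs}, Ac Y.pg w cs → (∀ i < 6, (62 : ℕ).testBit i = true → IM 50 (mul DY (inv DY (2 ^ i))
      (H33.hm (mul DY) cs (2 ^ i)) % 64)) ∧ (∀ i < 6, (50 : ℕ).testBit i = true → IM 50 (H33.hm (mul DY) cs (2 ^ i))) →
      w ∈ 𝔑 63 ⊓ rcK (MS Y.gs 62) (MS Y.gs 50) := fun a h =>
    ⟨Y.top.2 a.nm, Y.pg.mem_rcK dk (nA 50 a h.2) fun i p q => by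
      rw [cm, (a _).e, Y.pg.inv, Y.pg.mul, Y.pg.mem_ms (ok _ (by simp))]; exact h.1 i p q⟩
  have gV : 𝔯 (cond γ 10 2) ∈ T ⊓ _ := ⟨a (el_mem _ _), mM Y.a1 dk⟩
  have YV : gen Y.gs ≤ T ⊓ (𝔑 63 ⊓ rcK (MS Y.gs 62) (MS Y.gs 50)) := le_inf (Y.leX.trans a) (Y.pg.gen_le_iff.2 fun i p => by
    simpa only [one_mul] using mM (Y.idA.tr (2 ^ i)) (by clear_aux_decl; clear * - p; decide +kernel +revert))
  have sV : σ * m ∈ normalizer ((T ⊓ _ : Subgroup G) : Set G) := mem_norm_of_cg fun x h =>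
    ⟨d x h.1 h.2, cg_mem_norm h.2 (mul_mem sM (le_normalizer hm))⟩
  refine ⟨T, _, hT, a, inf_le_left, fun x h => norm_inf (le_normalizer h) (sup_le le_normalizer hM (b h)), YV, gV, ?_⟩
  have I : ∀ x, ∃ y < 64, 𝔭 m x y := Y.pg.img0 (Y.top.1 hm.1)
  have K : ∀ {x y}, 𝔭 m x y → IM 62 x → IM 50 (mul DY (inv DY x) y % 64) := fun a b => by
    rw [← Y.pg.mem_ms (ok _ (by simp)), ← Y.pg.mul, ← Y.pg.inv, ← a.e]; exact hm.2.2 _ (el_mem_ms b)
  obtain ⟨j1, l1, p1, m1⟩ := Mp.exm (h := Y.pg) (ok _ (by simp)) (Y.nJ hm.1) 16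
  have p2 := (m1.mul m1).ne .zero
  obtain ⟨k1, l2, m2⟩ := I 2
  have p3 := K m2 (by decide)
  have p4 := m2.sq
  have p5 := mt (m2.im (ok _ (by simp)) (Y.nJ hm.1)).2 (by decide)
  obtain ⟨c1, l3, m3⟩ := I 4
  have p6 := K m3 (by decide)
  have p7 := (m3.mul m3).ne .zero
  obtain ⟨d1, l4, m4⟩ := I 8
  have p8 := K m4 (by decide)
  have p9 := (m4.mul m4).ne .zero
  obtain ⟨t1, l5, m5⟩ := I 1
  have p10 := m5.sq
  have p11 := m5.co m3
  have p12 := m5.co m4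
  have p13 := (m5.mul m2).ne (m2.mul m5)
  have m6 : 𝔭 m 32 32 := (m1.mul m1).cast _ _ ⟨dk, (by clear_aux_decl; clear * - l1 p1 p2; decide +kernel +revert)⟩
  have A : Ac Y.pg m [t1, k1, c1, d1, j1, 32] := .of (by simp) fun i a => by
    simp only [List.length] at a
    interval_cases i
    exacts [m5, m2, m3, m4, m1, m6]
  have B : ∀ i : ℕ, ∃ g ∈ T ⊓ (𝔑 63 ⊓ rcK (MS Y.gs 62) (MS Y.gs 50)),
      Ac Y.pg g (if i % 2 = 1 then A1 β γ else [1, 2, 4, 8, 16, 32]) := fun i => by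
    split_ifs
    exacts [⟨_, gV, Y.a1⟩, ⟨1, one_mem _, Y.idA⟩]
  obtain ⟨g, g1, g2⟩ := B (t1 / 8)
  obtain ⟨h, h1, h2⟩ := B (t1 / 4)
  have E := (g2.mul (s.mul A)).mul h2
  have F := (E.mul E).mul (E.mul E)
  have n := mul_mem (mul_mem (le_normalizer g1) sV) (le_normalizer h1)
  obtain ⟨y, -, p⟩ : ∃ y < 16, List.map (· % 64) (List.map (cj DY · y) (pw4 (List.map (H33.hm (mul DY)
      (if t1 / 4 % 2 = 1 then A1 β γ else [1, 2, 4, 8, 16, 32])) (List.map (H33.hm (mul DY) (List.map (H33.hm (mul DY)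
      [t1, k1, c1, d1, j1, 32]) [1, 2, 8, 12, 16, 32])) (if t1 / 8 % 2 = 1 then A1 β γ else [1, 2, 4, 8, 16, 32]))))) =
      [1, 2, 8, 12, 16, 32] := (by clear_aux_decl; clear * - l1 p1 p2 l2 p3 p4 p5 l3 p6 p7 l4 p8 p9 l5 p10 p11 p12 p13; decide +kernel +revert)
  exact ⟨_, mul_mem (mul_mem (mul_mem n n) (mul_mem n n)) (le_normalizer (YV (el_mem _ y))), (F.tr y).cast _ p⟩

end StY

end Cfsg.Lib.H33
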