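import Cfsg.Agent.Lib.H33.E8e

/-! The case `t^G ∩ A = t Ω`, `α = 0`: the group `T₁` of order `2¹⁰` (helper5).
Codes: `r = 1, t = 2, g₂ = 4, d = 8, p = 16, q = g₁ p = 32, c = 64, j = 128, k = 256, z = 512`. -/

set_option autoImplicit false
set_option synthInstance.maxSize 2048

namespace Cfsg.Lib.H33

open Cfsg.Lib.Calc Cfsg.Lib.Transfer Subgroup

def D10 (β γ ε : Bool) : Dat := [(0, [1, cond ε 402 146, 292, cond γ (cond ε 8 264) (cond ε 392 136),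
    cond γ (cond ε 16 272) (cond ε 400 144), 288, 320, cond γ 384 128, 256]),
  (0, [163, 2, cond β (cond γ 228 100) (cond γ 100 228), cond β 88 216, 16, 32, 192, 128]),
  (cond β 64 0, [cond γ 65 1, 2, cond γ (cond ε 68 4) (cond ε 100 36), cond β (cond γ 40 104) (cond γ 104 40),
    cond γ 80 16, 32, 64]),
  (32, [1, cond β 50 18, 36, 8, 16, 32]),
  (cond γ (cond β (cond ε 0 16) (cond ε 16 0)) (cond β (cond ε 8 24) (cond ε 24 8)), [1, 2, cond γ 20 4, 8, 16]),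
  (cond γ (cond ε 8 0) (cond ε 12 4), [cond γ 9 1, 2, 4, 8]), (4, [1, 2, 4]), (2, [1, 2]), (0, [1]), (0, [])]

structure St10 {G : Type*} [Group G] (C : Cfg0 G true) (β γ ε : Bool) where
  gs : List G
  pg : PG gs (D10 β γ ε) 1024
  le : gen C.gs ≤ gen gs
  r : el gs 1 = el C.gs 2
  t : el gs 2 = el C.gs 8
  j : el gs 128 = el C.gs 20
  n1 : ¬ IsConj (el C.gs 8) (el C.gs 16)
  c : el gs 64 = el C.gs 4
  d : el gs 8 = el C.gs 3
  n2 : IsConj (el C.gs 8) (el C.gs 24)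
  sig : ∃ (σ : G) (δ : Bool), List.Forall₂ (Mp pg pg σ) [2, 4, 8, 16, 32, 64, 128, 256, 512]
    [2, cond δ 548 36, 584, 16, 20, 8, 128, 256, 512]

namespace StY

variable {G : Type*} [Group G] [Finite G] {C : Cfg0 G true} {β γ : Bool} {X : St8 C false β γ} (Y : StY X)

set_option hygiene false in
local notation "𝔰" => el (Cfg0.gs C)
set_option hygiene false in
local notation "𝔪" => Mp (Cfg0.pg C) (Cfg0.pg C)
set_option hygiene false in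
local notation "𝔯" => el (St8.gs X)
set_option hygiene false in
local notation "𝔫" => Mp (St8.pg X) (St8.pg X)
set_option hygiene false in
local notation "𝔶" => el (StY.gs Y)
set_option hygiene false in
local notation "𝔭" => Mp (StY.pg Y) (StY.pg Y)
set_option hygiene false in
local notation "𝔑" m:max => normalizer (MS (StY.gs Y) m : Set G)
set_option quotPrecheck false in
local notation "dk" => by clear_aux_decl; clear * -; decide +kernel +revert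

def A2 (β γ : Bool) : List ℕ := [57, 2, cond β (cond γ 6 38) (cond γ 38 6), cond γ 40 8, cond γ 48 16, 32]
def A3 (β γ : Bool) : List ℕ := [61, 2, cond β 38 6, cond β (cond γ 10 42) (cond γ 42 10), cond γ 48 16, 32]
def AP (β γ : Bool) : List ℕ := [cond β (cond γ 19 51) (cond γ 51 19), 2, 4, 8, cond γ 48 16, 32]
def AR (γ : Bool) : List ℕ := [1, cond γ 34 2, 36, 12, 48, 32]

def up (l : List ℕ) : List ℕ := l.map (2 * ·)

omit [Finite G] in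
theorem fup {gs hs : List G} {cs : List ℕ} {g : G} (a : G) (h : List.Forall₂ (fun h c => cg h g = el gs c) hs cs) :
    List.Forall₂ (fun h c => cg h g = el (a :: gs) c) hs (up cs) :=
  List.forall₂_map_right_iff.2 (h.imp fun _ _ e => by rw [el_even, e])

def DU (β γ : Bool) (x1 x2 x3 x4 : ℕ) : Dat :=
  (2 * (2 * cond β 32 0), (2 * (2 * (cond γ 0 2 + x4)) + 1) :: up ((2 * x3 + 1) :: up (A1 β γ))) ::
  (2 * cond β 32 0, (2 * x2 + 1) :: up (A2 β γ)) :: (cond γ 0 2 + x1, AP β γ) :: DY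

/-- The group `U = ⟨g₁, g₂, p⟩ Y⁺` of order `2⁹`. -/
structure StU (T : Subgroup G) (ε : Bool) where
  gs : List G
  pg : PG gs (DU β γ (cond (xor β ε) 32 0) 0 0 (cond ε 32 0)) 512
  g1 : 𝔯 (cond γ 10 2) = el gs 1
  lk : ∀ x, 𝔶 x = el gs (8 * x)
  le : gen gs ≤ T
  a2 : Ac Y.pg (el gs 2) (A2 β γ)
  ap : Ac Y.pg (el gs 4) (AP β γ)
  sg : ∃ σ, Ac pg σ [2, cond γ 7 23 + cond ε 256 0, 4, 8, 16, 64, 96, 128, 256]

theorem exU : ∃ T : Subgroup G, IsPGroup 2 T ∧ gen X.gs ≤ T ∧ ∃ ε, Nonempty (Y.StU T ε) := by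
  obtain ⟨T, V, hT, XT, VT, -, YV, gV, σ0, n0, s0⟩ := Y.exV
  refine ⟨T, hT, XT, ?_⟩
  have a1 := Y.a1
  have g1s : 𝔯 (cond γ 10 2) * 𝔯 (cond γ 10 2) = 𝔶 (cond β 32 0) := by rw [X.pg.mul, Y.lk, X.pg.eq]; exact dk
  generalize e1 : 𝔯 (cond γ 10 2) = g1 at *
  obtain ⟨σ, n, s, s3⟩ : ∃ σ ∈ normalizer (V : Set G), Ac Y.pg σ [1, 2, 8, 12, 16, 32] ∧ cg g1 (σ * σ * σ) = g1 := by
    have s3 := ((s0.mul s0).mul s0).cast [1, 2, 4, 8, 16, 32]
    obtain ⟨x, l, p, e⟩ := Y.same hT (VT (cg_mem_norm gV (mul_mem (mul_mem n0 n0) n0))) (VT gV) (a1.cjg s3 _ (by simp [A1]) dk) a1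
    have m : 𝔭 (σ0 * σ0 * σ0) x x := s3.ap _ _ (by clear_aux_decl; clear * - l; decide +kernel +revert)
    refine ⟨σ0 * σ0 * (σ0 * σ0), mul_mem (mul_mem n0 n0) (mul_mem n0 n0), ((s0.mul s0).mul (s0.mul s0)).cast _, ?_⟩
    rw [show σ0 * σ0 * (σ0 * σ0) * (σ0 * σ0 * (σ0 * σ0)) * (σ0 * σ0 * (σ0 * σ0)) = σ0 * σ0 * σ0 * (σ0 * σ0 * σ0 *
      (σ0 * σ0 * σ0 * (σ0 * σ0 * σ0))) by simp only [mul_assoc]]
    simp only [← cg_cg (g := σ0 * σ0 * σ0), e, cg_mul, m.e]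
    rw [mul_assoc, mul_assoc, mul_assoc, Y.pg.mul, Y.pg.mul, Y.pg.mul, (Y.pg.one _).2 (by clear_aux_decl; clear * - l p; decide +kernel +revert), mul_one]
  have g2V := cg_mem_norm gV n
  have g3V := cg_mem_norm g2V n
  have a2 := a1.cjg s (A2 β γ) (by simp [A2]) dk
  have a3 := a2.cjg s (A3 β γ) (by simp [A3]) dk
  have g2s : cg g1 σ * cg g1 σ = 𝔶 (cond β 32 0) := by rw [← cg_mul, g1s]; exact s.ap _ _
  rw [← cg_cg, ← cg_cg] at s3
  generalize e2 : cg g1 σ = g2 at *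
  generalize e3 : cg g2 σ = g3 at *
  have ap := ((a1.mul a2).mul a3).cast (AP β γ)
  have pV := mul_mem (mul_mem gV g2V) g3V
  generalize ep : g1 * g2 * g3 = p at *
  have yT := fun x => VT (YV (el_mem Y.gs x))
  obtain ⟨x1, l1, q1, r1⟩ := Y.same hT (VT (mul_mem pV pV)) (yT (cond γ 0 2)) ((ap.mul ap).cast _ rfl)
    (by simpa only [one_mul] using (Y.idA.tr (cond γ 0 2)).cast _ dk)
  obtain ⟨x2, l2, q2, r2⟩ := Y.same hT (VT (cg_mem pV g2V)) (VT pV) (ap.cjg a2 _ (by simp [AP]) dk) ap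
  obtain ⟨x3, l3, q3, r3⟩ := Y.same hT (VT (cg_mem pV gV)) (VT pV) (ap.cjg a1 _ (by simp [AP]) dk) ap
  obtain ⟨x4, l4, q4, r4⟩ := Y.same hT (VT (cg_mem g2V gV)) (mul_mem (VT g2V) (yT (cond γ 0 2)))
    (a2.cjg a1 (((A2 β γ).map (cj DY · (cond γ 0 2))).map (· % 64)) (by simp [A2]) dk) ((a2.tr _).cast _ rfl)
  have p2 : p * p = 𝔶 (cond γ 0 2 + x1) := by rw [r1, Y.pg.mul, Y.pg.eq]; exact (by clear_aux_decl; clear * - l1 q1; decide +kernel +revert)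
  have t5 := (ap (cond γ 0 2 + x1)).eq (x' := cond γ 0 2 + x1) (y' := cond γ 0 2 + x1) (by rw [Mp, ← p2, cg_mul, cg_self]) rfl
  have h1 := Y.pg.cons (g := p) (fun a => by
      obtain ⟨x, l, e⟩ := Y.pg.ex a
      exact absurd ((ap 1).of_eq e) (by clear_aux_decl; clear * - l; decide +kernel +revert)) p2 (ap.fa (by simp [AP]) dk)
  have M1 : ∀ {w x y}, 𝔭 w x y → Mp h1 h1 w (2 * x) (2 * y) := fun a => by rw [Mp, el_even, el_even]; exact a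
  have h2 := h1.cons (g := g2) (fun a => by
      obtain ⟨x, l, e⟩ := h1.ex a
      exact absurd ((M1 (a2.ap 1 57)).of_eq e) (by clear_aux_decl; clear * - l l1 q1; decide +kernel +revert)) (p := 2 * cond β 32 0) (by rw [g2s, el_even])
    (.cons (b := 2 * x2 + 1) (by rw [r2, el_odd]) (fup p (a2.fa (by simp [A2]) dk)))
  have M2 : ∀ {w x y}, 𝔭 w x y → Mp h2 h2 w (2 * (2 * x)) (2 * (2 * y)) := fun a => by
    rw [Mp, el_even g2, el_even g2]; exact M1 a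
  have h3 : PG _ (DU β γ x1 x2 x3 x4) 512 := h2.cons (g := g1) (fun a => by
      obtain ⟨x, l, e⟩ := h2.ex a
      exact absurd ((M2 (a1.ap 1 53)).of_eq e) (by clear_aux_decl; clear * - l l1 q1 l2 q2; decide +kernel +revert)) (p := 2 * (2 * cond β 32 0)) (by rw [g1s, el_even, el_even])
    (.cons (b := 2 * (2 * (cond γ 0 2 + x4)) + 1) (by
      rw [r4, el_odd, el_even, mul_assoc, Y.pg.mul, mul_right_inj, Y.pg.eq]; exact (by clear_aux_decl; clear * - l4 q4; decide +kernel +revert))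
      (fup g2 (.cons (b := 2 * x3 + 1) (by rw [r3, el_odd]) (fup p (a1.fa (by simp [A1]) dk)))))
  have k1 : g1 = el (g1 :: g2 :: p :: Y.gs) 1 := by simp [el, el_zero]
  have k2 : g2 = el (g1 :: g2 :: p :: Y.gs) 2 := by simp [el, el_zero]
  have k3 : p = el (g1 :: g2 :: p :: Y.gs) 4 := by simp [el, el_zero]
  have k4 : ∀ x, 𝔶 x = el (g1 :: g2 :: p :: Y.gs) (8 * x) := fun x => by
    rw [show 8 * x = 2 * (2 * (2 * x)) by omega, el_even, el_even, el_even]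
  have le : gen (g1 :: g2 :: p :: Y.gs) ≤ T := gen_le.2 (by
    simp only [List.forall_mem_cons]
    exact ⟨VT gV, VT g2V, VT pV, fun x h => VT (YV (mem_gen h))⟩)
  generalize g1 :: g2 :: p :: Y.gs = us at *
  have k5 : g3 = el us (mul (DU β γ x1 x2 x3 x4) (inv (DU β γ x1 x2 x3 x4) (mul (DU β γ x1 x2 x3 x4) 1 2)) 4) := by
    rw [← h3.mul, ← h3.inv, ← h3.mul, ← k1, ← k2, ← k3, ← ep, inv_mul_cancel_left]
  generalize eg : mul (DU β γ x1 x2 x3 x4) (inv (DU β γ x1 x2 x3 x4) (mul (DU β γ x1 x2 x3 x4) 1 2)) 4 = c3 at k5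
  have m1 : Mp h3 h3 σ 1 2 := by rw [Mp, ← k1, ← k2, e2]
  have m2 : Mp h3 h3 σ 2 c3 := by rw [Mp, ← k2, ← k5, e3]
  have m3 : Mp h3 h3 σ 4 (mul (DU β γ x1 x2 x3 x4) (mul (DU β γ x1 x2 x3 x4) 2 c3) 1) := by
    rw [Mp, ← h3.mul, ← h3.mul, ← k1, ← k2, ← k3, ← k5, ← ep, cg_mul, cg_mul, e2, e3, s3]
  have M3 : ∀ {w x y}, 𝔭 w x y → Mp h3 h3 w (8 * x) (8 * y) := fun a => by rw [Mp, ← k4, ← k4]; exact a
  have S : Ac h3 σ [2, c3, mul (DU β γ x1 x2 x3 x4) (mul (DU β γ x1 x2 x3 x4) 2 c3) 1, 8, 16, 64, 96, 128, 256] :=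
    .of (by simp) fun i a => by
      simp only [List.length] at a
      interval_cases i
      exacts [m1, m2, m3, M3 (s.ap 1 1), M3 (s.ap 2 2), M3 (s.ap 4 8), M3 (s.ap 8 12), M3 (s.ap 16 16), M3 (s.ap 32 32)]
  have t1 := (m3.cj m2).eq (S _) rfl
  have t2 := (m3.cj m1).eq (S _) rfl
  have t3 := (m2.cj m1).eq (S _) rfl
  have t4 := (m2.mul m2).eq (S _) rfl
  subst eg
  obtain ⟨rfl, rfl, ε, rfl, rfl⟩ : x2 = 0 ∧ x3 = 0 ∧ ∃ ε : Bool, x1 = cond (xor β ε) 32 0 ∧ x4 = cond ε 32 0 :=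
    (by clear_aux_decl; clear * - l1 q1 l2 q2 l3 q3 l4 q4 t4 t3 t2 t1 t5; decide +kernel +revert)
  exact ⟨ε, us, h3, e1.trans k1, k4, le, k2 ▸ a2, k3 ▸ ap, σ, S.cast _⟩

theorem st10 (Y : StY X) : ∃ ε, Nonempty (St10 C β γ ε) := by
  obtain ⟨T, hT, XT, ε, ⟨U⟩⟩ := Y.exU
  have ar := Y.ac 8 (AR γ) ⟨by simp [AR], dk⟩
  have rT := XT (el_mem X.gs 8)
  have k : el U.gs 1 * el U.gs 2 * el U.gs 4 * 𝔶 (cond γ 2 0) ∈ T := by
    rw [U.lk]; exact mul_mem (mul_mem (mul_mem (U.le (el_mem _ _)) (U.le (el_mem _ _))) (U.le (el_mem _ _))) (U.le (el_mem _ _))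
  obtain ⟨x, l, q, e⟩ := Y.same hT (cg_mem (U.le (el_mem _ 2)) rT) k (U.a2.cjg ar _ (by simp [A1]) dk)
    (((((U.g1 ▸ Y.a1).mul U.a2).mul U.ap).tr _).cast _ rfl)
  rw [mul_assoc, Y.pg.mul, (Y.pg.eq _ (cond γ 2 0 + x)).2 (by clear_aux_decl; clear * - l q; decide +kernel +revert), U.lk, U.pg.mul, U.pg.mul, U.pg.mul,
    (U.pg.eq (mul _ _ _) (7 + 8 * (cond γ 2 0 + x))).2 (by clear_aux_decl; clear * - l q; decide +kernel +revert)] at e
  replace e : Mp U.pg U.pg (𝔯 8) 2 (7 + 8 * (cond γ 2 0 + x)) := e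
  have M : ∀ {w x y}, 𝔭 w x y → Mp U.pg U.pg w (8 * x) (8 * y) := fun a => by rw [Mp, ← U.lk, ← U.lk]; exact a
  have r2 : 𝔯 8 * 𝔯 8 = el U.gs 0 := by rw [X.pg.mul, el_zero, X.pg.one]; exact dk
  have m1 : Mp U.pg U.pg (𝔯 8) 1 1 := by rw [Mp, ← U.g1, X.pg.cg, X.pg.eq]; exact dk
  have m2 : Mp U.pg U.pg (𝔯 8) (7 + 8 * (cond γ 2 0 + x)) 2 := by
    rw [Mp, ← e.e, cg_cg, r2, el_zero, cg_one']
  have m3 := (((m1.mul e).inv.mul m2).mul (M (ar (cond γ 2 0 + x))).inv).l 4 (by clear_aux_decl; clear * - l q; decide +kernel +revert)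
  have S : ∀ {c}, Mp U.pg U.pg (𝔯 8) 4 c → Ac U.pg (𝔯 8) (1 :: (7 + 8 * (cond γ 2 0 + x)) :: c :: (AR γ).map (8 * ·)) := fun m3 =>
    .of (by simp [AR]) fun i a => by
      simp only [List.length, List.length_map, AR] at a
      interval_cases i
      exacts [m1, e, m3, M (ar.ap 1 1), M (ar.ap 2 (cond γ 34 2)), M (ar.ap 4 36), M (ar.ap 8 12), M (ar.ap 16 48), M (ar.ap 32 32)]
  have t1 := (e.mul e).eq (S m3 _) rfl
  have t2 := (e.cj m1).eq (S m3 _) rfl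
  obtain ⟨δ, rfl⟩ : ∃ δ : Bool, x = cond δ 32 0 := (by clear_aux_decl; clear * - l q t1 t2; decide +kernel +revert)
  obtain ⟨gs, h, e1, E1⟩ := U.pg.cons' (g := 𝔯 8) (fun a => by
      obtain ⟨x, l, e⟩ := U.pg.ex a
      exact absurd ((M (ar.ap 8 12)).of_eq e) (by clear_aux_decl; clear * - l; decide +kernel +revert)) r2
    ((S (m3.r (cond γ (cond ε 4 260) (cond ε 276 20)))).fa (by simp [AR]) dk)
  obtain ⟨gs', h', E⟩ := h.sub' [1, 16, 4, 128, cond δ 520 8, cond δ 522 10, 64, 256, 32, 512] (D10 β γ ε) 1024 dk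
  have L : ∀ x y, EQ 1024 (hm _ [1, 16, 4, 128, cond δ 520 8, cond δ 522 10, 64, 256, 32, 512] x) (2 * (8 * y)) →
    el gs' x = 𝔶 y := fun x y a => by rw [E, U.lk, E1, h.eq]; exact a
  have r : el gs' 1 = 𝔰 2 := by rw [E, (h.eq _ 1).2 dk, ← e1, X.lk 2 (by decide)]
  have t := (L 2 1 dk).trans Y.t
  have j := (L 128 16 dk).trans Y.u
  have c := (L 64 4 dk).trans Y.c
  have d := (L 8 8 dk).trans Y.d
  obtain ⟨σ, S⟩ := U.sg
  have Sg : ∀ x y u, EQ 1024 (hm _ [1, 16, 4, 128, cond δ 520 8, cond δ 522 10, 64, 256, 32, 512] x) (2 * u) ∧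
      EQ 1024 (hm _ [1, 16, 4, 128, cond δ 520 8, cond δ 522 10, 64, 256, 32, 512] y) (2 * hm _ _ u) → Mp h' h' σ x y := fun x y u a => by
    rw [Mp, E, E, (h.eq _ _).2 a.1, (h.eq _ _).2 a.2, ← E1, ← E1]; exact S u
  refine ⟨ε, gs', h', C.pg.gen_le_iff.2 fun i p => ?_, r, t, j, X.n1, c, d, ?_, σ, δ, .cons (Sg _ _ 8 dk) (.cons (Sg _ _ 2 dk)
    (.cons (Sg _ _ 64 dk) (.cons (Sg _ _ (cond δ 260 4) dk) (.cons (Sg _ _ (cond δ 261 5) dk) (.cons (Sg _ _ 32 dk) (.cons (Sg _ _ 128 dk)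
    (.cons (Sg _ _ 16 dk) (.cons (Sg _ _ 256 dk) .nil))))))))⟩
  swap
  · rw [X.lk 8 (by decide), X.lk 24 (by decide)]; exact (Mp.sf X.pg 2 _ _).conj
  obtain ⟨y, -, a⟩ : ∃ y < 64, EQ 64 (2 ^ i) (hm (mul (DS true)) [2, 8, 3, 4, 20, mul (DS true) 4 4] y) := (by clear_aux_decl; clear * - p; decide +kernel +revert)
  rw [(C.pg.eq _ _).2 a, ← C.pg.el_map]
  refine gen_le.2 ?_ (el_mem _ _)
  simp only [List.map, List.forall_mem_cons, ← C.pg.mul, ← r, ← t, ← j, ← c, ← d]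
  simp [el_mem, mul_mem]

end StY

end Cfsg.Lib.H33
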