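import Cfsg.Agent.Lib.H33.E8f

/-! The group `T₁` of order `2¹⁰`: its second centre, and the case `γ = 1` (helper5). -/

set_option autoImplicit false
set_option synthInstance.maxSize 2048

namespace Cfsg.Lib.H33

open Cfsg.Lib.Calc Cfsg.Lib.Transfer Subgroup

theorem msOK_top (D : Dat) (n : ℕ) : msOK D (2 ^ n) (2 ^ n - 1) := fun _ _ _ _ _ _ => by
  rw [IM, Nat.and_two_pow_sub_one_eq_mod, Nat.mod_mod]

namespace St10

variable {G : Type*} [Group G] [Finite G] {C : Cfg0 G true} {β γ ε : Bool} (X : St10 C β γ ε)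

set_option hygiene false in
local notation "𝔰" => el (Cfg0.gs C)
set_option hygiene false in
local notation "𝔪" => Mp (Cfg0.pg C) (Cfg0.pg C)
set_option hygiene false in
local notation "𝔯" => el (St10.gs X)
set_option hygiene false in
local notation "𝔫" => Mp (St10.pg X) (St10.pg X)
set_option hygiene false in
local notation "𝔑" m:max => normalizer (MS (St10.gs X) m : Set G)
set_option quotPrecheck false in
local notation "dk" => by clear_aux_decl; clear * -; decide +kernel +revert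

theorem ok : ∀ m ∈ [0, 512, 768, 896], msOK (D10 β γ ε) 1024 m := dk
theorem okT : msOK (D10 β γ ε) 1024 1023 := msOK_top _ 10
theorem rc1 : rcOK (D10 β γ ε) 1024 1023 1023 0 512 := dk
theorem rc2 : rcOK (D10 β γ ε) 1024 1023 1023 512 896 := dk

theorem top {w : G} : w ∈ 𝔑 1023 ↔ w ∈ normalizer (gen X.gs : Set G) := by rw [← X.pg.ms_top]

theorem zz {n : G} (h : n ∈ 𝔑 1023) : n ∈ 𝔑 896 ∧ n ∈ 𝔑 768 ∧ 𝔫 n 512 512 ∧ (𝔫 n 256 256 ∨ 𝔫 n 256 768) := by
  have z1 := X.pg.nm_rc okT (ok _ (by simp)) (ok _ (by simp)) rc1 h h (PG.nm_zero _ _)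
  have z2 := X.pg.nm_rc okT (ok _ (by simp)) (ok _ (by simp)) rc2 h h z1
  have z3 := X.pg.nm_om (z := 0) (m := 768) (ok _ (by simp)) (ok _ (by simp)) dk z2 (PG.nm_zero _ _)
  obtain ⟨z', l, p, m⟩ := Mp.exm (h := X.pg) (ok _ (by simp)) z1 512
  have q := m.ne .zero
  obtain rfl : z' = 512 := (by clear_aux_decl; clear * - l p q; decide +kernel +revert)
  obtain ⟨k', l', p', m'⟩ := Mp.exm (h := X.pg) (ok _ (by simp)) z3 256
  have q1 := m'.ne .zero
  have q2 := m'.ne m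
  obtain rfl | rfl : k' = 256 ∨ k' = 768 := (by clear_aux_decl; clear * - l' p' q1 q2; decide +kernel +revert)
  exacts [⟨z2, z3, m, .inl m'⟩, ⟨z2, z3, m, .inr m'⟩]

theorem nk {n : G} {y : ℕ} (a : 𝔫 n 512 512) (b : 𝔫 n 256 256 ∨ 𝔫 n 256 768) (m : 𝔫 n 2 y) :
    ¬ EQ 1024 (cj (D10 β γ ε) 256 y) 256 := fun h => by
  have k := Mp.sf X.pg y 256 256 h
  have z : 𝔫 (𝔯 y) 512 512 := m.e ▸ (Mp.sf X.pg 2 512 512).cjg a a
  rcases b with b | b
  · exact absurd (k.eq (m.e ▸ (Mp.sf X.pg 2 256 768).cjg b ((b.mul a).cast 768 768) : 𝔫 (𝔯 y) 256 768) rfl) (by decide)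
  · exact absurd (((k.mul z).cast 768 768).eq
      (m.e ▸ (Mp.sf X.pg 2 256 768).cjg b ((b.mul a).cast 768 256) : 𝔫 (𝔯 y) 768 256) rfl) (by decide)

theorem tcl : ∀ y < 1024, EQ 1024 (mul (D10 β γ ε) y y) 0 → ¬ EQ 1024 (cj (D10 β γ ε) 256 y) 256 → y % 4 = 2 →
  ∃ v ∈ [0, 4, 16, 20, 32, 36, 48, 52, 256, 260, 272, 276, 288, 292, 304, 308], EQ 1024 (cj (D10 β γ ε) y v) 2 := dk

theorem ga1 (X : St10 C β true ε) : ¬ 2 * 1024 ∣ Nat.card G := by
  refine C.syl X.pg X.le X.t fun n hn y l m => ?_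
  obtain ⟨-, -, a, b⟩ := X.zz (X.top.2 hn)
  have p1 := m.sq
  have p2 := X.nk a b m
  obtain p | ⟨v, -, p⟩ | ⟨v, -, p⟩ | p : y % 4 = 2 ∨ (∃ v ∈ [0, 4, 8, 12, 64, 68, 72, 76], EQ 1024 (cj (D10 β true ε) y v) 1) ∨
    (∃ v ∈ [0, 4, 8, 12, 64, 68, 72, 76], EQ 1024 (cj (D10 β true ε) y v) 129) ∨ y % 32 = 17 := (by clear_aux_decl; clear * - l p1 p2; decide +kernel +revert)
  · obtain ⟨v, a, b⟩ := tcl y l p1 p2 p
    exact ⟨v, (by clear_aux_decl; clear * - a; decide +kernel +revert), b⟩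
  · have := ((m.tr v).r _ p).conj
    rw [X.t, X.r] at this
    exact absurd (this.trans (C.cjT 32 2).symm) C.ntz
  · have := ((m.tr v).r _ p).conj
    rw [X.t, ← (X.pg.eq _ _).2 (dk : EQ 1024 (mul (D10 β true ε) 1 128) 129), ← X.pg.mul, X.r, X.j, C.pg.mul,
      (C.pg.eq (mul _ _ _) 22).2 dk] at this
    exact absurd ((this.trans (C.cjT 48 22).symm).trans (Mp.sf C.pg 1 48 16).conj) X.n1
  · obtain ⟨v, -, q⟩ : ∃ v ∈ [0, 2, 4, 6, 8, 10, 12, 14, 256, 258, 260, 262, 264, 266, 268, 270],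
      EQ 1024 (cj (D10 β true ε) y v) (cond β 17 49) := (by clear_aux_decl; clear * - l p1 p2 p; decide +kernel +revert)
    obtain ⟨u, lu, mu⟩ : ∃ u < 1024, 𝔫 (n * 𝔯 v) 9 u := X.pg.img0 (mul_mem hn (le_normalizer (el_mem _ v))) 9
    have p3 := mu.co ((m.tr v).r _ q)
    exact absurd (((mu.mul mu).mul (mu.mul mu)).ne .zero) (by clear_aux_decl; clear * - lu p3; decide +kernel +revert)

end St10

end Cfsg.Lib.H33
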