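import Cfsg.Agent.Lib.H33.E8g
import Cfsg.Agent.Lib.Transfer.Fusion

/-! The group `T₁` of order `2¹⁰`, the case `γ = 0` (helper5). -/

set_option autoImplicit false
set_option synthInstance.maxSize 2048

namespace Cfsg.Lib.H33

open Cfsg.Lib.Calc Cfsg.Lib.Transfer Subgroup

namespace St10

variable {G : Type*} [Group G] [Finite G] {C : Cfg0 G true} {β ε : Bool} (X : St10 C β false ε)

set_option hygiene false in
local notation "𝔰" => el (Cfg0.gs C)
set_option hygiene false in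
local notation "𝔪" => Mp (Cfg0.pg C) (Cfg0.pg C)
set_option hygiene false in
local notation "𝔯" => el (St10.gs X)
set_option hygiene false in
local notation "𝔫" => Mp (St10.pg X) (St10.pg X)
set_option hygiene false in
local notation "𝔑" m:max => normalizer (MS (St10.gs X) m : Set G)
set_option quotPrecheck false in
local notation "dk" => by clear_aux_decl; clear * -; decide +kernel +revert

theorem cl : ∀ y < 1024, EQ 1024 (mul (D10 β false ε) y y) 0 → ¬ EQ 1024 (cj (D10 β false ε) 256 y) 256 → y % 4 = 2 ∨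
  (y % 4 = 3 ∧ ∃ v ∈ [0, 4, 8, 12, 16, 20, 24, 28, 64, 68, 72, 76, 80, 84, 88, 92], EQ 1024 (cj (D10 β false ε) y v) 3) := dk

theorem out {P : Subgroup G} (hP : IsPGroup 2 P) (a : gen X.gs ≤ P) {m : G} (b : m ∈ P) (c : m ∈ 𝔑 1023) (d : m ∉ gen X.gs) :
    ∃ y < 1024, y % 4 = 3 ∧ 𝔫 m 2 y ∧ ∃ v, 𝔫 (m * 𝔯 v) 2 3 := by
  obtain ⟨y, l, m1⟩ : ∃ y < 1024, 𝔫 m 2 y := X.pg.img0 (X.top.1 c) 2
  obtain ⟨-, -, z, k⟩ := X.zz c
  obtain p | ⟨p, v, -, q⟩ := cl y l m1.sq (X.nk z k m1)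
  · obtain ⟨v, -, q⟩ := tcl y l m1.sq (X.nk z k m1) p
    exact absurd (C.back X.pg X.le X.t hP a b m1 q) d
  · exact ⟨y, l, p, m1, v, (m1.tr v).r _ q⟩

theorem invk {P : Subgroup G} (hP : IsPGroup 2 P) (a : gen X.gs ≤ P) {m : G} (b : m ∈ P) (c : m ∈ 𝔑 1023) (d : m ∉ gen X.gs)
    (f : m * m = 1) : 𝔫 m 256 256 := by
  obtain ⟨y, l, p, m1, -⟩ := X.out hP a b c d
  obtain ⟨z2, -, z, k⟩ := X.zz c
  obtain ⟨j1, l1, p1, m2⟩ := Mp.exm (h := X.pg) (ok _ (by simp)) z2 128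
  have p2 := (m2.mul m2).ne .zero
  have p3 := m2.co m1
  have p5 := ((by clear_aux_decl; clear * - l1 p1 p2; decide +kernel +revert) : j1 ∈ [128, 640] ∨ j1 = 384 ∨ j1 = 896).resolve_left fun h => (dk : ∀ j ∈ [128, 640], ∀ y < 1024,
    y % 4 = 3 → ¬ EQ 1024 (mul (D10 β false ε) j y) (mul (D10 β false ε) y j)) _ h y l p p3
  refine k.resolve_right fun k => ?_
  have m3 := m2.symm
  rw [inv_eq_of_mul_eq_one_right f] at m3
  rcases p5 with rfl | rfl
  exacts [absurd ((m2.mul k).eq m3) dk, absurd (((m2.mul k).mul z).eq m3) dk]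

theorem ab : ∀ x ∈ MS X.gs 1008, ∀ y ∈ MS X.gs 1008, cg x y = x := fun x hx y hy =>
  cg_comm (mem_cent.1 ((ms_le_iff X.pg (H := centralizer {y})).2 (fun i p q => mem_cent.2 (cg_comm (mem_cent.1
    ((ms_le_iff X.pg (H := centralizer {𝔯 (2 ^ i)})).2 (fun j p' q' => mem_cent.2 (Mp.sf X.pg _ _ _ (by clear_aux_decl; clear * - p q p' q'; decide +kernel +revert))) hy)))) hx))

theorem ok' : ∀ m ∈ [864, 912, 976, 1016, 1021], msOK (D10 β false ε) 1024 m := dk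
theorem rc3 : rcOK (D10 β false ε) 1024 1023 1023 896 976 := dk
theorem rc4 : rcOK (D10 β false ε) 1024 1023 1023 976 1016 := dk
theorem rc5 : rcOK (D10 β false ε) 1024 1023 768 0 1021 := dk

theorem cX {x : G} (a : x ∈ 𝔑 1023) (k : 𝔫 x 256 256) : x ∈ rcK (MS X.gs 1008) (MS X.gs 768) := by
  obtain ⟨z2, zv, z, -⟩ := X.zz a
  have z3 := X.pg.nm_rc okT (ok _ (by simp)) (ok' _ (by simp)) rc3 a a z2
  have z4 := X.pg.nm_rc okT (ok' _ (by simp)) (ok' _ (by simp)) rc4 a a z3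
  have ck := X.pg.nm_rc okT (ok _ (by simp)) (ok' _ (by simp)) rc5 a zv (PG.nm_zero _ _)
  have k1 := X.pg.nm_cm (m := 864) (fun i => if i = 5 then (1, 4, 0) else if i = 6 then (1, 8, 0) else (0, 0, 2 ^ i))
    (ok' _ (by simp)) dk ck ck zv
  have k3 := X.pg.nm_rc (z := 0) (m := 912) (ok' _ (by simp)) (ok _ (by simp)) (ok' _ (by simp)) dk z3 z4 (PG.nm_zero _ _)
  have K : ∀ {i y}, 𝔫 x (2 ^ i) y → IM 768 (mul (D10 β false ε) (inv (D10 β false ε) (2 ^ i)) y % 1024) →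
      cm (𝔯 (2 ^ i)) x ∈ MS X.gs 768 := fun m h => by
    rw [cm, m.e, X.pg.inv, X.pg.mul, X.pg.mem_ms (ok _ (by simp))]; exact h
  have kz := (k.mul z).cast 768 768
  refine X.pg.mem_rcK dk zv fun i p q => ?_
  obtain rfl | rfl | rfl | rfl | rfl | rfl : i = 4 ∨ i = 5 ∨ i = 6 ∨ i = 7 ∨ i = 8 ∨ i = 9 := (by clear_aux_decl; clear * - p q; decide +kernel +revert)
  · obtain ⟨y, l, p1, m⟩ := Mp.exm (h := X.pg) (ok' _ (by simp)) k3 16
    have p2 := (m.mul m).eq (x' := cond (xor β ε) 768 256) (y' := cond (xor β ε) 768 256) (by cases xor β ε; exacts [k, kz])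
    exact K m (by clear_aux_decl; clear * - l p1 p2; decide +kernel +revert)
  · obtain ⟨y, l, p1, m⟩ := Mp.exm (h := X.pg) (ok' _ (by simp)) k1 32
    have p2 := (m.mul m).eq (x' := cond ε 768 256) (y' := cond ε 768 256) (by cases ε; exacts [k, kz])
    exact K m (by clear_aux_decl; clear * - l p1 p2; decide +kernel +revert)
  · obtain ⟨y, l, p1, m⟩ := Mp.exm (h := X.pg) (ok' _ (by simp)) k1 64
    have p2 := (m.mul m).eq z
    have p3 := (m.im (ok' _ (by simp)) z3).1 (by decide)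
    exact K m (by clear_aux_decl; clear * - l p1 p2 p3; decide +kernel +revert)
  · obtain ⟨y, l, p1, m⟩ := Mp.exm (h := X.pg) (ok _ (by simp)) z2 128
    have p2 := (m.mul m).eq z
    exact K m (by clear_aux_decl; clear * - l p1 p2; decide +kernel +revert)
  · exact K k dk
  · exact K z dk

theorem noT {x : G} (a : x ∈ 𝔑 1023) (k : 𝔫 x 256 256) (h : IsConj (𝔰 8) x) : False := by
  classical
  have c := X.cX a k
  have x2 : x * x = 1 := by
    obtain ⟨g, rfl⟩ := exists_cg h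
    rw [← cg_mul, C.pg.mul, (C.pg.one _).2 dk, cg_one]
  have le : MS X.gs 768 ≤ MS X.gs 1008 := ms_mono (by decide)
  have c1 : 64 ≤ Nat.card (MS X.gs 1008) := by
    simpa using Nat.card_le_card_of_injective (fun i : Fin 64 => (⟨𝔯 (16 * i), el_mem_ms (by revert i; decide)⟩ : MS X.gs 1008))
      fun i j e => Fin.ext (by have := (X.pg.inj _ _).1 (congrArg Subtype.val e); omega)
  have c2 := card_cover (T := MS X.gs 1008) (R := MS X.gs 1008 ⊓ centralizer {x}) ([0, 256, 512, 768].map fun u =>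
      if h : ∃ y ∈ MS X.gs 1008, cm y x = 𝔯 u then h.choose⁻¹ else 1) fun y hy => by
    obtain ⟨u, l, p, e⟩ := X.pg.ex_ms (ok _ (by simp)) (c.2 y hy)
    have h : ∃ y ∈ MS X.gs 1008, cm y x = 𝔯 u := ⟨y, hy, e⟩
    obtain ⟨s, t⟩ := h.choose_spec
    refine ⟨_, List.mem_map.2 ⟨u, (by clear_aux_decl; clear * - l p; decide +kernel +revert), dif_pos h⟩,
      mem_inf.2 ⟨mul_mem hy (inv_mem s), mem_cent.2 (cg_comm (cm_eq_one.1 ?_))⟩⟩
    rw [cm_mul_left, cm_inv_left, t, e, ← cg_mul, mul_inv_cancel, cg_one]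
  have xN : x ∈ normalizer ((MS X.gs 1008 ⊓ centralizer {x} : Subgroup G) : Set G) := mem_norm_of_cg fun y hy => by
    rwa [cg_comm (mem_cent.1 hy.2)]
  have k1 : ∀ y ∈ MS X.gs 1008 ⊓ centralizer {x}, MS X.gs 1008 ⊓ centralizer {x} ⊔ zpowers x ≤ centralizer {y} := fun y hy =>
    sup_le (fun u hu => mem_cent.2 (X.ab _ hy.1 _ hu.1)) (zpowers_le.2 (mem_cent.2 (cg_comm (mem_cent.1 hy.2))))
  have k2 : MS X.gs 1008 ⊓ centralizer {x} ⊔ zpowers x ≤ centralizer {x} :=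
    sup_le inf_le_right (zpowers_le.2 (mem_cent.2 (cg_self x)))
  have c3 := C.noAb rfl (pg_sup' ((X.pg.pgroup.to_le (ms_le _ _)).to_le inf_le_left) (x2 ▸ one_mem _) xN) h
    (fun y hy => mem_cent.1 (k2 hy)) fun y hy u hu => cg_comm (mem_cent.1 ((sup_le (fun v hv => mem_cent.2 (cg_comm
      (mem_cent.1 (k1 v hv hu)))) (zpowers_le.2 (mem_cent.2 (cg_comm (mem_cent.1 (k2 hu))))) : _ ≤ centralizer {u}) hy))
  by_cases b : x ∈ MS X.gs 1008
  · have := Subgroup.card_le_of_le ((le_inf le_rfl fun y hy => mem_cent.2 (X.ab _ b _ hy)).trans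
      (le_sup_left : MS X.gs 1008 ⊓ centralizer {x} ≤ _ ⊔ zpowers x))
    omega
  · obtain ⟨i, e⟩ := Subgroup.card_dvd_of_le (le_sup_left : MS X.gs 1008 ⊓ centralizer {x} ≤ _ ⊔ zpowers x)
    have n : i ≠ 1 := fun n => b (Subgroup.eq_of_le_of_card_ge (le_sup_left : MS X.gs 1008 ⊓ centralizer {x} ≤ _ ⊔ zpowers x)
      (by rw [e, n, mul_one]) ▸ mem_sup_right (mem_zpowers x) : x ∈ MS X.gs 1008 ⊓ centralizer {x}).1
    have n0 : i ≠ 0 := fun n => Nat.card_pos.ne' (by rw [e, n, mul_zero])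
    simp only [List.length_map, List.length] at c2
    have : 2 ≤ i := by omega
    nlinarith

end St10

end Cfsg.Lib.H33
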