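import Cfsg.Agent.Lib.H33.E8h

/-! The case `t^G ∩ A = t Ω`: conclusion (helper5). -/

set_option autoImplicit false
set_option synthInstance.maxSize 2048

namespace Cfsg.Lib.H33

open Cfsg.Lib.Calc Cfsg.Lib.Transfer Subgroup

namespace St10

variable {G : Type*} [Group G] [Finite G] {C : Cfg0 G true} {β ε : Bool} (X : St10 C β false ε)

set_option hygiene false in
local notation "𝔰" => el (Cfg0.gs C)
set_option hygiene false in
local notation "𝔪" => Mp (Cfg0.pg C) (Cfg0.pg C)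
set_option hygiene false in
local notation "𝔯" => el (St10.gs X)
set_option hygiene false in
local notation "𝔫" => Mp (St10.pg X) (St10.pg X)
set_option hygiene false in
local notation "𝔑" m:max => normalizer (MS (St10.gs X) m : Set G)
set_option quotPrecheck false in
local notation "dk" => by clear_aux_decl; clear * -; decide +kernel +revert

theorem self {T P : Subgroup G} (a : gen X.gs ≤ T) (b : T ≤ 𝔑 1023) {n : G} (c : n ∈ T) (d : n ∉ gen X.gs) (hP : IsPGroup 2 P)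
    (f : T ≤ P) {w : G} (wP : w ∈ P) (wN : w ∈ normalizer (T : Set G)) : w ∈ T := by
  have aP := a.trans f
  have I : ∀ x, cg (𝔯 x) w ∈ T := fun x => cg_mem_norm (a (el_mem _ x)) wN
  have J : ∀ {x}, x ∈ T → cg x w⁻¹ ∈ 𝔑 1023 := fun h => b (cg_mem_norm h (inv_mem wN))
  have z1 : ∀ x ∈ T, cm (cg (𝔯 512) w) x = 1 := fun x h => by
    rw [← cg_inv_cg x w, ← cg_cm, cm_eq_one.2 (X.zz (J h)).2.2.1, cg_one]
  have z2 : cg (𝔯 512) w ∈ gen X.gs := X.le (C.memS hP (X.le.trans aP) (f (I _)) (by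
    rw [Mp, ← X.t]; exact cg_comm (cm_eq_one.1 (z1 _ (a (el_mem _ _))))))
  obtain ⟨z', l, p, m⟩ := X.pg.ex_ms (ok _ (by simp)) ((X.pg.rc_iff okT (ok _ (by simp)) (ok _ (by simp)) rc1).2
    ⟨X.pg.ms_top ▸ z2, fun y hy => ms_zero.2 (z1 y (a (ms_le _ _ hy)))⟩)
  replace m : 𝔫 w 512 z' := m
  have q := m.ne .zero
  obtain rfl : z' = 512 := (by clear_aux_decl; clear * - l p q; decide +kernel +revert)
  have k1 : ∀ x ∈ T, cm (cg (𝔯 256) w) x ∈ MS X.gs 512 := fun x h => by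
    rw [← cg_inv_cg x w, ← cg_cm]
    rcases (X.zz (J h)).2.2.2 with k | k
    · rw [cm_eq_one.2 k, cg_one]; exact one_mem _
    · rw [cm, k.e, X.pg.inv, X.pg.mul, (X.pg.eq _ 512).2 dk]; exact m.mem
  have k2 : cg (𝔯 256) w ∈ gen X.gs := by
    by_contra h
    obtain ⟨y, l, p, m1, -⟩ := X.out hP aP (f (I _)) (b (I _)) h
    have := inv_mem (k1 _ (a (el_mem _ 2)))
    rw [show ∀ x y : G, (cm x y)⁻¹ = cm y x from fun x y => by simp [cm, cg, mul_assoc], cm, m1.e, X.pg.inv, X.pg.mul,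
      X.pg.mem_ms (ok _ (by simp))] at this
    exact absurd this (by clear_aux_decl; clear * - l p; decide +kernel +revert)
  obtain ⟨k', l', p', m'⟩ := X.pg.ex_ms (ok _ (by simp)) ((X.pg.rc_iff okT (ok _ (by simp)) (ok _ (by simp)) rc2).2
    ⟨X.pg.ms_top ▸ k2, fun y hy => k1 y (a (ms_le _ _ hy))⟩)
  replace m' : 𝔫 w 256 k' := m'
  have q1 := m'.ne .zero
  have q2 := m'.ne m
  have q3 := m'.sq
  have k3 : 𝔫 w 256 256 ∨ 𝔫 w 256 768 := by
    obtain rfl | rfl : k' = 256 ∨ k' = 768 := (by clear_aux_decl; clear * - l' p' q1 q2 q3; decide +kernel +revert)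
    exacts [.inl m', .inr m']
  have t1 : cg (𝔯 2) w ∈ gen X.gs := by
    by_contra h
    have k := X.invk hP aP (f (I _)) (b (I _)) h (by rw [← cg_mul, X.pg.mul, (X.pg.one _).2 dk, cg_one])
    have z := (Mp.sf X.pg 2 512 512).cjg m m
    rcases k3 with b | b
    · exact absurd (k.eq ((Mp.sf X.pg 2 256 768).cjg b ((b.mul m).cast 768 768)) rfl) (by decide)
    · exact absurd (((k.mul z).cast 768 768).eq ((Mp.sf X.pg 2 256 768).cjg b ((b.mul m).cast 768 256)) rfl) (by decide)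
  obtain ⟨y, l, m1⟩ := Mp.ex X.pg X.pg t1
  obtain p | ⟨p, v, -, q⟩ := cl y l m1.sq (X.nk m k3 m1)
  · obtain ⟨v, -, q⟩ := tcl y l m1.sq (X.nk m k3 m1) p
    exact a (C.back X.pg X.le X.t hP aP wP m1 q)
  · obtain ⟨-, -, -, -, u, m2⟩ := X.out hP aP (f c) (b c) d
    have e := mul_mem (a (el_mem _ v)) (inv_mem (mul_mem c (a (el_mem _ u))))
    have := C.back (v := 0) X.pg X.le X.t hP aP (mul_mem wP (f e)) (mul_assoc w _ _ ▸ ((m1.tr v).r _ q).trans m2.symm) dk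
    exact (mul_mem_cancel_right e).1 (a this)

theorem ga0 (X : St10 C β false ε) (h : 2 * 1024 ∣ Nat.card G) : ¬ 2 ^ 12 ∣ Nat.card G ∧ ∃ N : Subgroup G, N.index = 2 := by
  haveI : Fact (Nat.Prime 2) := ⟨Nat.prime_two⟩
  obtain ⟨n, n1, n2, n3⟩ := X.pg.climb h
  have hT := pg_sup' X.pg.pgroup n3 n1
  have b : gen X.gs ⊔ zpowers n ≤ 𝔑 1023 := fun x hx => X.top.2 (sup_le le_normalizer (zpowers_le.2 n1) hx)
  have S := fun P hP f w => X.self (P := P) (w := w) le_sup_left b (mem_sup_right (mem_zpowers n)) n2 hP f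
  have c := card_cover (T := gen X.gs ⊔ zpowers n) (R := gen X.gs) [1, n⁻¹] fun y hy => by
    rcases mem_sup_zp n3 n1 hy with p | p
    exacts [⟨1, by simp, by rwa [mul_one]⟩, ⟨n⁻¹, by simp, by simpa [cg, mul_assoc] using cg_mem_norm p (inv_mem n1)⟩]
  rw [X.pg.card] at c
  have a : gen X.gs ≤ gen X.gs ⊔ zpowers n := le_sup_left
  generalize gen X.gs ⊔ zpowers n = T at *
  refine ⟨fun h => ?_, ?_⟩
  · obtain ⟨w, w1, w2, w3⟩ := climb' hT (n := 11) (c.trans (by norm_num)) h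
    exact w2 (S _ (pg_sup' hT w3 w1) le_sup_left _ (mem_sup_right (mem_zpowers w)) w1)
  obtain ⟨P, hP⟩ := hT.exists_le_sylow
  have e : T = P := by
    by_contra e
    obtain ⟨w, ⟨p, q⟩, r⟩ := SetLike.exists_of_lt (lt_inf_normalizer_of_lt P.2 (hP.lt_of_ne e))
    exact r (S _ P.2 hP _ p q)
  have tT := a (el_mem _ 2)
  by_contra! N
  refine thompson_transfer P (Q := T ⊓ centralizer {𝔯 256}) (u := 𝔯 2) ?_ (by rw [sq, X.pg.mul, X.pg.one]; exact dk) (e ▸ tT)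
    (fun g hg => X.noT (b hg.1) (mem_cent.1 hg.2) (X.t ▸ isConj_iff.2 ⟨g, rfl⟩))
    (mem_sup_left (pResidual_two_eq_top_iff.2 N ▸ mem_top _))
  rw [← e]
  refine relIndex_eq_two_iff.2 ⟨_, tT, fun y hy => ?_⟩
  rcases (X.zz (b hy)).2.2.2 with k | k
  · exact .inr ⟨⟨hy, mem_cent.2 k⟩, fun h => absurd ((k.tr 2).eq (mem_cent.1 h.2 : 𝔫 _ 256 256) rfl) dk⟩
  · exact .inl ⟨⟨mul_mem hy tT, mem_cent.2 ((k.tr 2).r 256)⟩, fun h => absurd (k.eq (mem_cent.1 h.2 : 𝔫 _ 256 256) rfl) dk⟩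

end St10

theorem Cfg0.case8 {G : Type*} [Group G] [Finite G] (C : Cfg0 G true) (n1 : ¬ IsConj (el C.gs 8) (el C.gs 16))
    (h : IsConj (el C.gs 8) (el C.gs 24)) :
    ¬ 2 ^ 11 ∣ Nat.card G ∨ (¬ 2 ^ 12 ∣ Nat.card G ∧ ∃ N : Subgroup G, N.index = 2) := by
  obtain ⟨α, β, γ, ⟨X⟩⟩ := C.st8 n1 h
  cases α
  · obtain ⟨Y⟩ := StY.ex X nofun
    obtain ⟨ε, ⟨Z⟩⟩ := Y.st10
    cases γ
    exacts [or_iff_not_imp_left.2 fun h => Z.ga0 (not_not.1 h), .inl Z.ga1]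
  · exact .inl fun h => StY.al X (dvd_trans (by norm_num) h)

end Cfsg.Lib.H33
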