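import Cfsg.Agent.Lib.H33.Z4b

/-! The case `U⁺ = Z₄ × Z₄ × ⟨f⟩`: a Sylow 2-subgroup has order at most `2⁹` (helper5). -/

set_option autoImplicit false
set_option synthInstance.maxSize 2048

namespace Cfsg.Lib.H33

open Cfsg.Lib.Calc Cfsg.Lib.Transfer Subgroup

namespace St4

variable {G : Type*} [Group G] [Finite G] {e : Bool} {C : Cfg0 G e} (X : St4 C true)

set_option hygiene false in
local notation "𝔰" => el (Cfg0.gs C)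
set_option hygiene false in
local notation "𝔪" => Mp (Cfg0.pg C) (Cfg0.pg C)
set_option hygiene false in
local notation "𝔯" => el (St4.gs X)
set_option hygiene false in
local notation "𝔫" => Mp (St4.pg X) (St4.pg X)
set_option hygiene false in
local notation "𝔑" m:max => normalizer (MS (St4.gs X) m : Set G)
set_option quotPrecheck false in
local notation "dk" => by clear_aux_decl; clear * -; decide +kernel +revert

structure ZT where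
  T : Subgroup G
  x1 : G
  x2 : G
  ρ : G
  pT : IsPGroup 2 T
  RT : gen X.gs ≤ T
  TN : T ≤ 𝔑 126 ⊓ 𝔑 124 ⊓ 𝔑 112 ⊓ 𝔑 48 ⊓ 𝔑 32
  m1 : x1 ∈ T ⊓ X.MZ
  m2 : x2 ∈ T ⊓ X.MZ
  t1 : X.Tr x1 10
  t2 : X.Tr x2 6
  f1 : 𝔫 x1 64 (cond e 96 64)
  f2 : 𝔫 x2 64 (cond e 80 64)
  rN : ρ ∈ normalizer ((T ⊓ X.MZ : Subgroup G) : Set G)
  rho : X.Rho ρ

theorem exZT (h : 2 ^ 8 ∣ Nat.card G) : Nonempty X.ZT := by
  obtain ⟨w, hw, h1, h2⟩ := X.pg.climb (dvd_trans (by norm_num) h)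
  obtain ⟨y, a1, a2, a3⟩ := X.z1 hw h1 h2
  have hv := mul_mem hw (le_normalizer (el_mem X.gs y))
  obtain ⟨b1, b2, b3, -, -, -, b7, -⟩ := X.z0 hv
  have vM := MZ.of X b3 b1 b2 a1 (X.fixz b7)
  have N : gen X.gs ⊔ zpowers w ≤ normalizer (gen X.gs : Set G) := sup_le le_normalizer (zpowers_le.2 hw)
  obtain ⟨T, hT, a, b, c⟩ := syl_fr (M := X.MZ) (pg_sup' X.pg.pgroup h2 hw) fun x hx =>
    let ⟨a, b, c, _⟩ := X.z0 (N hx); MZ.nm X c a b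
  obtain ⟨ρ, r⟩ := X.exRho
  have rM := MZ.nm X r.1 (r.n1 X) r.2.1
  obtain ⟨m, hm, d⟩ := c ρ rM
  have r' := r.mul X hm
  have rN : ρ * m ∈ normalizer ((T ⊓ X.MZ : Subgroup G) : Set G) :=
    mem_norm_of_cg fun x h => ⟨d x h.1 h.2, cg_mem_norm h.2 (mul_mem rM (le_normalizer hm))⟩
  have vT : w * 𝔯 y ∈ T ⊓ X.MZ := ⟨a (mul_mem (mem_sup_right (mem_zpowers _)) (mem_sup_left (el_mem _ _))), vM⟩
  have uT := cg_mem_norm vT rN
  refine ⟨T, _, _, _, hT, le_sup_left.trans a, b.trans (sup_le (fun x hx => ?_) fun x hx => ?_), vT, uT, a3,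
    r'.tr X uT.2 a3 rfl, a2, ?_, rN, r'⟩
  · exact ⟨⟨⟨⟨hx.1, MZ.n1 X hx⟩, hx.2.1⟩, X.nm [(16, 16), (32, 32)] (by simp [MZ.r X hx, MZ.z X hx]) dk⟩,
      X.nm [(32, 32)] (by simp [MZ.z X hx]) dk⟩
  · obtain ⟨b1, b2, b3, b4, -, -, b7, -⟩ := X.z0 (N hx)
    exact ⟨⟨⟨⟨b3, b1⟩, b2⟩, b4⟩, b7⟩
  obtain ⟨f1, l, p, q⟩ := Mp.exm (h := X.pg) (zok 112 (by simp)) r'.2.1 64
  have n1 := q.ne .zero
  have n2 := q.ne (r'.z X)
  have n3 := q.ne (r'.r X)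
  have n4 := q.ne ((r'.z X).mul (r'.r X))
  have k : 𝔫 (cg (w * 𝔯 y) (ρ * m)) f1 (mul (D4 true) f1 (cond e 16 0)) := a2.cjg q (by
    cases e
    exacts [(q.mul .zero).l _, (q.mul (r'.z X)).l _])
  obtain rfl | rfl | rfl | rfl : f1 = 64 ∨ f1 = 80 ∨ f1 = 96 ∨ f1 = 112 := (by clear_aux_decl; clear * - l p n1 n2 n3 n4; decide +kernel +revert)
  exacts [k.r _, (k.mul (MZ.r X uT.2)).cast _ _, (k.mul (MZ.z X uT.2)).cast _ _,
    ((k.mul (MZ.z X uT.2)).mul (MZ.r X uT.2)).cast _ _]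

variable {X} (Z : X.ZT)

namespace ZT

theorem shift {y : ℕ} (l : y < 128) (b : y % 4 = 2) : ∃ x ∈ [1, Z.x1, Z.x2, Z.x1 * Z.x2], x ∈ Z.T ⊓ X.MZ ∧ X.Tr x (y % 16) := by
  obtain h | h | h | h : y % 16 = 2 ∨ y % 16 = 10 ∨ y % 16 = 6 ∨ y % 16 = 14 := by omega
  all_goals rw [h]
  exacts [⟨1, by simp, one_mem _, 2, by norm_num, rfl, cg_one' _⟩, ⟨_, by simp, Z.m1, Z.t1⟩, ⟨_, by simp, Z.m2, Z.t2⟩,
    ⟨_, by simp, mul_mem Z.m1 Z.m2, Z.t1.mul X Z.m2.2 Z.t2⟩]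

theorem back {y : ℕ} (l : y < 128) (b : y % 4 = 2) (c : IsConj (𝔯 2) (𝔯 y)) :
    ∃ x ∈ [1, Z.x1, Z.x2, Z.x1 * Z.x2], x ∈ Z.T ⊓ X.MZ ∧ ∃ v < 128, IM 124 v ∧ 𝔫 (x * 𝔯 v) y 2 := by
  obtain ⟨x, p, q, r⟩ := Z.shift l b
  obtain ⟨y', l', a, m⟩ := r.any X q.2 l b
  rw [Nat.xor_self, Nat.zero_xor] at a
  have k := X.theta l' (by clear_aux_decl; clear * - l' a; decide +kernel +revert) (c.trans m.conj)
  obtain ⟨v, lv, u⟩ : ∃ v < 16, IM 124 v ∧ EQ 128 (cj (D4 true) y' v) 2 := (by clear_aux_decl; clear * - l' a k; decide +kernel +revert)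
  exact ⟨x, p, q, v, by omega, u.1, (m.tr v).r _ u.2⟩

theorem cent {y : G} (a : y ∈ Z.T) (b : 𝔫 y 2 2) : ∃ x < 128, IM 115 x ∧ y = 𝔯 x :=
  X.sw' Z.pT ((ms_le _ _).trans Z.RT) a b (m := 124) dk (Z.TN a).1.1.1.2

theorem inR {y : G} (a : y ∈ Z.T) {v : ℕ} (b : 𝔫 (y * 𝔯 v) 2 2) : ∃ x < 128, y = 𝔯 x := by
  obtain ⟨x, -, -, e⟩ := Z.cent (mul_mem a (Z.RT (el_mem _ v))) b
  exact X.pg.ex ((Subgroup.mul_mem_cancel_right _ (el_mem X.gs v)).1 (e ▸ el_mem X.gs x))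

theorem card : Nat.card Z.T ≤ 2 ^ 9 := by
  refine (card_cover (R := gen X.gs) [1, Z.x1, Z.x2, Z.x1 * Z.x2] fun y hy => ?_).trans (by rw [X.pg.card]; simp)
  obtain ⟨t1, l, p, m⟩ := X.exTr (Z.TN hy).1.1.1.1 (Z.TN hy).1.1.1.2
  obtain ⟨x, a, b, v, -, -, m'⟩ := Z.back l p m.conj
  obtain ⟨u, -, e⟩ := Z.inR (mul_mem hy b.1) (v := v) (by rw [mul_assoc]; exact m.trans m')
  exact ⟨x, a, e ▸ el_mem _ _⟩

theorem tr0 {y : G} (a : y ∈ Z.T ⊓ X.MZ) (b : X.Tr y 2) : ∃ x < 128, IM 126 x ∧ y = 𝔯 x := by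
  obtain ⟨y', l', p, m⟩ := b
  have k := X.theta l' (by clear_aux_decl; clear * - l' p; decide +kernel +revert) m.conj
  obtain ⟨v, -, u⟩ : ∃ v < 16, EQ 128 (cj (D4 true) y' v) 2 := (by clear_aux_decl; clear * - l' p k; decide +kernel +revert)
  obtain ⟨x, l, rfl⟩ := Z.inR a.1 ((m.tr v).r _ u)
  have := (MZ.r X a.2).of_el
  exact ⟨x, l, (by clear_aux_decl; clear * - l this; decide +kernel +revert), rfl⟩

theorem trs {y : G} (a : y ∈ X.MZ) : ∃ j, (j = 2 ∨ j = 6 ∨ j = 10 ∨ j = 14) ∧ X.Tr y j :=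
  let ⟨t, l, p, m⟩ := X.exTr a.1 (MZ.n1 X a); ⟨_, by omega, t, l, rfl, m⟩

theorem movef (he : e = true) {y : G} (a : y ∈ Z.T ⊓ X.MZ) (b : 𝔫 y 64 64) : X.Tr y 2 := by
  subst he
  obtain ⟨t1, l, p, m⟩ := X.exTr a.2.1 (MZ.n1 X a.2)
  obtain ⟨x, q, r, u⟩ := Z.shift l p
  obtain ⟨v, l', p', e⟩ := Z.tr0 (mul_mem a r) (by simpa using Tr.mul X r.2 ⟨t1, l, rfl, m⟩ u (by omega))
  have k : 𝔫 x 64 64 := by simpa using b.symm.trans (e ▸ Mp.sf X.pg v 64 64 (by clear_aux_decl; clear * - l' p'; decide +kernel +revert) : 𝔫 (y * x) 64 64)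
  simp only [List.mem_cons, List.not_mem_nil, or_false] at q
  rcases q with rfl | rfl | rfl | rfl
  · exact ⟨t1, l, u.uniq X ⟨2, by norm_num, rfl, cg_one' _⟩, m⟩
  · exact absurd (k.eq Z.f1 rfl) (by decide)
  · exact absurd (k.eq Z.f2 rfl) (by decide)
  · exact absurd (k.eq (Z.f1.trans ((Z.f2.mul (MZ.z X Z.m2.2)).l _)) rfl) dk

theorem cmE {y : G} (a : y ∈ Z.T ⊓ X.MZ) {v : ℕ} (l : v < 128) (b : IM 124 v) : cm (𝔯 v) y ∈ MS X.gs 48 := by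
  obtain ⟨ω, l1, p, q⟩ := X.pg.ex_ms (zok 112 (by simp)) (a.2.2.2 _ (el_mem_ms b))
  rw [q]
  refine el_mem_ms (by_contra fun n => ?_)
  obtain ⟨K, K1, -, K3⟩ := X.chi
  have he : e = true := ((K3 ω).1 (q ▸ K1 _ _)).resolve_right (by clear_aux_decl; clear * - l1 p n; decide +kernel +revert)
  obtain ⟨j, hj, tj⟩ := trs a.2
  have k : ¬ X.Tr y 2 := fun h => by
    obtain ⟨x, l2, p2, rfl⟩ := Z.tr0 a h
    rw [X.pg.cm, X.pg.eq] at q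
    clear_aux_decl; clear * - l b l1 p n l2 p2 q; revert x; revert ω; revert v; decide +kernel
  obtain ⟨x, l2, p2, e2⟩ := Z.tr0 (mul_mem a a) (by simpa using tj.mul X a.2 tj (by omega))
  have m : 𝔫 y x x := by rw [Mp, ← e2, cg_mul, cg_self]
  have p3 : IM 124 x := by_contra fun h => k (by simpa using Tr.of X a.2 l2 l2 (by clear_aux_decl; clear * - l2 p2 h; decide +kernel +revert) m)
  have m1 : 𝔫 y v (mul (D4 true) v ω) := by rw [Mp, ← X.pg.mul, ← q, cm, mul_inv_cancel_left]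
  obtain ⟨ω', l3, -, m2⟩ := Mp.exm (h := X.pg) (zok 112 (by simp)) a.2.2.1 ω p
  have p4 := (m1.trans (m1.mul m2)).of_eq e2
  obtain rfl : ω' = ω := by
    have : EQ 128 (cj (D4 true) v x) v := (by clear_aux_decl; clear * - l b l2 p3; decide +kernel +revert)
    replace p4 := this.symm.trans p4
    exact (by clear_aux_decl; clear * - l b l1 p l3 p4; decide +kernel +revert)
  refine k (Z.movef he a ?_)
  obtain rfl | rfl | rfl | rfl : ω' = 64 ∨ ω' = 80 ∨ ω' = 96 ∨ ω' = 112 := (by clear_aux_decl; clear * - l1 p n; decide +kernel +revert)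
  exacts [m2, (m2.mul (MZ.r X a.2)).cast _ _, (m2.mul (MZ.z X a.2)).cast _ _, ((m2.mul (MZ.z X a.2)).mul (MZ.r X a.2)).cast _ _]

theorem MU : Z.T ⊓ X.MZ = Z.T ⊓ rcK (MS X.gs 48) (MS X.gs 0) := by
  refine le_antisymm (fun y h => ⟨h.1, X.pg.mem_rcK dk (PG.nm_zero _ _) fun i p q => ?a⟩) fun y h => ⟨h.1, ?b⟩
  case a =>
    obtain rfl | rfl : i = 4 ∨ i = 5 := (by clear_aux_decl; clear * - p q; decide +kernel +revert)
    exacts [ms_zero.2 (cm_eq_one.2 (MZ.r X h.2)), ms_zero.2 (cm_eq_one.2 (MZ.z X h.2))]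
  case b =>
    obtain ⟨⟨⟨⟨a, b⟩, c⟩, -⟩, -⟩ := Z.TN h.1
    exact MZ.of X a b c (cm_eq_one.1 (ms_zero.1 (h.2.2 _ (el_mem_ms (by decide)))))
      (cm_eq_one.1 (ms_zero.1 (h.2.2 _ (el_mem_ms (by decide)))))

theorem nE {n : G} (hn : n ∈ normalizer (Z.T : Set G)) : n ∈ 𝔑 48 := by
  obtain ⟨K, K1, -, K3⟩ := X.chi
  have KK : ∀ {x y}, 𝔫 n x y → x / 64 % 2 = 0 → e = true ∨ y / 64 % 2 = 0 := fun {x y} a b => (K3 y).1 (by
    have := mul_mem ((K3 x).2 (.inr b)) (K1 (𝔯 x) n)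
    rwa [cm, mul_inv_cancel_left, a] at this)
  have zc : ∀ y ∈ Z.T, cg (cg (𝔯 32) n) y = cg (𝔯 32) n := fun y h => by
    rw [← cg_inv_cg y n, ← cg_cg', X.fixz (Z.TN (cg_mem_norm h (inv_mem hn))).2]
  obtain ⟨z1, l1, p1, e1⟩ := Z.cent (cg_mem_norm (Z.RT (el_mem _ 32)) hn) (cg_comm (zc _ (Z.RT (el_mem _ 2))))
  have nz : 𝔫 n 32 32 := by
    have m : 𝔫 n 32 z1 := e1
    have k : ∀ y, EQ 128 (cj (D4 true) z1 y) z1 := fun y => Mp.of_el (h := X.pg) (by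
      rw [Mp, ← e1]; exact zc _ (Z.RT (el_mem _ _)))
    have p2 := k 1
    have p3 := k 4
    have p4 := k 16
    have p5 := m.ne .zero
    have p6 := KK m rfl
    have m' : 𝔫 Z.x1 z1 z1 := by rw [Mp, ← e1]; exact zc _ Z.m1.1
    obtain rfl | ⟨rfl, rfl | rfl⟩ : z1 = 32 ∨ (e = true ∧ (z1 = 64 ∨ z1 = 96)) := (by clear_aux_decl; clear * - l1 p1 p2 p3 p4 p5 p6; decide +kernel +revert)
    · exact m
    · exact absurd (m'.eq Z.f1 rfl) (by decide)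
    · exact absurd (m'.eq (Z.f1.mul (MZ.z X Z.m1.2))) dk
  have rc : ∀ y ∈ Z.T, cm (cg (𝔯 16) n) y ∈ MS X.gs 32 := fun y h => by
    rw [← cg_inv_cg y n, ← cg_cm]
    refine cg_mem_norm ?_ (X.nm [(32, 32)] (by simp [nz]) dk)
    have h' := Z.TN (cg_mem_norm h (inv_mem hn))
    obtain ⟨r1, l, p, m⟩ := Mp.exm (h := X.pg) (zok 48 (by simp)) h'.1.2 16
    have q := m.ne .zero
    have q' := m.ne (X.fixz h'.2)
    rw [cm, m.e, X.pg.inv, X.pg.mul, X.pg.mem_ms (zok _ (by simp))]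
    exact (by clear_aux_decl; clear * - l p q q'; decide +kernel +revert)
  have rT := cg_mem_norm (Z.RT (el_mem _ 16)) hn
  obtain ⟨r1, l2, e2⟩ : ∃ x < 128, cg (𝔯 16) n = 𝔯 x := by
    obtain ⟨ω, l, p, q⟩ := X.pg.ex_ms (zok 32 (by simp)) (rc _ (Z.RT (el_mem _ 2)))
    have m : 𝔫 (cg (𝔯 16) n) 2 (mul (D4 true) 2 (inv (D4 true) ω)) := by
      rw [Mp, ← X.pg.mul, ← X.pg.inv, ← q]; generalize cg (𝔯 16) n = u; simp [cm, cg, mul_assoc]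
    obtain rfl | rfl : ω = 0 ∨ ω = 32 := (by clear_aux_decl; clear * - l p; decide +kernel +revert)
    exacts [Z.inR rT ((m.tr 0).r _), Z.inR rT ((m.tr 8).r _)]
  have m : 𝔫 n 16 r1 := e2
  have k : ∀ y, IM 32 (ck (D4 true) r1 y % 128) := fun y => by
    rw [← X.pg.mem_ms (zok _ (by simp)), ← X.pg.cm, ← e2]; exact rc _ (Z.RT (el_mem _ _))
  have p2 := k 4
  have p3 := m.sq
  have p4 := KK m rfl
  have k2 := rc _ Z.m2.1
  have p5 : IM 48 r1 := by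
    obtain h | ⟨rfl, h⟩ : IM 48 r1 ∨ (e = true ∧ IM 48 (r1 ^^^ 64)) := (by clear_aux_decl; clear * - l2 p2 p3 p4; decide +kernel +revert)
    · exact h
    have m' : 𝔫 Z.x2 r1 (mul (D4 true) 16 r1) := by
      obtain rfl | rfl | rfl | rfl : r1 = 64 ∨ r1 = 80 ∨ r1 = 96 ∨ r1 = 112 := (by clear_aux_decl; clear * - l2 h; decide +kernel +revert)
      exacts [Z.f2.r _, (Z.f2.mul (MZ.r X Z.m2.2)).cast _ _, (Z.f2.mul (MZ.z X Z.m2.2)).cast _ _,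
        ((Z.f2.mul (MZ.z X Z.m2.2)).mul (MZ.r X Z.m2.2)).cast _ _]
    rw [e2, cm, m'.e, X.pg.inv, X.pg.mul, X.pg.mem_ms (zok _ (by simp))] at k2
    exact absurd k2 (by clear_aux_decl; clear * - l2 h; decide +kernel +revert)
  refine X.pg.nm_ms fun i p q => ?_
  obtain rfl | rfl : i = 4 ∨ i = 5 := (by clear_aux_decl; clear * - p q; decide +kernel +revert)
  exacts [m.mem p5, nz.mem]

theorem nU {n : G} (hn : n ∈ normalizer (Z.T : Set G)) :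
    n ∈ normalizer ((Z.T ⊓ X.MZ : Subgroup G) : Set G) ∧ n ∈ 𝔑 124 := by
  have a : n ∈ normalizer ((Z.T ⊓ X.MZ : Subgroup G) : Set G) := Z.MU ▸ norm_inf hn (norm_rcK (Z.nE hn) (PG.nm_zero _ _))
  refine ⟨a, mem_norm_of_cg fun x hx => ?_⟩
  obtain ⟨v, l, p, rfl⟩ := X.pg.ex_ms (zok 124 (by simp)) hx
  have b := cg_mem_norm (⟨Z.RT (el_mem _ v), MZ.el X l (IM.trans (by decide) p)⟩ : 𝔯 v ∈ Z.T ⊓ X.MZ) a
  have c : ∀ y ∈ Z.T ⊓ X.MZ, cm (cg (𝔯 v) n) y ∈ MS X.gs 48 := fun y h => by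
    rw [← cg_inv_cg y n, ← cg_cm]; exact cg_mem_norm (Z.cmE (cg_mem_norm h (inv_mem a)) l p) (Z.nE hn)
  generalize cg (𝔯 v) n = u at b c
  obtain ⟨ω, l1, p1, q⟩ := X.pg.ex_ms (zok 48 (by simp)) (c _ ⟨Z.RT (el_mem _ 2), MZ.el X (by norm_num) (by decide)⟩)
  obtain ⟨x, l2, p2, rfl⟩ := Z.tr0 b ⟨_, Nat.mod_lt _ (by norm_num), (by clear_aux_decl; clear * - l1 p1; decide +kernel +revert), show 𝔫 u 2
    (mul (D4 true) 2 (inv (D4 true) ω) % 128) by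
      rw [Mp, el_modN X.pg, ← X.pg.mul, ← X.pg.inv, ← q]; simp [cm, cg, mul_assoc]⟩
  refine el_mem_ms (by_contra fun h => ?_)
  obtain ⟨y, l3, p3, m⟩ := Z.t1.any X Z.m1.2 l2 (by clear_aux_decl; clear * - l2 p2 h; decide +kernel +revert)
  have := c _ Z.m1
  rw [cm, m.e, X.pg.inv, X.pg.mul, X.pg.mem_ms (zok _ (by simp))] at this
  clear_aux_decl; clear * - l2 p2 h l3 p3 this; revert y; revert x; decide +kernel

/-- Elements of `U₂` centralising `U⁺`. -/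
def CU (y : G) : Prop := y ∈ Z.T ⊓ X.MZ ∧ ∀ v ∈ MS X.gs 124, cg v y = v

theorem CU.mul {x y : G} (a : Z.CU x) (b : Z.CU y) : Z.CU (x * y) :=
  ⟨mul_mem a.1 b.1, fun v h => cg_fix_mul (a.2 v h) (b.2 v h)⟩
theorem CU.inv {x : G} (a : Z.CU x) : Z.CU x⁻¹ := ⟨inv_mem a.1, fun v h => cg_fix_inv (a.2 v h)⟩
theorem CU.cg {x g : G} (a : Z.CU x) (b : g ∈ normalizer ((Z.T ⊓ X.MZ : Subgroup G) : Set G)) (c : g ∈ 𝔑 124) : Z.CU (cg x g) :=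
  ⟨cg_mem_norm a.1 b, fun v h => by rw [← cg_inv_cg v g, ← cg_cg', a.2 _ (cg_mem_norm h (inv_mem c))]⟩
theorem CU.mem {x : G} (a : Z.CU x) (b : X.Tr x 2) : x ∈ MS X.gs 124 := by
  obtain ⟨y, l, p, rfl⟩ := Z.tr0 a.1 b
  have := Mp.of_el (h := X.pg) (a.2 _ (el_mem_ms (by decide : IM 124 8)))
  exact el_mem_ms (by clear_aux_decl; clear * - l p this; decide +kernel +revert)

theorem trinv {x : G} {j : ℕ} (a : x ∈ X.MZ) (b : X.Tr x j) : X.Tr x⁻¹ j := by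
  obtain ⟨y, l, rfl, m⟩ := b
  obtain ⟨y', l', p, m'⟩ := X.exTr a.1 (MZ.n1 X a)
  obtain rfl := (m.eq m' rfl).eq l l'
  have := Tr.of X (inv_mem a) l (by norm_num) p m.symm
  rwa [Nat.xor_assoc, Nat.xor_self, Nat.xor_zero] at this

theorem no8 (he : e = false) {y ρ : G} (a : Z.CU y) (b : X.Tr y 6) (c : cg y (𝔯 2) = y⁻¹)
    (rN : ρ ∈ normalizer ((Z.T ⊓ X.MZ : Subgroup G) : Set G)) (r : X.Rho ρ) : False := by
  obtain ⟨K, K1, -, K3⟩ := X.chi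
  have sN : 𝔯 1 ∈ normalizer ((Z.T ⊓ X.MZ : Subgroup G) : Set G) := norm_inf (le_normalizer (Z.RT (el_mem _ _)))
    (MZ.nm X (X.pg.nm_el dk) (X.pg.nm_el dk) (X.pg.nm_el dk))
  have a1 := a.cg Z sN (X.pg.nm_el dk)
  have b1 : X.Tr (cg y (𝔯 1)) 14 := by
    obtain ⟨u, l, p, m⟩ := b
    exact ⟨_, Nat.mod_lt _ (by norm_num), (by clear_aux_decl; clear * - l p; decide +kernel +revert), (m.cjg (.sf _ 1 2 2) (.self _ 1 u)).r _ (Nat.mod_mod _ 128).symm⟩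
  have a2 := a.cg Z rN (r.n1 X)
  have b2 := r.tr X a2.1.2 b rfl
  have a3 := a2.cg Z rN (r.n1 X)
  have b3 := r.tr X a3.1.2 b2 rfl
  generalize h2 : cg y ρ = y2 at a2 b2 a3 b3
  generalize h3 : cg y2 ρ = y3 at a3 b3
  have v1 := ((a2.inv Z).mul Z a1).mem Z ((trinv a2.1.2 b2).mul X a1.1.2 b1)
  have v2 := (((a.mul Z a2).inv Z).mul Z a3).mem Z ((trinv (a.mul Z a2).1.2 (b.mul X a2.1.2 b2)).mul X a3.1.2 b3)
  have g0 : cm y y2 ∈ MS X.gs 124 := ((a.inv Z).mul Z (a.cg Z (le_normalizer a2.1) (MZ.n1 X a2.1.2))).mem Z (by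
    have := ((trinv a.1.2 b).mul X (inv_mem a2.1.2) (trinv a2.1.2 b2)).mul X (mul_mem a.1.2 a2.1.2) (b.mul X a2.1.2 b2)
    simpa [H33.cg, mul_assoc] using this)
  have g1 : cg (cm y y2) ρ * cm y y2 = 1 := by
    have e1 : y3 = y * y2 * ((y * y2)⁻¹ * y3) := (mul_inv_cancel_left _ _).symm
    have e2 := (((a.mul Z a2).inv Z).mul Z a3).2 _ g0
    generalize (y * y2)⁻¹ * y3 = w at e1 e2 v2
    rw [cg_cm, h2, h3, e1, cm_mul_right, cm_eq_one.2 (cg_comm (a2.2 _ v2)), one_mul, cm_mul_right, cm_eq_one.2 (cg_self _),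
      one_mul, show cm y2 y = (cm y y2)⁻¹ by simp [cm, H33.cg, mul_assoc], cg_inv, cg_inv, a2.2 _ g0, e2,
      inv_mul_cancel]
  obtain ⟨γ, l, p, q⟩ := X.pg.ex_ms (zok 124 (by simp)) g0
  obtain ⟨γ', l', p', m⟩ := r.2.2 γ l p
  rw [q, m.e, X.pg.mul, X.pg.one] at g1
  have p1 := ((K3 γ).1 (q ▸ K1 _ _)).resolve_left (by simp [he])
  obtain rfl : γ = 0 := by
    obtain rfl | rfl | rfl | rfl : γ = 0 ∨ γ = 16 ∨ γ = 32 ∨ γ = 48 := (by clear_aux_decl; clear * - l p l' p' g1 p1; decide +kernel +revert)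
    · rfl
    · obtain rfl := (m.eq (r.r X) rfl).eq l'; exact absurd g1 dk
    · obtain rfl := (m.eq (r.z X) rfl).eq l'; exact absurd g1 dk
    · obtain rfl := (m.eq (((r.z X).mul (r.r X)).r 32)).eq l'; exact absurd g1 dk
  have g2 : cg y (cg y (𝔯 1)) = y := by
    rw [← mul_inv_cancel_left y2 (cg y (𝔯 1)), ← cg_cg, cm_eq_one.1 (q.trans (el_zero _)), cg_comm (a.2 _ v1)]
  have s1 : cg (cg y (𝔯 1)) (𝔯 1) = y := by rw [cg_cg, X.pg.mul, (X.pg.eq _ 0).2 dk, el_zero, cg_one']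
  have c1 : cg (cg y (𝔯 1)) (𝔯 2) = (cg y (𝔯 1))⁻¹ := by rw [cg_cg', c, (Mp.sf X.pg 2 1 1).e, cg_inv]
  have ab := (a.inv Z).mul Z a1
  have bb := (trinv a.1.2 b).mul X a1.1.2 b1
  generalize h' : cg y (𝔯 1) = y' at *
  have bt : cg (y⁻¹ * y') (𝔯 2) = (y⁻¹ * y')⁻¹ := by
    rw [cg_mul, cg_inv, c, c1, inv_inv, mul_inv_rev, inv_inv, eq_inv_mul_iff_mul_eq, ← mul_assoc, ← cg_eq_iff.1 g2]; simp
  have bs : cg (y⁻¹ * y') (𝔯 3) = y⁻¹ * y' := by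
    rw [← (X.pg.eq (H33.mul (D4 true) 1 2) 3).2 dk, ← X.pg.mul, ← cg_cg, cg_mul y⁻¹, cg_inv, s1, h', ← inv_inv (y'⁻¹ * y), cg_inv, mul_inv_rev,
      inv_inv, bt, inv_inv]
  have := C.noD16 he Z.pT (X.t ▸ X.cts) ab.1.1 (Z.RT (el_mem _ 2)) (cg_comm bs) (Mp.sf X.pg 2 3 3).e bt
  obtain ⟨u, lu, pu, mu⟩ := bb
  have e4 : y⁻¹ * y' * (y⁻¹ * y') = 𝔯 (H33.mul (D4 true) (H33.inv (D4 true) 2) u) := by
    rw [← X.pg.mul, ← X.pg.inv, ← mu.e]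
    generalize y⁻¹ * y' = β at bt
    have : cg β⁻¹ (𝔯 2) = β := by rw [cg_inv, bt, inv_inv]
    conv_lhs => enter [1]; rw [← this]
    simp [H33.cg, mul_assoc]
  rw [e4, X.pg.mul, X.pg.one] at this
  clear_aux_decl; clear * - lu pu this; revert u; decide +kernel

include Z in
theorem main (h : 2 ^ 10 ∣ Nat.card G) : False := by
  obtain ⟨n, hn, h1, h2⟩ := climb' Z.pT Z.card h
  obtain ⟨a, b⟩ := Z.nU hn
  have tM : 𝔯 2 ∈ Z.T ⊓ X.MZ := ⟨Z.RT (el_mem _ 2), MZ.el X (by norm_num) (by decide)⟩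
  have t' := cg_mem_norm tM a
  have iv : ∀ v ∈ MS X.gs 124, cg v (𝔯 2) = v⁻¹ := fun v hv => by
    obtain ⟨v, l, p, rfl⟩ := X.pg.ex_ms (zok 124 (by simp)) hv
    rw [X.pg.cg, X.pg.inv, X.pg.eq]; exact (by clear_aux_decl; clear * - l p; decide +kernel +revert)
  have iv' : ∀ v ∈ MS X.gs 124, cg v (cg (𝔯 2) n) = v⁻¹ := fun v hv => by
    rw [← cg_inv_cg v n, ← cg_cg', iv _ (cg_mem_norm hv (inv_mem b)), cg_inv]
  obtain ⟨j, hj, tj⟩ := trs t'.2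
  by_cases j2 : j = 2
  · obtain ⟨x, l, p, q⟩ := Z.tr0 t' (j2 ▸ tj)
    have p' : ¬ IM 124 (x % 128) := fun h => absurd ((Mp.im (h := X.pg) q (zok _ (by simp)) b).2 h) (by decide)
    obtain ⟨u, -, u1, v, -, v1, m⟩ := Z.back l (by clear_aux_decl; clear * - l p p'; decide +kernel +revert) (Mp.conj (h := X.pg) (h' := X.pg) q)
    have k := mul_mem u1.1 (Z.RT (el_mem _ v))
    obtain ⟨y, -, -, e⟩ := X.sw' (pg_sup' Z.pT h2 hn) ((ms_le _ _).trans (Z.RT.trans le_sup_left))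
      (mul_mem (mem_sup_right (mem_zpowers n)) (mem_sup_left k)) (Mp.trans q m) (m := 124) dk (mul_mem b (Z.TN k).1.1.1.2)
    exact h1 ((Subgroup.mul_mem_cancel_right _ k).1 (e ▸ Z.RT (el_mem X.gs y)))
  cases e
  swap
  · exact j2 (tj.uniq X (Z.movef rfl t' (by
      rw [Mp, iv' _ (el_mem_ms (by decide)), X.pg.inv, X.pg.eq]; exact dk)))
  obtain ⟨t1, l1, p1, m1⟩ := X.exTr Z.rho.1 (Z.rho.n1 X)
  obtain ⟨u, -, u1, v, lv, v1, m⟩ := Z.back l1 p1 m1.conj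
  have k : u * 𝔯 v ∈ Z.T ⊓ X.MZ := mul_mem u1 ⟨Z.RT (el_mem _ v), MZ.el X lv (IM.trans (by decide) v1)⟩
  have rN := mul_mem Z.rN (le_normalizer k)
  have r := Z.rho.mul X k.2
  have rt := m1.trans m
  generalize Z.ρ * (u * 𝔯 v) = ρ at rN r rt
  have st : ∀ y j, Z.CU y ∧ X.Tr y j ∧ cg y (𝔯 2) = y⁻¹ → j % 4 = 2 →
      Z.CU (cg y ρ) ∧ X.Tr (cg y ρ) (pz j + 2) ∧ cg (cg y ρ) (𝔯 2) = (cg y ρ)⁻¹ := fun y j h c =>
    ⟨h.1.cg Z rN (r.n1 X), r.tr X (cg_mem_norm h.1.1 rN).2 h.2.1 c, by rw [← rt.e, ← cg_cg', h.2.2, cg_inv]⟩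
  have s0 : Z.CU (cg (𝔯 2) n * 𝔯 2) ∧ X.Tr (cg (𝔯 2) n * 𝔯 2) j ∧ cg (cg (𝔯 2) n * 𝔯 2) (𝔯 2) = (cg (𝔯 2) n * 𝔯 2)⁻¹ := by
    refine ⟨⟨mul_mem t' tM, fun v hv => by rw [← cg_cg, iv' v hv, iv _ (inv_mem hv), inv_inv]⟩, ?_, ?_⟩
    · simpa [Nat.xor_assoc] using tj.mul X tM.2 ⟨2, by norm_num, rfl, .sf _ _ _ _⟩ (by omega)
    · have i : (𝔯 2)⁻¹ = 𝔯 2 := by rw [X.pg.inv, X.pg.eq]; exact dk
      rw [mul_inv_rev, ← cg_inv, i, H33.cg, i, mul_assoc, mul_assoc, inv_eq_iff_mul_eq_one.1 i, mul_one]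
  rcases hj with rfl | rfl | rfl | rfl
  · exact j2 rfl
  · exact Z.no8 rfl s0.1 s0.2.1 s0.2.2 rN r
  · have := st _ _ s0 rfl
    exact Z.no8 rfl this.1 this.2.1 this.2.2 rN r
  · have := st _ _ (st _ _ s0 rfl) rfl
    exact Z.no8 rfl this.1 this.2.1 this.2.2 rN r

end ZT

theorem z4 (X : St4 C true) : ¬ 2 ^ 11 ∣ Nat.card G := fun h =>
  (X.exZT (dvd_trans (by norm_num) h)).elim fun Z => Z.main (dvd_trans (by norm_num) h)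

end St4

end Cfsg.Lib.H33
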