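import Cfsg.Agent.Lib.H33.Vb
import Cfsg.Agent.Lib.H33.Z4c

/-! The case `U⁺` elementary abelian: a Sylow 2-subgroup has order at most `2¹⁰` (helper5). -/

set_option autoImplicit false
set_option synthInstance.maxSize 2048

namespace Cfsg.Lib.H33

open Cfsg.Lib.Calc Cfsg.Lib.Transfer Subgroup

namespace St5

variable {G : Type*} [Group G] [Finite G] {e l : Bool} {C : Cfg0 G e} (X : St5 C l)

set_option hygiene false in
local notation "𝔰" => el (Cfg0.gs C)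
set_option hygiene false in
local notation "𝔪" => Mp (Cfg0.pg C) (Cfg0.pg C)
set_option hygiene false in
local notation "𝔯" => el (St5.gs X)
set_option hygiene false in
local notation "𝔫" => Mp (St5.pg X) (St5.pg X)
set_option hygiene false in
local notation "𝔑" m:max => normalizer (MS (St5.gs X) m : Set G)
set_option quotPrecheck false in
local notation "dk" => by clear_aux_decl; clear * -; decide +kernel +revert

theorem ok : ∀ m ∈ [0, 511, 230, cond e 128 384, 416, 502, 160, 128], msOK (D5 e l) 512 m := dk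

theorem v0 {w : G} (hw : w ∈ normalizer (gen X.gs : Set G)) : w ∈ 𝔑 416 ∧ w ∈ 𝔑 502 ∧ w ∈ 𝔑 160 ∧ 𝔫 w 128 128 := by
  replace hw : w ∈ 𝔑 511 := by rw [← X.pg.ms_top] at hw; exact hw
  have h0 := PG.nm_zero X.gs w
  have h1 : w ∈ 𝔑 230 := X.pg.nm_cm (fun i => if i = 1 then (1, 16, 0) else if i = 2 then (12, 17, 0) else
    if i = 5 then (2, 4, 0) else if i = 6 then (8, 16, 0) else (64, 4, 0)) (ok _ (by simp)) dk hw hw h0
  have h2 : w ∈ 𝔑 (cond e 128 384) := X.pg.nm_rc (ok _ (by simp)) (ok _ (by simp)) (ok _ (by simp)) dk hw hw h0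
  have h3 : w ∈ 𝔑 416 := X.pg.nm_rc (ok _ (by simp)) (ok _ (by simp)) (ok _ (by simp)) dk hw hw h2
  have h4 := X.pg.nm_inf (k := 230) (l := cond e 128 384) (ok _ (by simp)) (ok _ (by simp)) h1 h2
  rw [show 230 &&& cond e 128 384 = 128 from dk] at h4
  obtain ⟨y, a, p, m⟩ := Mp.exm (h := X.pg) (ok 128 (by simp)) h4 128
  have q := m.ne .zero
  exact ⟨h3, X.pg.nm_rc (ok _ (by simp)) (ok _ (by simp)) (ok _ (by simp)) dk hw h1 h3,
    X.pg.nm_inf (k := 230) (l := 416) (ok _ (by simp)) (ok _ (by simp)) h1 h3, m.r _ (by clear_aux_decl; clear * - a p q; decide +kernel +revert)⟩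

theorem cent {P : Subgroup G} (hP : IsPGroup 2 P) (a : gen X.gs ≤ P) {y : G} (b : y ∈ P) (c : 𝔫 y 8 8) : y ∈ gen X.gs := by
  have h : PG ([1, 4, 8, 64, 128, 256].map 𝔯) [(13, [4, 2, 9, 8, cond e 24 16]), (0, [1, 6, 4, 8]), (0, [1, 2, 4]),
    (0, [1, 2]), (0, [1]), (0, [])] 64 := X.pg.sub dk rfl
  have le : gen ([1, 4, 8, 64, 128, 256].map 𝔯) ≤ gen X.gs := gen_le.2 (by simp [el_mem])
  refine le (C.mem64 hP (le.trans a) h.card (fun y hy => ?_) b (X.t ▸ c))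
  obtain ⟨x, p, rfl⟩ := h.ex hy
  rw [X.pg.el_map, ← X.t, X.pg.cg, X.pg.eq]
  exact (by clear_aux_decl; clear * - p; decide +kernel +revert)

theorem back {P : Subgroup G} (hP : IsPGroup 2 P) (a : gen X.gs ≤ P) {w : G} (b : w ∈ P) {x : ℕ} (c : x < 512) (d : x &&& 9 = 8)
    (m : 𝔫 w 8 x) : w ∈ gen X.gs := by
  have p := m.sq
  obtain ⟨g, -, q | q⟩ : ∃ g ∈ [0, 2, 16, 18, 32, 34, 48, 50], EQ 512 (cj (D5 e l) x g) 8 ∨ EQ 512 (cj (D5 e l) x g) 264 :=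
    (by clear_aux_decl; clear * - c d p; decide +kernel +revert)
  · exact (Subgroup.mul_mem_cancel_right _ (el_mem X.gs g)).1 (X.cent hP a (mul_mem b (a (el_mem _ _))) ((m.tr g).r _ q))
  · exact absurd ((m.tr g).r _ q).conj X.n2

theorem imy {n : G} (a : n ∈ 𝔑 160) (b : 𝔫 n 128 128) : 𝔫 n 32 32 ∨ 𝔫 n 32 160 := by
  obtain ⟨y, c, p, m⟩ := Mp.exm (h := X.pg) (ok 160 (by simp)) a 32
  have q := m.ne .zero
  have q' := m.ne b
  obtain rfl | rfl : y = 32 ∨ y = 160 := (by clear_aux_decl; clear * - c p q q'; decide +kernel +revert)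
  exacts [.inl m, .inr m]

theorem tbit {n : G} (a : 𝔫 n 32 32 ∨ 𝔫 n 32 160) {x : ℕ} (c : x < 512) (m : 𝔫 n 8 x) : x &&& 9 = 8 ∨ x &&& 9 = 9 := by
  rcases a with a | a
  all_goals
    have := (m.mul a).ne (a.mul m)
    exact (by clear_aux_decl; clear * - c this; decide +kernel +revert)

theorem vA {n : G} (hn : n ∈ normalizer (gen X.gs : Set G)) (h1 : n ∉ gen X.gs) (h2 : n * n ∈ gen X.gs) :
    ∃ τ < 512, τ &&& 9 = 9 ∧ 𝔫 n 8 τ ∧ (e = true → 𝔫 n 256 288 ∨ 𝔫 n 256 416) := by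
  obtain ⟨a1, a2, a3, a4⟩ := X.v0 hn
  obtain ⟨τ, c, m⟩ : ∃ y < 512, 𝔫 n 8 y := X.pg.img0 hn 8
  have p := (X.tbit (X.imy a3 a4) c m).resolve_left fun h =>
    h1 (X.back (pg_sup' X.pg.pgroup h2 hn) le_sup_left (mem_sup_right (mem_zpowers n)) c h m)
  refine ⟨τ, c, p, m, fun he => ?_⟩
  subst he
  obtain ⟨y, c', p', m'⟩ := Mp.exm (h := X.pg) (ok 416 (by simp)) a1 256
  have q := m'.co m
  have q' : ¬ IM 160 (y % 512) := fun h => absurd ((m'.im (ok _ (by simp)) a3).2 h) (by decide)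
  obtain rfl | rfl : y = 288 ∨ y = 416 := (by clear_aux_decl; clear * - c p c' p' q q'; decide +kernel +revert)
  exacts [.inl m', .inr m']

/-- Images modulo `Z⁺`. -/
def Mq (m : G) (x y : ℕ) : Prop := (𝔯 y)⁻¹ * cg (𝔯 x) m ∈ MS X.gs 416

theorem Mq.mul {m : G} {x y x' y' : ℕ} (a : X.Mq m x y) (b : X.Mq m x' y') :
    X.Mq m (mul (D5 e l) x x') (mul (D5 e l) y y') := by
  have := mul_mem (cg_mem_norm a (X.v0 (le_normalizer (el_mem X.gs y'))).1) b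
  rw [Mq, ← X.pg.mul, ← X.pg.mul, cg_mul]
  generalize cg (𝔯 x) m = u at *
  generalize cg (𝔯 x') m = v at *
  simpa [cg, mul_assoc] using this

theorem Mq.hom {m : G} {xs cs : List ℕ} (a : List.Forall₂ (X.Mq m) xs cs) (i : ℕ) :
    X.Mq m (hm (H33.mul (D5 e l)) xs i) (hm (H33.mul (D5 e l)) cs i) := by
  have z : X.Mq m 0 0 := by simp [Mq, el_zero]
  induction a generalizing i with
  | nil => exact z
  | cons a _ ih =>
    rw [hm_cons, hm_cons]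
    split_ifs
    exacts [z, a.mul X (ih _), ih _]

theorem Mq.ex {m : G} {x y : ℕ} (a : X.Mq m x y) (b : m ∈ 𝔑 502) (c : IM 502 (x % 512)) :
    IM 502 (y % 512) ∧ ∃ ζ < 512, IM 416 ζ ∧ 𝔫 m x (H33.mul (D5 e l) (y % 512) ζ) := by
  obtain ⟨ζ, p, q, r⟩ := X.pg.ex_ms (ok 416 (by simp)) a
  refine ⟨?_, ζ, p, q, by rw [Mp, ← X.pg.mul, el_modN X.pg, ← r, mul_inv_cancel_left]⟩
  rw [← X.pg.mem_ms (ok _ (by simp))] at c ⊢
  simpa using mul_mem (cg_mem_norm c b) (inv_mem (ms_mono (by decide) a))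

theorem Mq.sq {m : G} {x y : ℕ} (a : X.Mq m x y) (b : m ∈ 𝔑 502) (f : ∀ u < 512, IM 416 u → 𝔫 m u u)
    (c : IM 502 (x % 512) ∧ IM 416 (H33.mul (D5 e l) x x % 512) := by clear_aux_decl; clear * -; decide +kernel +revert) :
    EQ 512 (H33.mul (D5 e l) x x) (H33.mul (D5 e l) y y) := by
  obtain ⟨p, ζ, p1, p2, r⟩ := a.ex X b c.1
  have := (f _ (Nat.mod_lt _ (by norm_num)) c.2).eq (r.mul r) (Nat.mod_mod _ _)
  have k : ∀ y < 512, IM 502 y → ∀ ζ < 512, IM 416 ζ → EQ 512 (H33.mul (D5 e l) (H33.mul (D5 e l) y ζ) (H33.mul (D5 e l) y ζ))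
    (H33.mul (D5 e l) y y) := dk
  rw [← X.pg.eq, ← el_modN X.pg, (X.pg.eq _ _).2 (this.trans (k _ (Nat.mod_lt _ (by norm_num)) p ζ p1 p2)), ← X.pg.mul,
    ← X.pg.mul, el_modN X.pg]

theorem exMq {m : G} (b : m ∈ 𝔑 502) (x : ℕ) (c : IM 502 x := by decide) : ∃ y ∈ [0, 2, 4, 6, 16, 18, 20, 22, 64, 66, 68, 70,
    80, 82, 84, 86], X.Mq m x y := by
  obtain ⟨y, p, q, r⟩ := Mp.exm (h := X.pg) (ok 502 (by simp)) b x c
  refine ⟨y &&& 86, (by clear_aux_decl; clear * - p; decide +kernel +revert), ?_⟩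
  rw [Mq, r.e, X.pg.inv, X.pg.mul, X.pg.mem_ms (ok _ (by simp))]
  exact (by clear_aux_decl; clear * - p q; decide +kernel +revert)

theorem noZ4 {m : G} (b : m ∈ 𝔑 502) (f : ∀ u < 512, IM 416 u → 𝔫 m u u) {q : ℕ} (c : q < 512) (d : q &&& 9 = 1)
    (h : m * m = 𝔯 q) : False := by
  obtain ⟨v, l1, m1⟩ := X.exMq b 16
  obtain ⟨r, l2, m2⟩ := X.exMq b 64
  obtain ⟨s, l3, m3⟩ := X.exMq b 4
  obtain ⟨β, l4, m4⟩ := X.exMq b 2
  have key : ∀ v ∈ [0, 2, 4, 6, 16, 18, 20, 22, 64, 66, 68, 70, 80, 82, 84, 86],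
      EQ 512 (mul (D5 e l) 16 16) (mul (D5 e l) v v) → ∀ r ∈ [0, 2, 4, 6, 16, 18, 20, 22, 64, 66, 68, 70, 80, 82, 84, 86],
      EQ 512 (mul (D5 e l) 64 64) (mul (D5 e l) r r) →
      EQ 512 (mul (D5 e l) (mul (D5 e l) 16 64) (mul (D5 e l) 16 64)) (mul (D5 e l) (mul (D5 e l) v r) (mul (D5 e l) v r)) →
      ∀ s ∈ [0, 2, 4, 6, 16, 18, 20, 22, 64, 66, 68, 70, 80, 82, 84, 86], EQ 512 (mul (D5 e l) 4 4) (mul (D5 e l) s s) →
      EQ 512 (mul (D5 e l) (mul (D5 e l) 16 4) (mul (D5 e l) 16 4)) (mul (D5 e l) (mul (D5 e l) v s) (mul (D5 e l) v s)) →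
      EQ 512 (mul (D5 e l) (mul (D5 e l) 64 4) (mul (D5 e l) 64 4)) (mul (D5 e l) (mul (D5 e l) r s) (mul (D5 e l) r s)) →
      ∀ β ∈ [0, 2, 4, 6, 16, 18, 20, 22, 64, 66, 68, 70, 80, 82, 84, 86], EQ 512 (mul (D5 e l) 2 2) (mul (D5 e l) β β) →
      EQ 512 (mul (D5 e l) (mul (D5 e l) 16 2) (mul (D5 e l) 16 2)) (mul (D5 e l) (mul (D5 e l) v β) (mul (D5 e l) v β)) →
      EQ 512 (mul (D5 e l) (mul (D5 e l) 64 2) (mul (D5 e l) 64 2)) (mul (D5 e l) (mul (D5 e l) r β) (mul (D5 e l) r β)) →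
      EQ 512 (mul (D5 e l) (mul (D5 e l) 4 2) (mul (D5 e l) 4 2)) (mul (D5 e l) (mul (D5 e l) s β) (mul (D5 e l) s β)) →
      (hm (mul (D5 e l)) [β, s, v, r] (v / 2 % 4 + v / 16 % 2 * 4 + v / 64 * 8) % 512) &&& 86 ≠ 18 := dk
  refine key v l1 (m1.sq X b f) r l2 (m2.sq X b f) ((m1.mul X m2).sq X b f) s l3 (m3.sq X b f) ((m1.mul X m3).sq X b f)
    ((m2.mul X m3).sq X b f) β l4 (m4.sq X b f) ((m1.mul X m4).sq X b f) ((m2.mul X m4).sq X b f) ((m3.mul X m4).sq X b f) ?_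
  have m5 := Mq.hom X (.cons m4 (.cons m3 (.cons m1 (.cons m2 .nil)))) (v / 2 % 4 + v / 16 % 2 * 4 + v / 64 * 8)
  have e1 : EQ 512 (hm (mul (D5 e l)) [2, 4, 16, 64] (v / 2 % 4 + v / 16 % 2 * 4 + v / 64 * 8)) v := (by clear_aux_decl; clear * - l1; decide +kernel +revert)
  generalize hm (mul (D5 e l)) [β, s, v, r] _ = w at m5 ⊢
  rw [Mq, (X.pg.eq _ _).2 e1] at m5
  obtain ⟨ζ, p1, p2, r1⟩ := X.pg.ex_ms (ok 416 (by simp)) m1
  have m6 : X.Mq (m * m) 16 w := by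
    rw [Mq, ← cg_cg, eq_mul_of_inv_mul_eq r1, cg_mul, (f ζ p1 p2).e, ← mul_assoc]
    exact mul_mem m5 (el_mem_ms p2)
  obtain ⟨p, ζ, p1, p2, r⟩ := m6.ex X (mul_mem b b) (by decide)
  have k1 : (cj (D5 e l) 16 q % 512) &&& 86 = 18 := (by clear_aux_decl; clear * - c d; decide +kernel +revert)
  have k2 : ∀ y < 512, IM 502 y → ∀ ζ < 512, IM 416 ζ → (mul (D5 e l) y ζ % 512) &&& 86 = y &&& 86 := dk
  rw [← k2 _ (Nat.mod_lt _ (by norm_num)) p ζ p1 p2, ← r.of_eq h, k1]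

theorem vB {n : G} (hn : n ∈ normalizer (gen X.gs : Set G)) (h1 : n ∉ gen X.gs) (h2 : n * n = 1) : 𝔫 n 32 32 := by
  obtain ⟨a1, a2, a3, a4⟩ := X.v0 hn
  obtain ⟨τ, c, p, m, q⟩ := X.vA hn h1 (h2 ▸ one_mem _)
  refine (X.imy a3 a4).resolve_right fun y => ?_
  cases e
  · have f : 𝔫 (n * 𝔯 8) 256 256 := by rw [Mp, X.f]; exact C.cen rfl _
    refine X.noZ4 (m := n * 𝔯 8) (mul_mem a2 (X.pg.nm_el dk)) (fun u a b => ?_) (q := mul (D5 false l) τ 8 % 512) (Nat.mod_lt _ (by norm_num))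
      (by clear_aux_decl; clear * - c p; decide +kernel +revert) ?_
    · exact (Mp.hom (.cons ((y.tr 8).r 32) (.cons ((a4.tr 8).r 128) (.cons f .nil))) (u / 32 % 2 + u / 128 * 2)).cast _ _
        (by clear_aux_decl; clear * - a b; decide +kernel +revert)
    · rw [el_modN X.pg, ← X.pg.mul, ← m.e, cg, inv_eq_of_mul_eq_one_right h2]; simp only [mul_assoc]
  · rcases q rfl with q | q
    · exact absurd ((q.trans ((y.mul q).l _)).of_eq (h2.trans (el_zero _).symm)) dk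
    · exact absurd ((q.trans (((y.mul a4).mul q).l _)).of_eq (h2.trans (el_zero _).symm)) dk

include X in
theorem main : ¬ 2 ^ 11 ∣ Nat.card G := fun h => by
  obtain ⟨n, hn, h1, h2⟩ := X.pg.climb (dvd_trans (by norm_num) h)
  obtain ⟨a1, a2, a3, a4⟩ := X.v0 hn
  obtain ⟨τ, c, p, m, q⟩ := X.vA hn h1 h2
  obtain ⟨K, K1, K2⟩ := X.chi
  have P := pg_sup' X.pg.pgroup h2 hn
  have N : gen X.gs ⊔ zpowers n ≤ normalizer (gen X.gs : Set G) := sup_le le_normalizer (zpowers_le.2 hn)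
  have RT : gen X.gs ≤ gen X.gs ⊔ zpowers n := le_sup_left
  have nT : n ∈ gen X.gs ⊔ zpowers n := mem_sup_right (mem_zpowers n)
  obtain ⟨w, hw, w1, w2⟩ := climb' P (n := 10) ((card_cover (R := gen X.gs) [1, n⁻¹] fun y hy => by
    rcases mem_sup_zp h2 hn hy with a | a
    · exact ⟨1, by simp, by simpa⟩
    · exact ⟨n⁻¹, by simp, by simpa [cg] using cg_mem_norm a (inv_mem hn)⟩).trans (by rw [X.pg.card]; simp)) h
  generalize gen X.gs ⊔ zpowers n = T at *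
  have KK : ∀ {x y}, 𝔫 w x y → 𝔯 x ∈ K → IM 416 y → e = true ∨ y < 256 := fun {x y} a b d => by
    have := mul_mem b (K1 (𝔯 x) w)
    rw [cm, mul_inv_cancel_left, a] at this
    have ly : y < 512 := d ▸ Nat.and_le_right.trans_lt (by norm_num)
    by_contra k
    obtain ⟨rfl, k⟩ : e = false ∧ 256 ≤ y := by simpa using k
    refine K2 rfl ?_
    have zK : 𝔯 128 ∈ K := by rw [← (X.pg.eq (ck (D5 false l) 64 4) _).2 dk, ← X.pg.cm]; exact K1 _ _
    have yK : 𝔯 32 ∈ K := by rw [← (X.pg.eq (ck (D5 false l) 2 4) _).2 dk, ← X.pg.cm]; exact K1 _ _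
    obtain rfl | rfl | rfl | rfl : y = 256 ∨ y = 288 ∨ y = 384 ∨ y = 416 := (by clear_aux_decl; clear * - d ly k; decide +kernel +revert)
    · exact this
    · rw [← (X.pg.eq (mul (D5 false l) 32 288) _).2 dk, ← X.pg.mul]; exact mul_mem yK this
    · rw [← (X.pg.eq (mul (D5 false l) 128 384) _).2 dk, ← X.pg.mul]; exact mul_mem zK this
    · rw [← (X.pg.eq (mul (D5 false l) 128 (mul (D5 false l) 32 416)) _).2 dk, ← X.pg.mul, ← X.pg.mul]
      exact mul_mem zK (mul_mem yK this)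
  have zc : ∀ y ∈ T, cg (cg (𝔯 128) w) y = cg (𝔯 128) w := fun y h => by
    rw [← cg_inv_cg y w, ← cg_cg', (X.v0 (N (cg_mem_norm h (inv_mem hw)))).2.2.2]
  obtain ⟨z1, l1, m1⟩ := Mp.ex X.pg X.pg (X.cent P RT (cg_mem_norm (RT (el_mem _ 128)) hw) (cg_comm (zc _ (RT (el_mem _ 8)))))
  have wz : 𝔫 w 128 128 := by
    have k : ∀ y, EQ 512 (cj (D5 e l) z1 y) z1 := fun y => Mp.of_el (h := X.pg) (by rw [Mp, ← m1.e]; exact zc _ (RT (el_mem _ _)))
    have p1 := k 1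
    have p2 := k 4
    have p3 := k 8
    have p4 := k 16
    have p5 := k 64
    have p6 := m1.ne .zero
    have p7 := KK m1 (by rw [← (X.pg.eq (ck (D5 e l) 64 4) _).2 dk, ← X.pg.cm]; exact K1 _ _) (by clear_aux_decl; clear * - l1 p1 p2 p3 p4 p5; decide +kernel +revert)
    exact m1.r _ (by clear_aux_decl; clear * - l1 p1 p2 p3 p4 p5 p6 p7; decide +kernel +revert)
  have yc : ∀ y ∈ T, cm (cg (𝔯 32) w) y = 1 ∨ cm (cg (𝔯 32) w) y = 𝔯 128 := fun y h => by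
    obtain ⟨-, -, b, b'⟩ := X.v0 (N (cg_mem_norm h (inv_mem hw)))
    rw [← cg_inv_cg y w, ← cg_cm]
    rcases X.imy b b' with u | u
    · exact .inl (by rw [cm_eq_one.2 u, cg_one])
    · exact .inr (by rw [cm, u.e, X.pg.inv, X.pg.mul, (X.pg.eq _ 128).2 dk, wz.e])
  have yT := cg_mem_norm (RT (el_mem _ 32)) hw
  obtain ⟨y1, l2, m2⟩ := Mp.ex (x := 32) (w := w) X.pg X.pg (by
    rcases yc _ (RT (el_mem _ 8)) with u | u
    · exact X.cent P RT yT (cg_comm (cm_eq_one.1 u))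
    · refine X.back P RT yT (x := 136) (by norm_num) rfl ?_
      rw [Mp, ← (X.pg.eq (mul (D5 e l) 8 (inv (D5 e l) 128)) 136).2 dk, ← X.pg.mul, ← X.pg.inv, ← u]
      generalize cg (𝔯 32) w = v
      simp [cm, cg, mul_assoc])
  have wy : 𝔫 w 32 32 ∨ 𝔫 w 32 160 := by
    have k : ∀ y, EQ 512 (ck (D5 e l) y1 y) 0 ∨ EQ 512 (ck (D5 e l) y1 y) 128 := fun y => by
      rw [← X.pg.eq, ← X.pg.eq, ← X.pg.cm, ← m2.e, el_zero]; exact yc _ (RT (el_mem _ _))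
    have p1 := k 1
    have p2 := k 4
    have p3 := k 16
    have p4 := k 64
    have p5 : IM 416 y1 := (by clear_aux_decl; clear * - l2 p1 p2 p3 p4; decide +kernel +revert)
    have p6 := m2.ne .zero
    have p7 := m2.ne wz
    have p8 := KK m2 (by rw [← (X.pg.eq (ck (D5 e l) 2 4) _).2 dk, ← X.pg.cm]; exact K1 _ _) p5
    obtain rfl | rfl | ⟨rfl, u⟩ : y1 = 32 ∨ y1 = 160 ∨ (e = true ∧ IM 160 (y1 ^^^ 256)) := (by clear_aux_decl; clear * - l2 p5 p6 p7 p8; decide +kernel +revert)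
    · exact .inl m2
    · exact .inr m2
    exfalso
    obtain ⟨y2, l3, m3, u'⟩ : ∃ y2 < 512, 𝔫 n y1 y2 ∧ (y1 ^^^ y2) &&& 32 = 32 := by
      have H := fun a b (p : 𝔫 n 32 a) (q : 𝔫 n 256 b) => (Mp.hom (.cons p (.cons a4 (.cons q .nil)))
        (y1 / 32 % 2 + y1 / 128 * 2)).cast y1 _ ⟨(by clear_aux_decl; clear * - l2 p5; decide +kernel +revert), (Nat.mod_mod _ 512).symm⟩
      rcases X.imy a3 a4 with r | r <;> rcases q rfl with q | q <;>
        exact ⟨_, Nat.mod_lt _ (by norm_num), H _ _ r q, (by clear_aux_decl; clear * - l2 u; decide +kernel +revert)⟩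
    have := yc n nT
    rw [m2.e, cm, m3.e, X.pg.inv, X.pg.mul, X.pg.one, X.pg.eq] at this
    clear_aux_decl; clear * - l2 u l3 u' this; revert y2; revert y1; revert l; decide +kernel
  have tT := cg_mem_norm (RT (el_mem _ 8)) hw
  obtain ⟨x, l3, m3⟩ := Mp.ex (x := 8) (w := w) X.pg X.pg (by_contra fun k => by
    have b := X.vB (N tT) k (by rw [← cg_mul, X.pg.mul, (X.pg.eq _ 0).2 dk, el_zero, cg_one])
    have b' := (X.v0 (N tT)).2.2.2
    rcases wy with u | u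
    · exact absurd (((Mp.sf X.pg 8 32 160).cjg u ((u.mul wz).l 160)).eq b rfl) dk
    · exact absurd (((Mp.sf X.pg 8 32 160).cjg u ((u.mul wz).l 160)).eq ((b.mul b').l 160) rfl) dk)
  have Q := pg_sup' P w2 hw
  rcases X.tbit wy l3 m3 with u | u
  · exact w1 (RT (X.back Q (RT.trans le_sup_left) (mem_sup_right (mem_zpowers w)) l3 u m3))
  obtain ⟨j, l4, p4, m4⟩ := Mp.exm (h := X.pg) (ok 502 (by simp)) (inv_mem a2) (mul (D5 e l) x (inv (D5 e l) τ) % 512) (by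
    have k : ∀ x < 512, x &&& 9 = 9 → IM 502 (mul (D5 e l) x 9 % 512) ∧ IM 502 (mul (D5 e l) (inv (D5 e l) 9) (inv (D5 e l) x) % 512)
      := dk
    rw [← X.pg.mem_ms (ok _ (by simp)), ← X.pg.mul]
    have := mul_mem ((X.pg.mem_ms (ok 502 (by simp)) _).2 (k x l3 u).1) ((X.pg.mem_ms (ok 502 (by simp)) _).2 (k τ c p).2)
    rwa [← X.pg.mul, ← X.pg.mul, ← X.pg.inv, mul_assoc, mul_inv_cancel_left] at this)
  have m5 : 𝔫 n⁻¹ x (mul (D5 e l) j 8 % 512) := by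
    rw [Mp, el_modN X.pg, ← X.pg.mul, ← m4.e, ← m.symm.e, ← cg_mul, el_modN X.pg, ← X.pg.mul, ← X.pg.inv, inv_mul_cancel_right]
  exact w1 ((Subgroup.mul_mem_cancel_right _ (inv_mem nT)).1 (RT (X.back Q (RT.trans le_sup_left) (mul_mem
    (mem_sup_right (mem_zpowers w)) (mem_sup_left (inv_mem nT))) (Nat.mod_lt _ (by norm_num)) (by clear_aux_decl; clear * - l4 p4; decide +kernel +revert) (m3.trans m5))))

end St5

theorem Cfg0.case4 {G : Type*} [Group G] [Finite G] {e : Bool} (C : Cfg0 G e) (n1 : ¬ IsConj (el C.gs 8) (el C.gs 16))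
    (n2 : ¬ IsConj (el C.gs 8) (el C.gs 24)) {k : G} (hk : C.KD k) (kf : Mp C.pg C.pg k 16 16) : ¬ 2 ^ 11 ∣ Nat.card G := by
  obtain ⟨_ | _, ⟨X⟩⟩ := C.st4 n1 n2 hk kf
  · obtain ⟨l, ⟨Y⟩⟩ := X.st5
    exact Y.main
  · exact X.z4

end Cfsg.Lib.H33
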