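import Cfsg.Agent.Lib.H33.E8i
import Cfsg.Agent.Lib.H33.Vc
import Cfsg.Agent.Lib.H33.Red

/-! The order bound from the configuration `Cfg0` (helper5). -/

set_option autoImplicit false

namespace Cfsg.Lib.H33

open Subgroup

set_option quotPrecheck false in
local notation "dk" => by clear_aux_decl; clear * -; decide +kernel +revert

variable {G : Type*} [Group G] [Finite G]

theorem Cfg0.main0 (C : Cfg0 G false) {g : G} (h : GD C g) : ¬ 2 ^ 11 ∣ Nat.card G := by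
  have n1 := C.ncj rfl (y := 16) rfl
  have n2 := C.ncj rfl (y := 24) rfl
  obtain ⟨k, hk, kf | ⟨e, -⟩⟩ := C.getk h.1 h.2.1 h.2.2 (iff_of_false n1 n2)
  exacts [C.case4 n1 n2 hk kf, nomatch e]

theorem Cfg0.main1 (C : Cfg0 G true) {g : G} (h : GD C g) :
    ¬ 2 ^ 11 ∣ Nat.card G ∨ (¬ 2 ^ 12 ∣ Nat.card G ∧ ∃ N : Subgroup G, N.index = 2) := by
  obtain ⟨C', e, E⟩ := C.rename
  have L : ∀ x y, EQ 64 (hm (mul (DS true)) [1, 2, 4, 8, 24, 32] x) y → el C'.gs x = el C.gs y := fun x y a => by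
    rw [E, C.pg.eq]; exact a
  have T : ∀ {w x y} (x' y' : ℕ), Mp C.pg C.pg w x y → EQ 64 (hm (mul (DS true)) [1, 2, 4, 8, 24, 32] x') x ∧
      EQ 64 (hm (mul (DS true)) [1, 2, 4, 8, 24, 32] y') y → Mp C'.pg C'.pg w x' y' := fun x' y' a b => by
    rw [Mp, L _ _ b.1, L _ _ b.2]; exact a
  have e1 := L 8 8 dk
  have e2 := L 16 24 dk
  have e3 := L 24 16 dk
  by_cases n1 : IsConj (el C.gs 8) (el C.gs 16) <;> by_cases n2 : IsConj (el C.gs 8) (el C.gs 24)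
  · obtain ⟨k, hk, kf | ⟨-, kf⟩⟩ := C.getk h.1 h.2.1 h.2.2 (iff_of_true n1 n2)
    · exact absurd n1 (C.notfix rfl hk (.inl rfl) kf kf (by decide))
    · exact absurd n2 (C.notfix rfl hk (.inr rfl) kf ((hk.t.mul kf).cast 16 48) (by decide))
  · exact C'.case8 (by rwa [e1, e2]) (by rwa [e1, e3])
  · exact C.case8 n1 n2
  · obtain ⟨k, hk, kf | ⟨-, kf⟩⟩ := C.getk h.1 h.2.1 h.2.2 (iff_of_false n1 n2)
    · exact .inl (C.case4 n1 n2 hk kf)
    · exact .inl (C'.case4 (by rwa [e1, e2]) (by rwa [e1, e3]) ⟨e ▸ hk.nS, e ▸ hk.sq, T _ _ hk.t dk, T _ _ hk.r dk,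
        T _ _ hk.c dk, T _ _ hk.z dk⟩ (T _ _ kf dk))

theorem main {t : G} (ht : orderOf t = 2) (P : P0 t) (hi : ¬ Cfsg.IsIsolatedInvolution t) :
    ¬ 2 ^ 11 ∣ Nat.card G ∨ (¬ 2 ^ 12 ∣ Nat.card G ∧ ∃ N : Subgroup G, N.index = 2) := by
  obtain ⟨C, g, h, -⟩ | ⟨C, g, h, -⟩ := red ht P hi
  · exact C.main1 h
  · exact .inl fun a => C.main0 h (by rw [Nat.card_prod]; exact a.mul_right _)

end Cfsg.Lib.H33
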