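import Cfsg.Agent.Lib.H33.Def
import Cfsg.Agent.Lib.Linear.AutType

/-! The 2-local data of `Aut(L₃(3))` (helper27). -/

set_option autoImplicit false

namespace Cfsg.Lib.H33

open Subgroup Matrix Cfsg.Lib.Linear Cfsg.Lib.Transfer
open scoped MatrixGroups

/-- `A = I ⟨φ⟩`, with `⟨a, r⟩` a semidihedral Sylow 2-subgroup of `I`. -/
structure Md (A : Type*) [Group A] (I : Subgroup A) where
  a : A
  r : A
  ρ : A
  σ : A
  φ : A
  aI : a ∈ I
  rI : r ∈ I
  ρI : ρ ∈ I
  σI : σ ∈ I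
  a8 : a ^ 8 = 1
  a4 : a ^ 4 ≠ 1
  r2 : r * r = 1
  ar : cg a r = a ^ 3
  f2 : φ * φ = 1
  fa : cg a φ = a ^ 5
  fr : cg r φ = r
  dec : ∀ α, α ∈ I ∨ α * φ ∈ I
  card : ¬ 32 ∣ Nat.card I
  r1 : cg φ ρ = φ
  r3 : cg (a ^ 4) ρ = r
  r4 : cg r ρ = a ^ 4 * r
  s1 : cg (φ * a ^ 2) σ = φ * a ^ 2
  s2 : cg (a ^ 2) σ = a * r
  s3 : cg (a * r) σ = a ^ 2 * (a * r)

theorem map_cg {G G' : Type*} [Group G] [Group G'] (f : G →* G') (x g : G) : f (cg x g) = cg (f x) (f g) := by simp [cg]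

theorem cg_of {G : Type*} [Group G] {x y g : G} (h : x * g = g * y) : cg x g = y := by
  rw [cg, mul_assoc, h, inv_mul_cancel_left]

namespace M3

abbrev S3 := SL(3, ZMod 3)

def a : S3 := ⟨!![1, 1, 0; 2, 1, 0; 0, 0, 2], by rw [det_fin_three]; decide⟩
def r : S3 := ⟨!![0, 1, 0; 1, 0, 0; 0, 0, 2], by rw [det_fin_three]; decide⟩
def w : S3 := ⟨!![2, 0, 0; 0, 2, 0; 0, 0, 1], by rw [det_fin_three]; decide⟩
def ρ : S3 := ⟨!![1, 2, 1; 1, 2, 2; 1, 1, 0], by rw [det_fin_three]; decide⟩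
def σ : S3 := ⟨!![1, 2, 0; 0, 1, 0; 0, 0, 1], by rw [det_fin_three]; decide⟩

def ι : S3 →* MulAut PSL(3, ZMod 3) := innDiag.comp SpecialLinearGroup.toGL

theorem gr {x y : S3} (h : y.1 * x.1ᵀ = 1) : graphAut * ι x = ι y * graphAut := by
  have : graphSL x = y := Subtype.ext (by
    rw [graphSL_coe, ← one_mul _ᵀ, ← h, mul_assoc, ← transpose_mul, show x⁻¹.1 * x.1 = 1 from congrArg Subtype.val (inv_mul_cancel x),
      transpose_one, mul_one])
  rw [← this]
  exact (graphAut_mul_innDiag _).trans (by rw [← toGL_graphSL]; rfl)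

theorem fix {x y u : S3} (h : y.1 * x.1ᵀ = 1) (e : u * y = x * u) : cg (ι u * graphAut) (ι x) = ι u * graphAut :=
  cg_of (by rw [mul_assoc, gr h, ← mul_assoc, ← map_mul, e, map_mul, mul_assoc])

theorem act {x y z u : S3} (h : y.1 * z.1ᵀ = 1) (e : x * u = u * y) : cg (ι x) (ι u * graphAut) = ι z :=
  cg_of (by rw [mul_assoc, gr h, ← mul_assoc, ← mul_assoc, ← map_mul, e, map_mul])

theorem inn : ι.range = Inn PSL(3, ZMod 3) := le_antisymm (fun _ ⟨x, e⟩ => ⟨x, (innDiag_toGL x).symm.trans e⟩) fun _ ⟨x, e⟩ => by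
  obtain ⟨x, rfl⟩ := QuotientGroup.mk_surjective x
  exact ⟨x, (innDiag_toGL x).trans e⟩

theorem cen {y : PSL(3, ZMod 3)} (e : MulAut.conj y = 1) : y = 1 := by
  obtain ⟨x, rfl⟩ := QuotientGroup.mk_surjective y
  exact (QuotientGroup.eq_one_iff x).2 (mem_center_iff.2 fun z => SpecialLinearGroup.toGL_injective (by
    simpa only [map_mul] using mem_center_iff.1 (ker_innDiag.le ((innDiag_toGL x).trans e)) _))

theorem md : Nonempty (Md _ (Inn PSL(3, ZMod 3))) := by
  have m : ∀ x, ι x ∈ Inn PSL(3, ZMod 3) := fun x => inn.le ⟨x, rfl⟩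
  have d : ∀ g, innDiag g ∈ Inn PSL(3, ZMod 3) := fun g => innDiag_mem_inn_iff.2 ⟨_, by
    rw [Fintype.card_fin, pow_succ, ZMod.units_pow_card_sub_one_eq_one 3, one_mul]⟩
  have u : ι w * graphAut * ι a ^ 2 = ι (w * (a ^ 5) ^ 2) * graphAut := by
    rw [← map_pow, mul_assoc, gr (y := (a ^ 5) ^ 2) (by decide +kernel), map_mul, mul_assoc]
  refine ⟨ι a, ι r, ι ρ, ι σ, ι w * graphAut, m _, m _, m _, m _, by rw [← map_pow, show a ^ 8 = 1 by decide +kernel, map_one],
    fun e => ?_, by rw [← map_mul, show r * r = 1 by decide +kernel, map_one],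
    by rw [← map_cg, ← map_pow, cg_of (y := a ^ 3) (by decide +kernel)],
    by rw [mul_assoc, ← mul_assoc graphAut, gr (y := w) (by decide +kernel), mul_assoc, graphAut_mul_self, mul_one, ← map_mul,
      show w * w = 1 by decide +kernel, map_one],
    by rw [← map_pow]; exact act (y := a) (by decide +kernel) (by decide +kernel), act (y := r) (by decide +kernel) (by decide +kernel),
    fun α => ?_, fun e => ?_, fix (y := w * ρ * w) (by decide +kernel) (by decide +kernel),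
    by rw [← map_pow, ← map_cg, cg_of (y := r) (by decide +kernel)],
    by rw [← map_pow, ← map_mul, ← map_cg, cg_of (y := a ^ 4 * r) (by decide +kernel)],
    by rw [u]; exact fix (y := SpecialLinearGroup.transpose (σ * σ)) (by decide +kernel) (by decide +kernel),
    by rw [← map_pow, ← map_mul, ← map_cg, cg_of (y := a * r) (by decide +kernel)],
    by rw [← map_pow, ← map_mul, ← map_mul, ← map_cg, cg_of (y := a ^ 2 * (a * r)) (by decide +kernel)]⟩
  · have := congrArg Units.val (mem_center_iff.1 (ker_innDiag.le ((map_pow ι a 4).trans e)) (SpecialLinearGroup.toGL ρ))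
    exact absurd this (by decide +kernel)
  · obtain ⟨g, s, e⟩ := aut_PSL_decomp (by decide) α
    rw [Subsingleton.elim s 1, map_one, mul_one] at e
    rcases e with rfl | ⟨-, rfl⟩
    · exact .inl (d g)
    right
    rw [mul_assoc, ← mul_assoc graphAut, gr (y := w) (by decide +kernel), mul_assoc, graphAut_mul_self, mul_one]
    exact mul_mem (d g) (m w)
  · have h := card_SL_mul (ι := Fin 3) (F := ZMod 3)
    rw [card_GL_field, ZMod.card] at h
    exact absurd ((Nat.mul_dvd_mul_left 2 (e.trans (inn ▸ card_range_dvd ι))).trans h.dvd) (by decide)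

end M3

end Cfsg.Lib.H33
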