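import Cfsg.Agent.Lib.H33.Pk1
import Cfsg.Agent.Lib.Inv.SylowTwo
import Cfsg.Agent.Lib.Comp.PComponent

/-! Lifting the 2-local data of `Aut(L₃(3))` along `π : H →* A` (helper27). -/

set_option autoImplicit false

namespace Cfsg.Lib.H33

open Subgroup Cfsg.Lib.Transfer
open scoped Cfsg.Lib.Transfer

variable {H A : Type*} [Group H] [Finite H] [Group A] [Finite A] {I : Subgroup A} {O S : Subgroup H} {x : H}

theorem pg_cons {n : ℕ} {g : A} {gs : List A} (h : IsPGroup 2 (gen gs)) (e : g ^ 2 ^ n = 1) (c : ∀ x ∈ gs, cg x g ∈ gen gs) :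
    IsPGroup 2 (gen (g :: gs)) :=
  (IsPGroup.to_sup_of_normal_right' (H := zpowers g) (by
    rintro ⟨_, k, rfl⟩
    exact ⟨n, Subtype.ext (show (g ^ k) ^ 2 ^ n = 1 by
      rw [← zpow_natCast, ← zpow_mul, mul_comm, zpow_mul, zpow_natCast, e, one_zpow])⟩) h
    (zpowers_le.2 (norm_gen c))).to_le (gen_le.2 fun _ m => (List.mem_cons.1 m).elim (fun p => p ▸ mem_sup_left (mem_zpowers _))
      fun p => mem_sup_right (mem_gen p))

theorem pg_one {n : ℕ} {g : A} (e : g ^ 2 ^ n = 1) : IsPGroup 2 (gen [g]) := pg_cons ((gen_nil (G := A)).symm ▸ IsPGroup.of_bot) e nofun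

theorem Md.pg (m : Md A I) : IsPGroup 2 (gen [m.φ, m.r, m.a]) :=
  pg_cons (n := 1) (pg_cons (n := 1) (pg_one (n := 3) m.a8) ((sq _).trans m.r2) (by
    simpa [m.ar] using pow_mem (mem_gen (.head _)) 3)) ((sq _).trans m.f2) (by
      simpa [m.fa, m.fr] using ⟨mem_gen (.head _), pow_mem (mem_gen (.tail _ (.head _))) 5⟩)

theorem Md.le (m : Md A I) : gen [m.a, m.r] ≤ gen [m.φ, m.r, m.a] := gen_le.2 fun _ h => mem_gen (by grind)

theorem Md.leI (m : Md A I) : gen [m.a, m.r] ≤ I := gen_le.2 (by simp [m.aI, m.rI])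

theorem Md.nc (m : Md A I) : m.a * m.r ≠ m.r * m.a := fun e => m.a4 (by
  have := (cg_eq_iff.2 e).symm.trans m.ar
  rw [pow_succ, right_eq_mul] at this
  rw [show 4 = 2 * 2 from rfl, pow_mul, this, one_pow])

theorem Md.syl (m : Md A I) : ¬ 2 ∣ (gen [m.a, m.r]).relIndex I := fun e => m.card (by
  obtain ⟨k, c⟩ := (m.pg.to_le m.le).exists_card_eq
  have := card_lt_of_lt (lt_of_le_of_ne (zpowers_le.2 (mem_gen (.head _) : m.a ∈ gen [m.a, m.r])) fun e => by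
    obtain ⟨k, p⟩ := e.ge (mem_gen (.tail _ (.head _)))
    exact m.nc (p ▸ (Commute.self_zpow _ k).eq))
  rw [Nat.card_zpowers, orderOf_eq_prime_pow (p := 2) (n := 2) m.a4 m.a8, c, Nat.pow_lt_pow_iff_right one_lt_two] at this
  rw [← card_mul_relIndex m.leI, c]
  exact mul_dvd_mul (pow_dvd_pow 2 this) e)

theorem one_odd (hS : IsPGroup 2 S) (o : Odd (Nat.card O)) (p : x ∈ S) (q : x ∈ O) : x = 1 :=
  let ⟨_, e⟩ := hS ⟨x, p⟩
  eq_one_of_pow_pow_eq_one_of_coprime (congrArg Subtype.val e) (subgroup_card_coprime_iff.1 (Nat.coprime_two_right.2 o) x q)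

theorem exists_cg_eq [O.Normal] (hS : IsPGroup 2 S) (o : Odd (Nat.card O)) (g : H) :
    ∃ k, ∀ x ∈ S, ∀ z ∈ S, cg x g * z⁻¹ ∈ O → cg x k = z := by
  obtain ⟨h, p, q⟩ := exists_conj_le_of_not_dvd_relIndex' (Q := g⁻¹ ⋆ S ⊓ (S ⊔ O)) (T := S) (fun e => o.not_two_dvd_nat
    (e.trans (Comp.relIndex_sup_dvd_card le_normalizer_of_normal))) (isPGroup_conj hS _).to_inf_left inf_le_right
  obtain ⟨s, hs, u, hu, rfl⟩ := exists_mul_of_mem_sup' le_normalizer_of_normal (sup_comm S O ▸ p)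
  refine ⟨g * u⁻¹, fun x hx z hz e => mul_inv_eq_one.1 (one_odd hS o (mul_mem ?_ (inv_mem hz)) ?_)⟩
  · have := cg_mem (conj_le_iff.1 q (cg x g) ⟨mem_conj.2 (by simpa [cg, mul_assoc]), by
      simpa using mul_mem (mem_sup_right e : _ ∈ S ⊔ O) (mem_sup_left hz)⟩) hs
    simpa [cg, mul_assoc] using this
  · have := mul_mem (mul_mem hu e) (‹O.Normal›.conj_mem _ (inv_mem hu) z)
    simpa [cg, mul_assoc] using this

theorem map_eq_of (π : H →* A) {M : Subgroup H} {E : Subgroup A} (h : ¬ 2 ∣ S.relIndex M) (hE : IsPGroup 2 E) (l : E ≤ M.map π)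
    (l' : S.map π ≤ E) : S.map π = E :=
  eq_of_not_dvd_relIndex_of_le (fun e => h (e.trans (relIndex_comap _ π M ▸ relIndex_dvd_of_le_left M (le_comap_map π S)))) hE l l'

theorem exists_map_eq (π : H →* A) {E : Subgroup A} (hE : IsPGroup 2 E) (l : E ≤ π.range) : ∃ T : Subgroup H, IsPGroup 2 T ∧ T.map π = E :=
  let ⟨T, _, p, q, r⟩ := exists_sylowIn_ge (H := E.comap π) (IsPGroup.of_bot (p := 2)) bot_le
  ⟨T, q, map_eq_of π r hE (map_comap_eq_self l).ge (map_le_iff_le_comap.2 p)⟩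

theorem P0.of (m : Md A I) (π : H →* A) (L : Subgroup H) [n : L.Normal] (hL : L.map π = I) (o : Odd (Nat.card ↥(L ⊓ π.ker)))
    (hc : ∀ P ≤ π.ker, IsPGroup 2 P → IsCyclic P) {t : H} (t2 : t * t = 1) (tc : ∀ h, cg t h = t) (tπ : π t = 1) : Nonempty (P0 t) := by
  have IR : I ≤ π.range := hL ▸ map_le_range π L
  obtain ⟨eps, φ, e1, e0, hφ, dec⟩ : ∃ (eps : Bool) (φ : A), (eps = true → φ = m.φ) ∧ (eps = false → φ = 1) ∧ φ ∈ π.range ∧
      ∀ h, π h ∈ I ∨ π h * φ ∈ I := by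
    by_cases e : m.φ ∈ π.range
    · exact ⟨true, _, fun _ => rfl, nofun, e, fun _ => m.dec _⟩
    · exact ⟨false, 1, nofun, fun _ => rfl, one_mem _, fun h => .inl ((m.dec _).resolve_right fun p =>
        e ((mul_mem_cancel_left (MonoidHom.mem_range.2 ⟨h, rfl⟩)).1 (IR p)))⟩
  have e2 : φ = m.φ ∨ φ = 1 := by cases eps; exacts [.inr (e0 rfl), .inl (e1 rfl)]
  have f2 : φ * φ = 1 := by rcases e2 with e | e <;> simp [e, m.f2]
  obtain ⟨T, hT, eT⟩ := exists_map_eq π (m.pg.to_inf_left (K := π.range)) inf_le_right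
  obtain ⟨S, TS, -, hS, iS⟩ := exists_sylowIn_ge hT le_top
  have l0 : gen [m.φ, m.r, m.a] ⊓ π.range ≤ S.map π := eT ▸ map_mono TS
  have k1 := eq_of_not_dvd_relIndex_of_le m.syl (hS.map π).to_inf_left inf_le_right
    (le_inf ((le_inf m.le (m.leI.trans IR)).trans l0) m.leI)
  have sy : ∀ (N : Subgroup H) [N.Normal], ¬ 2 ∣ (S ⊓ N).relIndex N := fun N _ =>
    inf_relIndex_right S N ▸ not_dvd_relIndex_of_le_normalizer iS le_top le_normalizer_of_normal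
  have k2 := map_eq_of π (sy L) (m.pg.to_le m.le) (hL ▸ m.leI) (k1 ▸ le_inf (map_mono inf_le_left) (hL ▸ map_mono inf_le_right))
  obtain ⟨a, aD, ea⟩ := mem_map.1 (k2.ge (mem_gen (.head _)))
  obtain ⟨r, rD, er⟩ := mem_map.1 (k2.ge (mem_gen (.tail _ (.head _))))
  have aS : a ∈ S := aD.1
  have rS : r ∈ S := rD.1
  obtain ⟨f, fS, ef, f1⟩ : ∃ f ∈ S, π f = φ ∧ (eps = false → f = 1) := by
    cases eps
    · exact ⟨1, one_mem _, (map_one π).trans (e0 rfl).symm, fun _ => rfl⟩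
    · obtain ⟨f, p, q⟩ := l0 ⟨e1 rfl ▸ mem_gen (.head _), hφ⟩
      exact ⟨f, p, q, nofun⟩
  have DS : gen [a, r] ≤ S ⊓ L := gen_le.2 (by simpa using ⟨aD, rD⟩)
  have k3 : ∀ x ∈ S, π x ∈ I → ∃ d ∈ gen [a, r], π d = π x := fun x p q =>
    (gen_le.2 (by simpa using ⟨⟨a, mem_gen (.head _), ea⟩, r, mem_gen (.tail _ (.head _)), er⟩) : _ ≤ (gen [a, r]).map π)
      (k1.ge ⟨mem_map_of_mem π p, q⟩)
  have eqv : ∀ {x y}, x ∈ S ⊓ L → y ∈ S ⊓ L → π x = π y → x = y := fun p q e => mul_inv_eq_one.1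
    (one_odd hS o (mul_mem p (inv_mem q)).1 ⟨(mul_mem p (inv_mem q)).2, by simp [e]⟩)
  have cL : ∀ {x} g, x ∈ L → cg x g ∈ L := fun g p => n.conj_mem' _ p g
  have cD : ∀ {x g}, x ∈ S ⊓ L → g ∈ S → cg x g ∈ S ⊓ L := fun p q => ⟨cg_mem p.1 q, cL _ p.2⟩
  have tS : t ∈ S := by
    obtain ⟨h, -, p⟩ := exists_conj_le_of_not_dvd_relIndex' (Q := gen [t]) iS
      (pg_one (n := 1) ((sq _).trans t2)) le_top
    simpa [← cg_eq_iff.1 (tc h)] using conj_le_iff.1 p t (mem_gen (.head _))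
  have ct : centralizer {t} = ⊤ := eq_top_iff.2 fun h _ => mem_centralizer_singleton_iff.2 (cg_eq_iff.1 (tc h)).symm
  have lift : ∀ y ∈ I, ∃ k, (∀ x ∈ S, cg (π x) y = π x → cg x k = x) ∧
      ∀ x ∈ S ⊓ L, ∀ z ∈ S ⊓ L, cg (π x) y = π z → cg x k = z := fun y p => by
    obtain ⟨g, q, rfl⟩ := hL.ge p
    obtain ⟨k, e⟩ := exists_cg_eq hS o g
    exact ⟨k, fun x p c => e x p x p ⟨by simpa [cg, mul_assoc] using mul_mem (inv_mem q) (n.conj_mem _ q x), by simp [map_cg, c]⟩,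
      fun x p z u c => e x p.1 z u.1 ⟨mul_mem (cL g p.2) (inv_mem u).2, by simp [map_cg, c]⟩⟩
  have dc : ∀ x ∈ S, π x ∈ I → ∃ q ∈ S ⊓ π.ker, ∃ d ∈ gen [a, r], x = q * d := fun x p q =>
    let ⟨d, u, e⟩ := k3 x p q
    ⟨x * d⁻¹, ⟨mul_mem p (inv_mem (DS u)).1, by simp [e]⟩, d, u, by simp⟩
  refine ⟨a, r, f, S ⊓ π.ker, S, eps, eqv (pow_mem aD 8) (one_mem _) (by simp [ea, m.a8]), fun e => m.a4 (by rw [← ea, ← map_pow, e, map_one]),
    eqv (mul_mem rD rD) (one_mem _) (by simp [er, m.r2]), eqv (cD aD rS) (pow_mem aD 3) (by simp [map_cg, ea, er, m.ar]),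
    hc _ inf_le_right hS.to_inf_left, ⟨tS, tπ⟩, fun q p => eqv (cD aD p.1) aD (by rw [map_cg, p.2, cg_one']),
    fun q p => eqv (cD rD p.1) rD (by rw [map_cg, p.2, cg_one']), fun q p u => eqv (DS u) (one_mem _) (p.2.trans (map_one π).symm),
    fun q p => ⟨cg_mem p.1 fS, show π _ = 1 by rw [map_cg, p.2, cg_one]⟩, ⟨mul_mem fS fS, by simp [ef, f2]⟩,
    fun e => eqv (cD aD fS) (pow_mem aD 5) (by simp [map_cg, ea, ef, e1 e, m.fa]),
    eqv (cD rD fS) rD (by rcases e2 with e | e <;> simp [map_cg, er, ef, e, m.fr]), f1, inf_le_left, aS, rS, fS, fun x p => ?_, hS,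
    ct.ge.trans' le_top, ct ▸ iS, fun h _ x p u => ?_, fun q p => ?_, fun e q p => ?_, ?_⟩
  · rcases dec x with e | e
    · obtain ⟨q, u, d, v, w⟩ := dc x p e
      exact ⟨q, u, d, v, .inl w⟩
    · obtain ⟨q, u, d, v, w⟩ := dc _ (mul_mem p (inv_mem fS)) (by rwa [map_mul, map_inv, ef, inv_eq_of_mul_eq_one_right f2])
      exact ⟨q, u, d, v, .inr (mul_inv_eq_iff_eq_mul.1 w)⟩
  · obtain ⟨K, hK⟩ : ∃ K, K = (pResidual 2 π.ker).map π.ker.subtype := ⟨_, rfl⟩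
    have : K.Normal := hK ▸ ConjAct.normal_of_characteristic_of_normal
    have oK : Odd (Nat.card K) := by
      obtain ⟨P, e⟩ := exists_sylow_of_not_dvd_relIndex hS.to_inf_left (sy π.ker)
      rw [hK, card_subtype]
      exact Nat.coprime_two_right.1 (hasNormalPComplement_iff_card_pResidual.1 (Inv.hasNormalPComplement_of_isCyclic P
        (e ▸ (subgroupOfEquivOfLe inf_le_right).isCyclic.2 (hc _ inf_le_right hS.to_inf_left))))
    obtain ⟨s, hs, e⟩ : ∃ s ∈ S, h * s⁻¹ ∈ L ⊔ K := by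
      obtain ⟨s, hs, e⟩ : ∃ s ∈ S, π (h * s) ∈ I := (dec h).elim (fun e => ⟨1, one_mem _, by simpa⟩) fun e => ⟨f, fS, by simpa [ef]⟩
      obtain ⟨l, hl, e⟩ := hL.ge e
      obtain ⟨q, v, k, w, e⟩ := exists_mul_pResidual inf_le_right (sy π.ker) (h := l⁻¹ * (h * s)) (by simp [e])
      refine ⟨q * s⁻¹, mul_mem v.1 (inv_mem hs), ?_⟩
      have := mul_mem_sup hl (this.conj_mem _ (hK ▸ w) q)
      rw [← e] at this
      simpa [mul_assoc] using this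
    have N : (L ⊔ K).Normal := inferInstance
    have c : (cg x s)⁻¹ * cg x h ∈ L ⊔ K := by
      simpa [cg, mul_assoc] using N.conj_mem' _ (mul_mem (N.conj_mem' _ (inv_mem e) x) e) s
    obtain ⟨l, hl, k, hk, c⟩ := mem_sup_of_normal_right.1 c
    have KC : K ≤ π.ker := hK ▸ map_subtype_le _
    have y := mul_mem (inv_mem (cg_mem p hs)) u
    have z : π (l * k) = π l := by rw [map_mul, KC hk, mul_one]
    rw [← c] at y
    obtain ⟨d, v, w⟩ := k3 _ y (z ▸ hL.le (mem_map_of_mem π hl))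
    refine ⟨s, hs, c ▸ inv_mul_eq_one.1 (one_odd hS oK (mul_mem (inv_mem (DS v)).1 y) ?_) ▸ v⟩
    have b : d⁻¹ * l ∈ π.ker := by simp [w, z]
    rw [← mul_assoc]
    exact mul_mem (hK ▸ mem_map_subtype_pResidual b (subgroup_card_coprime_iff.1 (Nat.coprime_two_right.2 o) _
      ⟨mul_mem (inv_mem (DS v)).2 hl, b⟩)) hk
  · obtain ⟨k, u, v⟩ := lift _ m.ρI
    exact ⟨k, tc k, u _ (mul_mem fS p.1) (by rw [map_mul, p.2, ef]; rcases e2 with e | e <;> simp [e, m.r1]),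
      v _ (pow_mem aD 4) _ rD (by simp [ea, er, m.r3]), v _ rD _ (mul_mem (pow_mem aD 4) rD) (by simp [ea, er, m.r4])⟩
  · obtain ⟨k, u, v⟩ := lift _ m.σI
    exact ⟨k, tc k, u _ (mul_mem (mul_mem fS p.1) (pow_mem aS 2)) (by rw [map_mul, map_mul, p.2, ef]; simp [ea, e1 e, m.s1]),
      v _ (pow_mem aD 2) _ (mul_mem aD rD) (by simp [ea, er, m.s2]),
      v _ (mul_mem aD rD) _ (mul_mem (pow_mem aD 2) (mul_mem aD rD)) (by simp [ea, er, m.s3])⟩
  · obtain ⟨k, -, v⟩ := lift _ m.σI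
    exact ⟨k, tc k, v _ (pow_mem aD 2) _ (mul_mem aD rD) (by simp [ea, er, m.s2]),
      v _ (mul_mem aD rD) _ (mul_mem (pow_mem aD 2) (mul_mem aD rD)) (by simp [ea, er, m.s3])⟩

end Cfsg.Lib.H33
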