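import Cfsg.Agent.Lib.H33.Pk2
import Cfsg.Agent.Lib.PGroup.AutGL
import Cfsg.Statements.S3139

/-! From a 2-component of type `L₃(3)` of `H = C(t)` to the local data `P0` (for S3139).

Plan. (1) `L ⊴ H`: an `H`-conjugate `L' ≠ L` is another 2-component, `[L, L'] ≤ O(L)` (Lib.Comp.PComponent), so a Sylow
2-subgroup of `L'` (semidihedral, not cyclic) acts trivially on `L / O(L)`, against `hc`.
(2) `π : H →* MulAut (PSL 3 F)` the action on `L / O(L)`, `C = ker π`; `π` maps `L` onto `Inn`, and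
`Aut = Inn ⟨graph⟩` (`Cfsg.Lib.Linear.aut_PSL_decomp`, `innDiag_mem_inn_iff`, `graphAut`, Lib.Linear.AutType; `F ≃+* ZMod 3`).
In the model `GL₂(3) ≤ SL₃(3)` (`g ↦ diag(g, det g)`): `a₀` of order 8, `r₀` a reflection, `u₀ = graph ∘ conj diag(J, 1)` acts on
`GL₂(3)` as `g ↦ det(g) g`, `φ₀ = u₀ a₀⁻²` (an involution, `a₀ ↦ a₀⁵`, `r₀ ↦ r₀`), `ρ₀ ∈ C(φ₀) ≅ S₄` permuting `a₀⁴, r₀, a₀⁴ r₀`
(replace `r₀` by `r₀^{a₀}` if needed), `σ₀ ∈ SL₂(3)` of order 3 (centralises `u₀ = φ₀ a₀²`).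
(3) `S` = a Sylow 2-subgroup of the preimage of `⟨a₀, r₀, φ₀⟩` (it is Sylow in `H` as `|Aut|₂ = 32`, or `16` for `Inn`) and maps
onto `⟨a₀, r₀, φ₀⟩ ∩ im π`; `Q = S ⊓ C` (cyclic by `hc`), `D = S ⊓ L` (`π` is injective on it since `C ⊓ L = O(L)` is odd),
`a, r ∈ D` the preimages, `[Q, D] ≤ C ⊓ L ⊓ S = 1`, `f ∈ S` a preimage of `φ₀` or `1`.
(4) `fus`: `C` has cyclic Sylow 2-subgroups, so `C = K Q` with `K = O(C)` a normal 2-complement (Burnside, `IsCyclic.isComplement'`),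
`Lo = L K ⊴ H`, `H = Lo S` and `Lo ⊓ S = D` (if `l k = d c` with `c ∈ Q` then `d⁻¹ l ∈ C ⊓ L = O(L) ≤ K`, so `c = 1`); for
`h = l s` we get `x^h ≡ x^s` modulo `Lo`.
(5) `rho`, `sig` by a Frattini argument modulo the odd normal subgroup `O(L)`: if `ρ' ∈ L` maps to `ρ₀` and `P = ⟨t, f q, a⁴, r⟩ ≤ S`
then `P^ρ' ≤ P O(L)` (for `x ∈ H`, `l ∈ L`, `[x, l] ∈ L` maps to `[π x, π l]`), so some `ρ = ρ' o` normalises `P`, and it acts on
`P ≅ P O(L) / O(L)` as `ρ'` does. -/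

set_option autoImplicit false

namespace Cfsg.Lib.H33

open Subgroup Cfsg.Lib.Transfer
open scoped Cfsg.Lib.Transfer MatrixGroups

theorem P0.map {G H : Type*} [Group G] [Group H] {t : H} (j : H →* G) (i : Function.Injective j) (R : centralizer {j t} = j.range)
    (T : centralizer {t} = ⊤) (d : P0 t) : Nonempty (P0 (j t)) := by
  have g : gen [j d.a, j d.r] = (gen [d.a, d.r]).map j := by rw [gen, gen, MonoidHom.map_closure]; congr; ext; simp [eq_comm]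
  have m : ∀ {x} {K : Subgroup _}, x ∈ K → j x ∈ K.map j := mem_map_of_mem j
  refine ⟨j d.a, j d.r, j d.f, d.Q.map j, d.S.map j, d.eps, by rw [← map_pow, d.a8, map_one], by simpa [← map_pow, map_eq_one_iff j i] using d.a4,
    by rw [← map_mul, d.r2, map_one], by rw [← map_cg, d.ar, map_pow], (d.Q.equivMapOfInjective j i).isCyclic.1 d.cyc, m d.tQ,
    fun _ ⟨q, p, c⟩ => by rw [← c, ← map_cg, d.Qa q p], fun _ ⟨q, p, c⟩ => by rw [← c, ← map_cg, d.Qr q p],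
    fun _ ⟨q, p, c⟩ u => by rw [← c, d.QD q p ((mem_map_iff_mem i).1 (c ▸ g ▸ u)), map_one],
    fun _ ⟨q, p, c⟩ => c ▸ map_cg j _ _ ▸ m (d.fQ q p), map_mul j _ _ ▸ m d.f2, fun p => by rw [← map_cg, d.fa p, map_pow],
    by rw [← map_cg, d.fr], fun p => by rw [d.f1 p, map_one], map_mono d.QS, m d.aS, m d.rS, m d.fS, fun _ ⟨x, p, c⟩ => ?_, d.pS.map j,
    R ▸ map_le_range _ _, ?_, fun h p _ ⟨x, q, c⟩ u => ?_, fun _ ⟨q, p, c⟩ => ?_, fun s _ ⟨q, p, c⟩ => ?_, ?_⟩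
  · obtain ⟨q, u, y, v, w⟩ := d.dec x p
    exact ⟨_, m u, _, g ▸ m v, c ▸ w.imp (fun w => by rw [w, map_mul]) fun w => by rw [w, map_mul, map_mul]⟩
  · rw [R, MonoidHom.range_eq_map, relIndex_map_map_of_injective _ _ i, ← T]
    exact d.syl
  · obtain ⟨h, rfl⟩ := R.le p
    rw [← c, ← map_cg, mem_map_iff_mem i] at u
    obtain ⟨s, v, w⟩ := d.fus h (T.ge trivial) x q u
    exact ⟨_, m v, by simpa only [g, c, map_mul, map_inv, map_cg] using m w⟩
  · obtain ⟨k, p⟩ := d.rho q p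
    exact ⟨j k, by simpa only [← i.eq_iff, c, map_mul, map_pow, map_cg] using p⟩
  · obtain ⟨k, p⟩ := d.sig s q p
    exact ⟨j k, by simpa only [← i.eq_iff, c, map_mul, map_pow, map_cg] using p⟩
  · obtain ⟨k, p⟩ := d.sig0
    exact ⟨j k, by simpa only [← i.eq_iff, map_mul, map_pow, map_cg] using p⟩

theorem pkg {G : Type*} [Group G] [Finite G]
    (t : G) (ht : orderOf t = 2) (L : Subgroup ↥(Subgroup.centralizer ({t} : Set G))) (hL : Cfsg.IsPComponent 2 L)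
    {F : Type*} [Field F] [Fintype F] (hF3 : Fintype.card F = 3)
    (hLX : Nonempty ((↥L ⧸ Cfsg.oddCore ↥L) ≃* Matrix.ProjectiveSpecialLinearGroup (Fin 3) F))
    (hc : ∀ P : Subgroup ↥(Subgroup.centralizer ({t} : Set G)), IsPGroup 2 ↥P →
      (∀ g ∈ P, ∀ l ∈ L, ∃ o ∈ Cfsg.oddCore ↥L, g * (l : ↥(Subgroup.centralizer ({t} : Set G))) * g⁻¹ = l * o) → IsCyclic ↥P) :
    Nonempty (P0 t) := by
  obtain ⟨e⟩ := hLX
  obtain ⟨m⟩ := M3.md
  replace e := e.trans (Linear.congrPSL (.refl _) (ZMod.ringEquivOfPrime F Nat.prime_three hF3).symm)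
  let f := e.toMonoidHom.comp (QuotientGroup.mk' _)
  have s : Function.Surjective f := e.surjective.comp (QuotientGroup.mk'_surjective _)
  have R : (MulAut.conj.comp f).range = Inn _ := by rw [MonoidHom.range_comp, MonoidHom.range_eq_top.2 s, ← MonoidHom.range_eq_map]
  have n : L.Normal := normal_iff_map_conj_eq.2 fun g => by
    by_contra ne
    obtain ⟨T, p, q⟩ := exists_map_eq _ (m.pg.to_le m.le) (m.leI.trans R.ge)
    have c := hc _ (isPGroup_conj (p.map L.subtype) g) fun x u l v => by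
      obtain ⟨o, w, r⟩ := (Comp.isPComponent_commutator_le_inf_of_ne hL (Comp.isPComponent_map_conj hL g) (Ne.symm ne)
        (commutator_mem_commutator (inv_mem v) (conj_mono g (map_subtype_le T) u))).1
      exact ⟨o, w, by rw [show (o : centralizer {t}) = _ from r, commutatorElement_def]; group⟩
    have := ((T.equivMapOfInjective _ L.subtype_injective).trans (conjEquiv g _)).isCyclic.2 c
    obtain ⟨a, u, ea⟩ := q.ge (mem_gen (.head _))
    obtain ⟨r, v, er⟩ := q.ge (mem_gen (.tail _ (.head _)))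
    exact m.nc (by rw [← ea, ← er, ← map_mul, ← map_mul, setLike_mul_comm (s := T) u v])
  obtain ⟨π, hπ⟩ := PGroup.exists_hom_aut_quotient L (oddCore L)
  let ψ := (MulAut.congr e).toMonoidHom.comp π
  have k : ∀ g (x : L), ψ g (f x) = f (MulAut.conjNormal g x) := fun g x => (by simp [ψ, f] : _ = e (π g x)).trans (congrArg e (hπ g x))
  have k0 : ∀ x, f x = 1 ↔ x ∈ oddCore L := fun x => e.map_eq_one_iff.trans (QuotientGroup.eq_one_iff x)
  have k1 : ∀ x : L, ψ x = MulAut.conj (f x) := fun x => MulEquiv.ext (s.forall.2 fun y => by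
    rw [k, MulAut.conj_apply, ← map_inv, ← map_mul, ← map_mul]; rfl)
  have t2 : t * t = 1 := by rw [← sq, ← ht, pow_orderOf_eq_one]
  have tc : ∀ h : centralizer {t}, cg ⟨t, mem_centralizer_singleton_iff.2 rfl⟩ h = ⟨t, mem_centralizer_singleton_iff.2 rfl⟩ :=
    fun h => cg_eq_iff.2 (Subtype.ext (mem_centralizer_singleton_iff.1 h.2).symm)
  refine (P0.of m ψ L ?_ ?_ (fun P l p => hc P p fun g u x v => ?_) (Subtype.ext t2) tc (MulEquiv.ext (s.forall.2 fun y => ?_))).elim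
    (P0.map _ (subtype_injective _) (range_subtype _).symm (eq_top_iff.2 fun h _ => mem_centralizer_singleton_iff.2 (cg_eq_iff.1 (tc h)).symm))
  · rw [← R]
    exact le_antisymm (fun _ ⟨x, p, q⟩ => ⟨⟨x, p⟩, (k1 _).symm.trans q⟩) fun _ ⟨x, q⟩ => ⟨x, x.2, (k1 x).trans q⟩
  · refine (Nat.coprime_two_right.1 (Core.pPrimeCore_coprime (p := 2) (G := L))).of_dvd_nat (card_subtype L _ ▸ card_dvd_of_le fun x p => ?_)
    exact ⟨⟨x, p.1⟩, (k0 _).1 (M3.cen ((k1 _).symm.trans p.2)), rfl⟩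
  · refine ⟨⟨x, v⟩⁻¹ * MulAut.conjNormal g ⟨x, v⟩, (k0 _).1 ?_, by simp⟩
    rw [map_mul, ← k, l u, map_inv, MulAut.one_apply, inv_mul_cancel]
  · rw [k]
    exact congrArg f (Subtype.ext (mul_inv_eq_iff_eq_mul.2 (cg_eq_iff.1 (tc y))))

end Cfsg.Lib.H33
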