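import Cfsg.Agent.Lib.H33.Z4b

/-! The case `U⁺` elementary abelian: the group `T = R⟨b⟩` (helper5). -/

set_option autoImplicit false
set_option synthInstance.maxSize 2048

namespace Cfsg.Lib.H33

open Cfsg.Lib.Calc Cfsg.Lib.Transfer Subgroup

namespace St4

variable {G : Type*} [Group G] [Finite G] {e : Bool} {C : Cfg0 G e} (X : St4 C false)

set_option hygiene false in
local notation "𝔰" => el (Cfg0.gs C)
set_option hygiene false in
local notation "𝔪" => Mp (Cfg0.pg C) (Cfg0.pg C)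
set_option hygiene false in
local notation "𝔯" => el (St4.gs X)
set_option hygiene false in
local notation "𝔫" => Mp (St4.pg X) (St4.pg X)
set_option hygiene false in
local notation "𝔑" m:max => normalizer (MS (St4.gs X) m : Set G)
set_option quotPrecheck false in
local notation "dk" => by clear_aux_decl; clear * -; decide +kernel +revert

theorem vok : ∀ m ∈ [0, 2, 123, 121, 120, 115, 104, 96], msOK (D4 false) 128 m := dk

/-- The elements normalising `R*` and trivial on `⟨r, s⟩` modulo `Z⁺`. -/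
def MV : Subgroup G := 𝔑 123 ⊓ rcK (MS X.gs 121) (MS X.gs 104)

theorem mv1 : ∀ a < 128, IM 123 a → ∀ b < 128, IM 123 b → (mul (D4 false) a b % 128) &&& 23 = (a &&& 23) ^^^ (b &&& 23) := dk

theorem MV.act {x : G} (h : x ∈ X.MV) {v : ℕ} (l : v < 128) (a : IM 121 v) : ∃ v' < 128, v' &&& 23 = v &&& 23 ∧ 𝔫 x v v' := by
  obtain ⟨ω, b, c, d⟩ := X.pg.ex_ms (vok 104 (by simp)) (h.2.2 _ (el_mem_ms a))
  refine ⟨_, Nat.mod_lt _ (by norm_num), (mv1 v l (IM.trans (by decide) a) ω b (IM.trans (by decide) c)).trans (by clear_aux_decl; clear * - l b c; decide +kernel +revert), ?_⟩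
  rw [Mp, el_modN X.pg, ← X.pg.mul, ← d, cm, mul_inv_cancel_left]

theorem MV.n {x : G} (h : x ∈ X.MV) {m : ℕ} (hm : m = 121 ∨ m = 120) : x ∈ 𝔑 m := X.pg.nm_ms fun i p q => by
  rcases hm with rfl | rfl
  all_goals
    obtain ⟨v, a, b, c⟩ := MV.act X h (v := 2 ^ i) (by clear_aux_decl; clear * - p q; decide +kernel +revert) (by clear_aux_decl; clear * - p q; decide +kernel +revert)
    exact c.mem (by clear_aux_decl; clear * - p q a b; decide +kernel +revert)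

theorem MV.el (x : ℕ) : 𝔯 x ∈ X.MV := (X.pg.gen_le_iff (H := X.MV)).2 (fun i p => ⟨X.pg.nm_el (by clear_aux_decl; clear * - p; decide +kernel +revert),
  X.pg.mem_rcK dk (X.pg.nm_el (by clear_aux_decl; clear * - p; decide +kernel +revert)) fun j q r => by rw [X.pg.cm, X.pg.mem_ms (vok _ (by simp))]; exact (by clear_aux_decl; clear * - p q r; decide +kernel +revert)⟩) (el_mem _ _)

theorem aM : 𝔰 1 ∈ normalizer (X.MV : Set G) := by
  rcases X.ak with h | h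
  · exact norm_inf (norm_norm X.aN) (norm_rcK (X.nm [(1, 16), (8, 8), (16, 33), (32, 32), (64, cond e 96 64)]
      (by simp [X.as, X.ar, X.az, X.af, h]) dk) (X.nm [(8, 8), (32, 32), (64, cond e 96 64)] (by simp [X.az, X.af, h]) dk))
  · exact norm_inf (norm_norm X.aN) (norm_rcK (X.nm [(1, 16), (8, 40), (16, 33), (32, 32), (64, cond e 96 64)]
      (by simp [X.as, X.ar, X.az, X.af, h]) dk) (X.nm [(8, 40), (32, 32), (64, cond e 96 64)] (by simp [X.az, X.af, h]) dk))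

theorem thV {y : ℕ} (l : y < 128) (a : y &&& 6 = 2) (c : IsConj (𝔯 2) (𝔯 y)) :
    ∃ v < 32, EQ 128 (cj (D4 false) y v) 2 ∧ y % 2 = 0 ∨ EQ 128 (cj (D4 false) y v) 3 ∧ y % 2 = 1 := by
  obtain ⟨g, hg⟩ := exists_cg c
  have p := Mp.sq (h := X.pg) (h' := X.pg) hg
  obtain ⟨u, lu, q⟩ : ∃ u < 5, IM 115 (cj (D4 false) y u % 128) := (by clear_aux_decl; clear * - l a p; decide +kernel +revert)
  have m := (Mp.self X.pg u y).r _ (Nat.mod_mod _ 128).symm
  have k := X.theta (Nat.mod_lt _ (by norm_num)) q (c.trans m.conj)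
  clear_aux_decl; clear * - l a p lu q k; revert u; revert y; decide +kernel

theorem MV.t {x : G} (h : x ∈ 𝔑 123) (h' : x ∈ 𝔑 121) : ∃ y < 128, y &&& 6 = 2 ∧ 𝔫 x 2 y := by
  obtain ⟨y, l, p, m⟩ := Mp.exm (h := X.pg) (vok 123 (by simp)) h 2
  have q : ¬ IM 121 (y % 128) := fun a => absurd ((m.im (vok _ (by simp)) h').2 a) (by decide)
  exact ⟨y, l, (by clear_aux_decl; clear * - l p q; decide +kernel +revert), m⟩

theorem cent {T : Subgroup G} (hT : IsPGroup 2 T) (a : gen X.gs ≤ T) (b : T ≤ X.MV) {y : G} (c : y ∈ T) (d : 𝔫 y 2 2) :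
    ∃ x < 128, IM 115 x ∧ y = 𝔯 x := X.sw' hT ((ms_le _ _).trans a) c d (m := 120) dk (MV.n X (b c) (.inr rfl))

theorem v1 : ∃ (T : Subgroup G) (a : G), IsPGroup 2 T ∧ gen X.gs ≤ T ∧ T ≤ X.MV ∧ a ∈ normalizer (T : Set G) ∧
    (𝔰 1)⁻¹ * a ∈ X.MV ∧ 𝔫 a 2 2 := by
  have RM : gen X.gs ≤ X.MV := fun x h => let ⟨y, _, e⟩ := X.pg.ex h; e ▸ MV.el X y
  obtain ⟨T, hT, a, b, c⟩ := syl_fr (M := X.MV) X.pg.pgroup (RM.trans le_normalizer)
  rw [sup_eq_left.2 RM] at b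
  obtain ⟨m, hm, d⟩ := c _ X.aM
  have N : 𝔰 1 * m ∈ normalizer (T : Set G) := mem_norm_of_cg fun x h => d x h (b h)
  obtain ⟨t1, l1, p1, m1⟩ := MV.t X hm.1 (MV.n X hm (.inl rfl))
  obtain ⟨s1, l2, p2, m2⟩ := MV.act X hm (v := 33) (by norm_num) (by decide)
  have bT := cg_mem_norm (a (el_mem _ 4)) N
  have m3 := (Mp.sf X.pg 4 2 18).cjg (X.at'.trans m1) (((X.at'.trans m1).mul (X.ar.trans m2)).l _)
  obtain ⟨v, -, ⟨q, -⟩ | ⟨q, q'⟩⟩ := X.thV l1 p1 m1.conj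
  · exact ⟨T, _, hT, a, b, mul_mem N (le_normalizer (a (el_mem _ v))), by simpa [mul_assoc] using mul_mem hm (MV.el X v),
      ((X.at'.trans m1).tr v).r _ q⟩
  have m4 := m3.r _ (Nat.mod_mod _ 128).symm
  have k := mv1 t1 l1 (by clear_aux_decl; clear * - l1 p1; decide +kernel +revert) s1 l2 (by clear_aux_decl; clear * - l2 p2; decide +kernel +revert)
  have l3 : mul (D4 false) t1 s1 % 128 < 128 := Nat.mod_lt _ (by norm_num)
  generalize mul (D4 false) t1 s1 % 128 = t2 at m4 k l3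
  rw [p2] at k
  obtain ⟨u, -, ⟨r, -⟩ | ⟨-, r⟩⟩ := X.thV l3 (by clear_aux_decl; clear * - l1 p1 l3 k; decide +kernel +revert) (m1.conj.trans m4.conj)
  · exact ⟨T, _, hT, a, b, mul_mem (mul_mem N (le_normalizer bT)) (le_normalizer (a (el_mem _ u))),
      by simpa [mul_assoc] using mul_mem (mul_mem hm (b bT)) (MV.el X u), (((X.at'.trans m1).trans m4).tr u).r _ r⟩
  · exact absurd r (by clear_aux_decl; clear * - l1 p1 q' l3 k; decide +kernel +revert)

theorem oddT {c : G} (hc : C.CT c) {m n : ℕ} (h : (c ^ m) ^ 2 ^ n = 1) : ∃ x < 128, IM 98 x ∧ c ^ m = 𝔯 x := by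
  have N : c ∈ normalizer (MS C.gs 62 : Set G) := C.nmT hc.1 hc.2.1 hc.2.2.1 hc.2.2.2.1 hc.2.2.2.2
  rcases C.sw (pg_sup (C.pg.pgroup.to_le (ms_le _ _)) h (pow_mem N m)) le_sup_left (mem_sup_right (mem_zpowers _))
    (hc.2.2.1.pow m) with p | p | p
  · obtain ⟨x, l, q, r⟩ := X.pg.ex_ms (vok 115 (by simp)) (X.msT ▸ p)
    have a := ((X.tr X.r X.r).1 (hc.1.pow m)).of_eq r
    have b := ((X.tr X.s X.s).1 ((hc.all C (x := 6) (by decide)).pow m)).of_eq r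
    exact ⟨x, l, (by clear_aux_decl; clear * - l q a b; decide +kernel +revert), r⟩
  · exact absurd ((hc.1.pow m).eq p rfl) (by decide)
  · exact absurd ((hc.1.pow m).eq p rfl) (by decide)

theorem aZ : 𝔰 1 ∈ 𝔑 104 := by
  rcases X.ak with h | h
  exacts [X.nm [(8, 8), (32, 32), (64, cond e 96 64)] (by simp [X.az, X.af, h]) dk,
    X.nm [(8, 40), (32, 32), (64, cond e 96 64)] (by simp [X.az, X.af, h]) dk]

theorem memT {x : ℕ} (h : IM 62 x) : 𝔰 x ∈ MS X.gs 115 := by rw [X.msT]; exact el_mem_ms h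

structure VD (T : Subgroup G) (d : G) : Prop where
  pT : IsPGroup 2 T
  RT : gen X.gs ≤ T
  TM : T ≤ X.MV
  dN : d ∈ normalizer (T : Set G)
  pP : IsPGroup 2 (T ⊔ zpowers d : Subgroup G)
  dM : (𝔰 1)⁻¹ * d ∈ X.MV
  ct : C.CT (d * (𝔰 1)⁻¹)

theorem v2 : ∃ T d, X.VD T d := by
  obtain ⟨T, a, hT, RT, TM, aN, aM, aT⟩ := X.v1
  obtain ⟨m, n, ⟨k, rfl⟩, hn⟩ := exists_odd_pow a
  have cM : 𝔰 1 * 𝔰 1 ∈ X.MV := by rw [C.pg.mul, (C.pg.eq _ 4).2 dk, ← X.lk' 4 49]; exact MV.el X _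
  have a3 : (𝔰 1)⁻¹ * a ^ (2 * k + 1) ∈ X.MV := by
    rw [pow_succ', pow_mul, ← mul_assoc]
    refine mul_mem aM (pow_mem ?_ _)
    simpa [cg, mul_assoc, sq] using mul_mem (mul_mem cM (cg_mem_norm aM X.aM)) aM
  have aT' := aT.pow (2 * k + 1)
  have aN' := pow_mem aN (2 * k + 1)
  generalize a ^ (2 * k + 1) = b at *
  have bR : b ∈ 𝔑 123 := by simpa using mul_mem X.aN a3.1
  have bS : b ∈ 𝔑 115 := X.pg.nm_rc (k := 2) (z := 0) (vok _ (by simp)) (vok _ (by simp)) (vok _ (by simp)) dk bR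
    (X.nm [(2, 2)] (by simp [aT']) dk) (PG.nm_zero _ _)
  rw [X.msT] at bS
  obtain ⟨y, ly, hy⟩ := C.nS ((X.tr X.t X.t).2 aT') fun x h => ms_le _ _ (cg_mem_norm (el_mem_ms h) bS)
  obtain ⟨s1, l1, p1, m1⟩ := MV.act X a3 (v := 33) (by norm_num) (by decide)
  have m2 : 𝔫 b 16 s1 := by simpa using X.ar.trans m1
  have y1 : IM 62 (mul (DS e) y 1 % 64) := by
    by_contra h
    obtain ⟨u, lu, pu, e⟩ := X.pg.ex_ms (vok 115 (by simp)) (X.memT (x := y) (by clear_aux_decl; clear * - ly h; decide +kernel +revert))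
    have := (m2.tr u).eq ((X.tr X.r X.r).1 (by rw [← e]; exact hy.1)) rfl
    clear_aux_decl; clear * - l1 p1 lu pu this; revert u; revert s1; decide +kernel
  have sT : 𝔰 y * 𝔰 1 ∈ T := by rw [C.pg.mul, ← el_modN C.pg]; exact RT (ms_le _ _ (X.memT y1))
  exact ⟨T, b * (𝔰 y * 𝔰 1), hT, RT, TM, mul_mem aN' (le_normalizer sT), (pg_sup hT hn aN').to_le (sup_le le_sup_left
    (zpowers_le.2 (mul_mem (mem_sup_right (mem_zpowers _)) (mem_sup_left sT)))), by simpa [mul_assoc] using mul_mem a3 (TM sT),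
    by simpa [mul_assoc] using hy⟩

variable {X} {T : Subgroup G} {d : G}

theorem VD.act (h : X.VD T d) (x : ℕ) (p : IM 62 x := by decide) : 𝔪 d x (cj (DS e) x 1) := by simpa using (h.ct.all C p).tr 1

theorem VD.times (h : X.VD T d) (x : ℕ) (l : x < 64) (p : IM 56 x) : X.VD T (d * 𝔰 x) := by
  have sT := h.RT (ms_le _ _ (X.memT (IM.trans (by decide) p)))
  have k : ∀ y < 64, IM 62 y → 𝔪 (d * 𝔰 x * (𝔰 1)⁻¹) y y := fun y a b =>
    (((h.act y b).tr x).r (cj (DS e) y 1) (by clear_aux_decl; clear * - l p a b; decide +kernel +revert)).trans (Mp.self C.pg 1 y).symm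
  exact ⟨h.pT, h.RT, h.TM, mul_mem h.dN (le_normalizer sT), h.pP.to_le (sup_le le_sup_left
    (zpowers_le.2 (mul_mem (mem_sup_right (mem_zpowers _)) (mem_sup_left sT)))), by simpa [mul_assoc] using mul_mem h.dM (h.TM sT),
    k _ (by norm_num) (by decide), k _ (by norm_num) (by decide), k _ (by norm_num) (by decide), k _ (by norm_num) (by decide),
    k _ (by norm_num) (by decide)⟩

theorem VD.sq (h : X.VD T d) : d * d = 𝔰 4 ∨ d * d = 𝔰 36 := by
  have ST : MS C.gs 62 ≤ T ⊔ zpowers d := by rw [← X.msT]; exact ((ms_le _ _).trans h.RT).trans le_sup_left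
  have hP : d ∈ T ⊔ zpowers d := mem_sup_right (mem_zpowers _)
  have dt := (h.act 8).r 8
  have d2 := ((h.act 2).r 38).trans ((h.act 38).r 34)
  have d3 := ((h.act 6).r 2).trans ((h.act 2).r 38)
  obtain ⟨q, lq, pq, eq⟩ : ∃ x < 64, IM 62 x ∧ d * d = 𝔰 x := by
    rcases C.sw h.pP ST (mul_mem hP hP) (dt.trans dt) with h | h | h
    exacts [C.pg.ex_ms Cfg0.okT h, absurd (d2.eq h rfl) (by decide), absurd (d2.eq h rfl) (by decide)]
  obtain ⟨x, xt, hx⟩ := C.into _ (h.pP.to_le (inf_le_left : _ ⊓ centralizer {𝔰 8} ≤ _)) fun y h => mem_cent.1 h.2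
  obtain ⟨w, lw, hw⟩ := C.pg.ex (hx d ⟨hP, mem_cent.2 dt⟩)
  have := C.fus xt (show 𝔪 x q (mul (DS e) w w % 64) by rw [Mp, ← eq, cg_mul, hw, C.pg.mul, el_modN C.pg])
  rw [show mul (DS e) w w % 64 / 8 % 4 = 0 from (by clear_aux_decl; clear * - lw; decide +kernel +revert)] at this
  have p2 := d2.of_eq eq
  have p3 := d3.of_eq eq
  obtain rfl | rfl : q = 4 ∨ q = 36 := (by clear_aux_decl; clear * - lq pq this p2 p3; decide +kernel +revert)
  exacts [.inl eq, .inr eq]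

theorem VD.y (h : X.VD T d) : 𝔫 d 8 8 ∨ 𝔫 d 8 40 := by
  have cZ : d * (𝔰 1)⁻¹ ∈ 𝔑 104 := by simpa [mul_assoc] using mul_mem (mul_mem X.aZ h.dM.2.1) (inv_mem X.aZ)
  obtain ⟨y1, l, p, m⟩ := Mp.exm (h := X.pg) (vok 104 (by simp)) cZ 8
  have cz := (X.tr X.z X.z).1 h.ct.2.2.2.2
  have cf := (X.tr X.f X.f).1 h.ct.2.2.2.1
  have n1 := m.ne .zero
  have n2 := m.ne cz
  have n3 := m.ne cf
  have n4 := m.ne (cz.mul cf)
  have m' : 𝔫 (d * (𝔰 1)⁻¹) y1 8 := by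
    obtain rfl | rfl | rfl | rfl : y1 = 8 ∨ y1 = 40 ∨ y1 = 72 ∨ y1 = 104 := (by clear_aux_decl; clear * - l p n1 n2 n3 n4; decide +kernel +revert)
    exacts [m, (m.mul cz).cast _ _, (m.mul cf).cast _ _, ((m.mul cf).mul cz).cast _ _]
  obtain ⟨k, n, hk, hn⟩ := exists_odd_pow (d * (𝔰 1)⁻¹)
  obtain ⟨x, lx, px, e⟩ := X.oddT h.ct hn
  have q := (m.odd m' hk).of_eq e
  obtain rfl | rfl : y1 = 8 ∨ y1 = 40 := (by clear_aux_decl; clear * - l lx px q; decide +kernel +revert)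
  · simpa using X.ak.imp m.trans m.trans
  · simpa using X.ak.symm.imp (fun a => m.trans ((a.mul X.az).cast _ 8)) fun a => m.trans ((a.mul X.az).cast _ 40)

theorem v3 (X : St4 C false) : ∃ T d, X.VD T d ∧ d * d = 𝔰 4 ∧ 𝔫 d 8 8 := by
  obtain ⟨T, d, h⟩ := X.v2
  wlog hy : 𝔫 d 8 8 generalizing d
  · exact this _ (h.times 8 (by norm_num) (by decide)) (X.t ▸ ((h.y.resolve_left hy).tr 2).r _)
  rcases h.sq with q | q
  · exact ⟨T, d, h, q, hy⟩
  cases e
  · have r : cg d (𝔰 2) = d⁻¹ := by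
      rw [((h.act 2).r 38).swap 4, eq_inv_iff_mul_eq_one, mul_assoc, cg_eq_iff.1 ((h.act 4).r 4).e, ← mul_assoc, q, C.pg.mul,
        C.pg.one]
      exact dk
    have := C.noD16 rfl h.pP (.refl _) (mem_sup_right (mem_zpowers d)) (mem_sup_left (h.RT (ms_le _ _ (X.memT (x := 2)
      (by decide))))) ((h.act 8).r 8).e (Mp.sf C.pg 2 8 8).e r
    rw [q, C.pg.mul, C.pg.one] at this
    exact absurd this dk
  · refine ⟨T, _, h.times 16 (by norm_num) (by decide), ?_, X.f ▸ (hy.tr 64).r _⟩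
    have : d * 𝔰 16 * (d * 𝔰 16) = d * d * cg (𝔰 16) d * 𝔰 16 := by simp [cg, mul_assoc]
    rw [this, q, (h.act 16).e, C.pg.mul, C.pg.mul, C.pg.eq]
    exact dk

end St4

end Cfsg.Lib.H33
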