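import Cfsg.Agent.Lib.H33.Va

/-! The case `U⁺` elementary abelian: the group of order `2⁹` (helper5).
Codes: `a = 1, β = b v = 2, s = 4, t = 8, v = 16, y = 32, r = 64, z = 128, f = 256`. -/

set_option autoImplicit false
set_option synthInstance.maxSize 2048

namespace Cfsg.Lib.H33

open Cfsg.Lib.Calc Cfsg.Lib.Transfer Subgroup

namespace St4

variable {G : Type*} [Group G] [Finite G] {e : Bool} {C : Cfg0 G e} (X : St4 C false)

set_option hygiene false in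
local notation "𝔰" => el (Cfg0.gs C)
set_option hygiene false in
local notation "𝔪" => Mp (Cfg0.pg C) (Cfg0.pg C)
set_option hygiene false in
local notation "𝔯" => el (St4.gs X)
set_option hygiene false in
local notation "𝔫" => Mp (St4.pg X) (St4.pg X)
set_option hygiene false in
local notation "𝔑" m:max => normalizer (MS (St4.gs X) m : Set G)
set_option quotPrecheck false in
local notation "dk" => by clear_aux_decl; clear * -; decide +kernel +revert

def _root_.Cfsg.Lib.H33.D5 (e l : Bool) : Dat := (98, [cond l 65 1, 32, 4, 9, 16, 66, 64, cond e 192 128]) ::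
  (cond l 40 8, [9, 27, cond l 44 12, 8, 24, 32, 64]) :: D4 false

structure _root_.Cfsg.Lib.H33.St5 (C : Cfg0 G e) (l : Bool) where
  gs : List G
  pg : PG gs (D5 e l) 512
  t : el gs 8 = el C.gs 8
  f : el gs 256 = el C.gs 16
  n2 : ¬ IsConj (el gs 8) (el gs 264)
  chi : ∃ K : Subgroup G, (∀ x y, cm x y ∈ K) ∧ (e = false → el gs 256 ∉ K)
  X : St4 C false
  lk : ∀ x < 128, el gs (4 * x) = el X.gs x
  ct : C.CT (el gs 1 * (el C.gs 1)⁻¹)

set_option maxHeartbeats 1000000 in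
theorem st5 (X : St4 C false) : ∃ l, Nonempty (St5 C l) := by
  obtain ⟨T, d, h, d2, dy⟩ := X.v3
  obtain ⟨K, K1, -, K3⟩ := X.chi
  have ds : 𝔫 d 1 16 := (X.tr X.s X.r).1 ((h.act 6).r _)
  have dr : 𝔫 d 16 33 := (X.tr X.r (X.lk' 38 33)).1 ((h.act 2).r _)
  have dt : 𝔫 d 2 2 := (X.tr X.t X.t).1 ((h.act 8).r _)
  have dz : 𝔫 d 32 32 := (X.tr X.z X.z).1 ((h.act 32).r _)
  have df : 𝔫 d 64 (cond e 96 64) := (X.tr X.f (X.lk' (cond e 48 16) (cond e 96 64))).1 ((h.act 16).r _)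
  rw [← X.lk' 4 49] at d2
  have bT := cg_mem_norm (h.RT (el_mem _ 4)) h.dN
  have b2 : cg (𝔯 4) d * cg (𝔯 4) d = 1 := by rw [← cg_mul, X.pg.mul, (X.pg.eq _ 0).2 dk, el_zero, cg_one]
  have bz := (Mp.sf X.pg 4 32 32).cjg dz dz
  have by' := (Mp.sf X.pg 4 8 8).cjg dy dy
  have bs := (((Mp.sf X.pg 4 16 16).cjg dr dr).mul bz).cast 1 1
  have bf : 𝔫 (cg (𝔯 4) d) 64 64 := by
    have := (Mp.sf X.pg 4 64 64).cjg df df
    cases e
    exacts [this, (this.mul bz).cast _ _]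
  have bt := (Mp.sf X.pg 4 2 18).cjg dt ((dt.mul dr).cast _ 35)
  have br := (Mp.sf X.pg 4 1 9).cjg ds ((ds.mul dy).cast _ 24)
  have bd : cg (cg (𝔯 4) d) d = 𝔯 12 := by rw [cg_cg, d2, X.pg.cg, X.pg.eq]; exact dk
  generalize hb : cg (𝔯 4) d = b at *
  have H : ∀ x < 128, IM 123 x → 𝔫 b x (hm (mul (D4 false)) [1, 35, 8, 24, 32, 64] (x % 4 + x / 8 * 4) % 128) := fun x a p =>
    (Mp.hom (.cons bs (.cons bt (.cons by' (.cons br (.cons bz (.cons bf .nil)))))) _).cast _ _ ⟨(by clear_aux_decl; clear * - a p; decide +kernel +revert), (Nat.mod_mod _ _).symm⟩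
  have pe : cm (𝔯 4) b * 𝔯 8 = 𝔯 4 * b * 𝔯 4 * b * 𝔯 8 := by
    rw [cm, cg, inv_eq_of_mul_eq_one_right b2, X.pg.inv, (X.pg.eq (inv _ _) 4).2 dk]; simp only [mul_assoc]
  have P : ∀ x y u w, EQ 128 (cj (D4 false) x 4) y ∧ y < 128 ∧ IM 123 y ∧
      EQ 128 (cj (D4 false) (hm (mul (D4 false)) [1, 35, 8, 24, 32, 64] (y % 4 + y / 8 * 4) % 128) 4) u ∧ u < 128 ∧ IM 123 u ∧
      EQ 128 (cj (D4 false) (hm (mul (D4 false)) [1, 35, 8, 24, 32, 64] (u % 4 + u / 8 * 4) % 128) 8) w →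
      𝔫 (cm (𝔯 4) b * 𝔯 8) x w := fun x y u w a => by
    rw [pe]
    exact ((((((Mp.sf X.pg 4 x y a.1).trans (H y a.2.1 a.2.2.1)).tr 4).r _ a.2.2.2.1).trans (H u a.2.2.2.2.1 a.2.2.2.2.2.1)).tr 8).r _
      a.2.2.2.2.2.2
  obtain ⟨x, lx, px, ex⟩ := X.cent h.pT h.RT h.TM (mul_mem (cm_mem (h.RT (el_mem _ 4)) bT) (h.RT (el_mem _ 8))) (P 2 18 3 2 dk)
  have q1 := (P 16 16 24 16 dk).of_eq ex
  have q2 := (P 1 9 1 1 dk).of_eq ex
  have q3 := (P 8 8 8 8 dk).of_eq ex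
  have vb : cg (𝔯 4) b = 𝔯 (12 + x) := by
    rw [← (X.pg.eq (mul (D4 false) (mul (D4 false) 4 x) (inv (D4 false) 8)) (12 + x)).2 (by clear_aux_decl; clear * - lx px q1 q2 q3; decide +kernel +revert), ← X.pg.mul, ← X.pg.mul,
      ← X.pg.inv, ← ex]
    simp [cm, mul_assoc]
  obtain ⟨l, rfl⟩ : ∃ l : Bool, x = cond l 32 0 := by
    have p1 := (K3 x).1 (by rw [← ex]; exact mul_mem (K1 _ _) ((K3 8).2 (.inr rfl)))
    obtain rfl | rfl | ⟨rfl, h'⟩ : x = 0 ∨ x = 32 ∨ (e = true ∧ (x = 64 ∨ x = 96)) := (by clear_aux_decl; clear * - lx px q1 q2 q3 p1; decide +kernel +revert)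
    · exact ⟨false, rfl⟩
    · exact ⟨true, rfl⟩
    exfalso
    have m1 : 𝔫 d x (x ^^^ 32) := by
      rcases h' with rfl | rfl
      exacts [df, (df.mul dz).cast _ _]
    have e1 := congrArg (cg · d) ex
    simp only [cg_mul, cg_cm, hb, bd, dy.e, m1.e] at e1
    have e2 : cm b (𝔯 12) = (cm (𝔯 4) b)⁻¹ := by
      rw [← (X.pg.eq (mul (D4 false) 4 8) 12).2 dk, ← X.pg.mul, cm_mul_right, cm_eq_one.2 (cg_comm by'.e), one_mul,
        show cm b (𝔯 4) = (cm (𝔯 4) b)⁻¹ by simp [cm, cg, mul_assoc], eq_mul_inv_of_mul_eq ex, X.pg.inv, X.pg.mul, X.pg.inv,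
        X.pg.cg, X.pg.eq]
      rcases h' with rfl | rfl <;> exact dk
    rw [e2, eq_mul_inv_of_mul_eq ex, X.pg.inv, X.pg.mul, X.pg.inv, X.pg.mul, X.pg.eq] at e1
    rcases h' with rfl | rfl <;> exact absurd e1 dk
  obtain ⟨g1, h1, e0, E1⟩ := X.pg.cons' (g := b) (fun a => by
      obtain ⟨x, l, rfl⟩ := X.pg.ex a
      exact absurd bt.of_el (by clear_aux_decl; clear * - l; decide +kernel +revert)) (p := 0) (cs := [1, 35, cond l 44 12, 8, 24, 32, 64]) (by rw [b2, el_zero])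
    (X.pg.fa _ (by simp) fun i a => by
      simp only [List.length] at a
      interval_cases i
      exacts [bs, bt, vb.trans (by cases l <;> rfl), by', br, bz, bf])
  have L : ∀ {x y}, 𝔫 d x y → Mp h1 h1 d (2 * x) (2 * y) := fun a => by rw [Mp, ← E1, ← E1]; exact a
  obtain ⟨g2, h2, e2, E2⟩ := h1.cons' (g := d) (fun a => by
      obtain ⟨x, l, rfl⟩ := h1.ex a
      exact absurd (L dr).of_el (by clear_aux_decl; clear * - l; decide +kernel +revert)) (p := 98) (cs := [24, 32, 4, 1, 16, 66, 64, cond e 192 128]) (by rw [d2, E1])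
    (h1.fa _ (by simp) fun i a => by
      simp only [List.length] at a
      interval_cases i
      exacts [(congrArg (cg · d) e0.symm).trans (bd.trans (E1 12)), L ds, L dt, ((congrArg (cg · d) (E1 4).symm).trans hb).trans e0,
        L dy, L dr, L dz, (L df).e.trans (by cases e <;> rfl)])
  obtain ⟨g3, h3, E3⟩ := h2.sub' [1, 18, 4, 8, 16, 32, 64, 128, 256] (D5 e l) 512 dk
  have V : ∀ x y, EQ (2 * (2 * 128)) (hm (mul ((98, [24, 32, 4, 1, 16, 66, 64, cond e 192 128]) ::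
      (0, [1, 35, cond l 44 12, 8, 24, 32, 64]) :: D4 false)) [1, 18, 4, 8, 16, 32, 64, 128, 256] x) (2 * (2 * y)) →
      el g3 x = 𝔯 y := fun x y a => by rw [E3, E1, E2, h2.eq]; exact a
  refine ⟨l, g3, h3, (V 8 2 dk).trans X.t, (V 256 64 dk).trans X.f, ?_, ⟨K, K1, fun he => ?_⟩, X,
    fun x p => V _ _ (by clear_aux_decl; clear * - p; decide +kernel +revert), by rw [E3, (h2.eq _ 1).2 dk, ← e2]; exact h.ct⟩
  · rw [V 8 2 dk, V 264 66 dk, X.t, X.lk' 24 66]; exact X.n2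
  · rw [V 256 64 dk, K3]; simp [he]

end St4

end Cfsg.Lib.H33
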