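import Cfsg.Agent.Lib.H33.C4c

/-! The case `U⁺ = Z₄ × Z₄ × ⟨f⟩`, first part (helper5). -/

set_option autoImplicit false
set_option synthInstance.maxSize 2048

namespace Cfsg.Lib.H33

open Cfsg.Lib.Calc Cfsg.Lib.Transfer Subgroup

namespace St4

variable {G : Type*} [Group G] [Finite G] {e : Bool} {C : Cfg0 G e} (X : St4 C true)

set_option hygiene false in
local notation "𝔰" => el (Cfg0.gs C)
set_option hygiene false in
local notation "𝔪" => Mp (Cfg0.pg C) (Cfg0.pg C)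
set_option hygiene false in
local notation "𝔯" => el (St4.gs X)
set_option hygiene false in
local notation "𝔫" => Mp (St4.pg X) (St4.pg X)
set_option hygiene false in
local notation "𝔑" m:max => normalizer (MS (St4.gs X) m : Set G)
set_option quotPrecheck false in
local notation "dk" => by clear_aux_decl; clear * -; decide +kernel +revert

theorem zok : ∀ m ∈ [0, 127, 56, 124, 112, 126, 48, 120, 96, 32, 122, 123, 114], msOK (D4 true) 128 m := dk

theorem z0 {w : G} (hw : w ∈ normalizer (gen X.gs : Set G)) : w ∈ 𝔑 124 ∧ w ∈ 𝔑 112 ∧ w ∈ 𝔑 126 ∧ w ∈ 𝔑 48 ∧ w ∈ 𝔑 120 ∧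
    w ∈ 𝔑 96 ∧ w ∈ 𝔑 32 ∧ w ∈ 𝔑 122 := by
  replace hw : w ∈ 𝔑 127 := by rw [← X.pg.ms_top] at hw; exact hw
  have h0 := PG.nm_zero X.gs w
  have h1 : w ∈ 𝔑 56 := X.pg.nm_cm (fun i => if i = 3 then (12, 3, 0) else if i = 4 then (4, 2, 0) else (8, 2, 0))
    (zok _ (by simp)) dk hw hw h0
  have h2 : w ∈ 𝔑 124 := X.pg.nm_rc (zok _ (by simp)) (zok _ (by simp)) (zok _ (by simp)) dk hw h1 h0
  have h3 : w ∈ 𝔑 112 := X.pg.nm_om (zok _ (by simp)) (zok _ (by simp)) dk h2 h0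
  have h4 : w ∈ 𝔑 48 := X.pg.nm_inf (k := 56) (l := 112) (zok _ (by simp)) (zok _ (by simp)) h1 h3
  have h5 : w ∈ 𝔑 96 := X.pg.nm_rc (zok _ (by simp)) (zok _ (by simp)) (zok _ (by simp)) dk hw hw h0
  exact ⟨h2, h3, X.pg.nm_rc (zok _ (by simp)) (zok _ (by simp)) (zok _ (by simp)) dk hw h3 h0, h4, X.pg.nm_sup (k := 56) (l := 112) h1 h3, h5,
    X.pg.nm_inf (k := 56) (l := 96) (zok _ (by simp)) (zok _ (by simp)) h1 h5,
    X.pg.nm_rc (zok _ (by simp)) (zok _ (by simp)) (zok _ (by simp)) dk hw hw h4⟩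

theorem fixz {w : G} (hw : w ∈ 𝔑 32) : 𝔫 w 32 32 := by
  obtain ⟨y, l, p, m⟩ := Mp.exm (h := X.pg) (zok 32 (by simp)) hw 32
  have q := m.ne .zero
  exact m.r _ (by clear_aux_decl; clear * - l p q; decide +kernel +revert)

/-- The element `(a u)³`. -/
theorem w0 : ∃ w ∈ 𝔑 123, (∃ y < 128, y % 32 = 10 ∧ 𝔫 w 2 y) ∧ (∃ y < 128, y % 32 = 16 ∧ 𝔫 w 16 y) ∧ 𝔫 w 32 32 ∧
    𝔫 w 64 (cond e 96 64) := by
  have n : 𝔰 1 * 𝔯 4 ∈ 𝔑 123 := mul_mem X.aN (X.pg.nm_el dk)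
  obtain ⟨k1, hk, a⟩ : ∃ k1, (k1 = 8 ∨ k1 = 40) ∧ 𝔫 (𝔰 1) 8 k1 := X.ak.elim (fun h => ⟨_, .inl rfl, h⟩) fun h => ⟨_, .inr rfl, h⟩
  have H := fun i => (Mp.hom (.cons X.as (.cons X.at' (.cons a (.cons X.ar (.cons X.az (.cons X.af .nil)))))) i).tr 4
  have H' : ∀ x < 128, IM 123 x → 𝔫 (𝔰 1 * 𝔯 4) x
      (cj (D4 true) (hm (mul (D4 true)) [16, 2, k1, 33, 32, cond e 96 64] (x % 4 + x / 8 * 4)) 4 % 128) := fun x a b =>
    (H (x % 4 + x / 8 * 4)).cast _ _ ⟨(by clear_aux_decl; clear * - a b; decide +kernel +revert), (Nat.mod_mod _ _).symm⟩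
  have L : ∀ x, x % 128 < 128 := fun x => Nat.mod_lt _ (by norm_num)
  have H3 := fun x a b c d => ((H' x a b).trans (H' _ (L _) c)).trans (H' _ (L _) d)
  rcases hk with rfl | rfl
  all_goals exact ⟨_, mul_mem (mul_mem n n) n, ⟨_, L _, dk, H3 2 (by norm_num) dk dk dk⟩,
    ⟨_, L _, dk, H3 16 (by norm_num) dk dk dk⟩, (H3 32 (by norm_num) dk dk dk).r _, (H3 64 (by norm_num) dk dk dk).r _⟩

theorem z1 {w : G} (hw : w ∈ normalizer (gen X.gs : Set G)) (h1 : w ∉ gen X.gs) (h2 : w * w ∈ gen X.gs) :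
    ∃ y, 𝔫 (w * 𝔯 y) 16 16 ∧ 𝔫 (w * 𝔯 y) 64 (cond e 96 64) ∧ ∃ t1 < 128, t1 % 16 = 10 ∧ 𝔫 (w * 𝔯 y) 2 t1 := by
  have N := fun y => X.z0 (mul_mem hw (le_normalizer (el_mem X.gs y)))
  obtain ⟨a1, a2, a3, a4, a5, a6, a7, a8⟩ := X.z0 hw
  have P := pg_sup' X.pg.pgroup h2 hw
  obtain ⟨t1, l1, p1, m1⟩ := Mp.exm (h := X.pg) (zok 122 (by simp)) a8 2
  have p2 : ¬ IM 124 (t1 % 128) := fun h => absurd ((m1.im (zok _ (by simp)) a1).2 h) (by decide)
  have p3 : ¬ IM 114 t1 := fun h => by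
    have q := X.theta l1 (IM.trans (by decide) h) m1.conj
    obtain ⟨y, -, q'⟩ : ∃ y < 128, EQ 128 (cj (D4 true) t1 y) 2 := (by clear_aux_decl; clear * - l1 h q; decide +kernel +revert)
    obtain ⟨x, -, -, e⟩ := X.sw' P ((ms_le _ _).trans le_sup_left) (mul_mem (mem_sup_right (mem_zpowers w))
      (mem_sup_left (el_mem _ y))) ((m1.tr y).r _ q') (m := 124) dk (N y).1
    exact h1 ((Subgroup.mul_mem_cancel_right _ (el_mem X.gs y)).1 (e ▸ el_mem X.gs x))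
  obtain ⟨r1, l2, p4, m2⟩ := Mp.exm (h := X.pg) (zok 48 (by simp)) a4 16
  have p5 := m2.ne .zero
  have p6 := m2.ne (X.fixz a7)
  obtain ⟨y, -, q1, q2⟩ : ∃ y < 8, EQ 128 (cj (D4 true) r1 y) 16 ∧ cj (D4 true) t1 y % 32 = 10 := (by clear_aux_decl; clear * - l1 p1 p2 p3 l2 p4 p5 p6; decide +kernel +revert)
  have m3 := (m2.tr y).r _ q1
  have m4 := (m1.tr y).r _ (Nat.mod_mod _ 128).symm
  replace q2 : cj (D4 true) t1 y % 128 % 32 = 10 := by omega
  have l3 : cj (D4 true) t1 y % 128 < 128 := Nat.mod_lt _ (by norm_num)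
  generalize cj (D4 true) t1 y % 128 = t2 at m4 q2 l3
  refine ⟨y, m3, ?_, t2, l3, by omega, m4⟩
  obtain ⟨b1, b2, b3, b4, b5, b6, b7, b8⟩ := N y
  have hw' := mul_mem hw (le_normalizer (el_mem X.gs y))
  generalize w * 𝔯 y = v at *
  have vz := X.fixz b7
  obtain ⟨s1, l4, m5⟩ : ∃ y < 128, 𝔫 v 1 y := X.pg.img0 hw' 1
  have p7 := m5.sq
  have p8 : ¬ IM 126 (s1 % 128) := fun h => absurd ((m5.im (zok _ (by simp)) b3).2 h) (by decide)
  obtain ⟨k1, l5, p9, m6⟩ := Mp.exm (h := X.pg) (zok 120 (by simp)) b5 8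
  obtain ⟨f1, l6, p10, m7⟩ := Mp.exm (h := X.pg) (zok 96 (by simp)) b6 64
  have vN : v ∈ 𝔑 123 := X.nm [(1, s1), (2, t2), (8, k1), (16, 16), (32, 32), (64, f1)] (by simp [m3, m4, m5, m6, m7, vz]) (by
    have a : IM 123 s1 := (by clear_aux_decl; clear * - l4 p7 p8; decide +kernel +revert)
    have b : IM 123 t2 := (by clear_aux_decl; clear * - l3 q2; decide +kernel +revert)
    have c : IM 123 k1 := IM.trans (by decide) p9
    have d : IM 123 f1 := IM.trans (by decide) p10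
    intro i p q
    obtain rfl | rfl | rfl | rfl | rfl | rfl : i = 0 ∨ i = 1 ∨ i = 3 ∨ i = 4 ∨ i = 5 ∨ i = 6 := (by clear_aux_decl; clear * - p q; decide +kernel +revert)
    all_goals simp [a, b, c, d]
    all_goals decide)
  obtain ⟨w0, n0, ⟨t3, l7, p11, m8⟩, ⟨r3, l8, p12, m9⟩, m10, m11⟩ := X.w0
  have Z : ∀ x < 128, IM 96 x → ∃ y < 128, IM 96 y ∧ 𝔫 v⁻¹ x y := fun x _ b => Mp.exm (zok 96 (by simp)) (inv_mem b6) x b
  obtain ⟨z1, l9, p13, m12⟩ := Z (t3 ^^^ t2) (by clear_aux_decl; clear * - l7 p11 l3 q2; decide +kernel +revert) (by clear_aux_decl; clear * - l7 p11 l3 q2; decide +kernel +revert)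
  obtain ⟨z2, l10, p14, m13⟩ := Z (r3 ^^^ 16) (by clear_aux_decl; clear * - l8 p12; decide +kernel +revert) (by clear_aux_decl; clear * - l8 p12; decide +kernel +revert)
  have m14 := m8.trans ((m4.symm.mul m12).cast t3 (z1 + 2) ⟨(by clear_aux_decl; clear * - l7 p11 l3 q2; decide +kernel +revert), (by clear_aux_decl; clear * - l9 p13; decide +kernel +revert)⟩)
  have m15 := m9.trans ((m3.symm.mul m13).cast r3 (z2 + 16) ⟨(by clear_aux_decl; clear * - l8 p12; decide +kernel +revert), (by clear_aux_decl; clear * - l10 p14; decide +kernel +revert)⟩)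
  have m16 := m10.trans vz.symm
  have p15 := X.theta (y := z1 + 2) (by clear_aux_decl; clear * - l9 p13; decide +kernel +revert) (by clear_aux_decl; clear * - l9 p13; decide +kernel +revert) m14.conj
  obtain ⟨f2, l11, p16, m17⟩ := Z (cond e 96 64) dk dk
  obtain ⟨j, lj, p17⟩ : ∃ j < 9, IM 8 j ∧ EQ 128 (cj (D4 true) (z1 + 2) j) 2 := (by clear_aux_decl; clear * - l9 p13 p15; decide +kernel +revert)
  have p18 := p17.1
  have J : ∀ x < 128, IM 112 x → 𝔫 (𝔯 j) x x := fun x a b => .sf _ _ _ _ (by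
    obtain rfl | rfl : j = 0 ∨ j = 8 := (by clear_aux_decl; clear * - lj p18; decide +kernel +revert)
    all_goals exact (by clear_aux_decl; clear * - a b; decide +kernel +revert))
  have b1 : IM 112 (z2 + 16) := (by clear_aux_decl; clear * - l10 p14; decide +kernel +revert)
  have b2 : IM 112 f2 := IM.trans (by decide) p16
  have := X.fixf ((m14.tr j).r _ p17.2) (X.nm [(2, 2), (16, z2 + 16), (32, 32), (64, f2)] (by
    simpa using ⟨(m14.tr j).r _ p17.2, m15.trans (J _ (by clear_aux_decl; clear * - l10 p14; decide +kernel +revert) b1), m16.trans (J _ (by norm_num) (by decide)),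
      (m11.trans m17).trans (J _ l11 b2)⟩) (by
    intro i p q
    obtain rfl | rfl | rfl | rfl : i = 1 ∨ i = 4 ∨ i = 5 ∨ i = 6 := (by clear_aux_decl; clear * - p q; decide +kernel +revert)
    all_goals simp [IM.trans (by decide : IM 114 112) b1, IM.trans (by decide : IM 114 112) b2]
    all_goals decide))
  have q := (((m11.trans m17).trans (J _ l11 b2)).eq this rfl).eq l11
  subst q
  simpa using m17.symm

end St4

end Cfsg.Lib.H33
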